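import Mathlib
import Cfsg.Agent.Helper12.AMDefs
import Cfsg.Agent.Helper9.OrdTools
import Cfsg.Agent.Helper9.OrdTools2

set_option autoImplicit false
set_option linter.style.haveILetI false
open scoped Pointwise

/-!
# CALL S2506, piece SYL5 (helper10)

Two subgroups of order `5` of the alternating group of degree `5` are conjugate in it (Sylow).
-/

namespace Cfsg.Agent.Helper10.AMSYL5

open Cfsg.Agent.Helper12.AM

variable {α : Type*} [Fintype α] [DecidableEq α]

-- PIECE SYL5
theorem sylow_five (A B : Subgroup (Equiv.Perm α)) (hA : A ≤ alternatingGroup α)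
    (hB : B ≤ alternatingGroup α) (h5 : Fintype.card α = 5) (cA : Nat.card A = 5)
    (cB : Nat.card B = 5) :
    ∃ g ∈ alternatingGroup α, B = A.map (MulAut.conj g).toMonoidHom := by
  haveI : Fact (Nat.Prime 5) := ⟨by norm_num⟩
  haveI : Nontrivial α := Fintype.one_lt_card_iff_nontrivial.mp (by rw [h5]; norm_num)
  have hΓ : Nat.card (alternatingGroup α) = 60 := by
    have := two_mul_nat_card_alternatingGroup (α := α)
    rw [Nat.card_perm, Nat.card_eq_fintype_card (α := α), h5] at this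
    have e : Nat.factorial 5 = 120 := by decide
    omega
  have hS : ∀ P : Sylow 5 (alternatingGroup α), Nat.card (P : Subgroup (alternatingGroup α)) = 5 := by
    intro P
    have := Cfsg.Agent.Helper9.OrdTools.sylow_card (p := 5) 1 12 (by rw [hΓ]; norm_num) (by norm_num) P
    simpa using this
  have cA' : Nat.card (A.subgroupOf (alternatingGroup α)) = 5 := by
    rw [Nat.card_congr (Subgroup.subgroupOfEquivOfLe hA).toEquiv, cA]
  have cB' : Nat.card (B.subgroupOf (alternatingGroup α)) = 5 := by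
    rw [Nat.card_congr (Subgroup.subgroupOfEquivOfLe hB).toEquiv, cB]
  obtain ⟨PA, hPA⟩ := Cfsg.Agent.Helper9.OrdTools.sylow_of_card hS _ cA'
  obtain ⟨PB, hPB⟩ := Cfsg.Agent.Helper9.OrdTools.sylow_of_card hS _ cB'
  obtain ⟨g, hg⟩ := MulAction.exists_smul_eq (alternatingGroup α) PA PB
  have hmem : ∀ q : alternatingGroup α,
      q ∈ ((g • PA : Sylow 5 (alternatingGroup α)) : Subgroup (alternatingGroup α)) ↔
        g⁻¹ * q * g ∈ (PA : Subgroup (alternatingGroup α)) := by
    intro q
    rw [Sylow.coe_subgroup_smul, Subgroup.mem_pointwise_smul_iff_inv_smul_mem]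
    simp [MulAut.smul_def]
  rw [hg, hPA, hPB] at hmem
  refine ⟨(g : Equiv.Perm α), g.2, ?_⟩
  ext x
  constructor
  · intro hx
    have h1 : (⟨x, hB hx⟩ : alternatingGroup α) ∈ B.subgroupOf (alternatingGroup α) :=
      Subgroup.mem_subgroupOf.mpr hx
    have h2 := (hmem _).mp h1
    have h3 : ((g⁻¹ * ⟨x, hB hx⟩ * g : alternatingGroup α) : Equiv.Perm α) ∈ A :=
      Subgroup.mem_subgroupOf.mp h2
    refine ⟨_, h3, ?_⟩
    simp only [MulEquiv.coe_toMonoidHom, MulAut.conj_apply, Subgroup.coe_mul, Subgroup.coe_inv]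
    group
  · rintro ⟨a, ha, rfl⟩
    have h1 : (⟨a, hA ha⟩ : alternatingGroup α) ∈ A.subgroupOf (alternatingGroup α) :=
      Subgroup.mem_subgroupOf.mpr ha
    have h2 : g⁻¹ * (g * ⟨a, hA ha⟩ * g⁻¹) * g ∈ A.subgroupOf (alternatingGroup α) := by
      have e : g⁻¹ * (g * ⟨a, hA ha⟩ * g⁻¹) * g = (⟨a, hA ha⟩ : alternatingGroup α) := by group
      rw [e]
      exact h1
    have h3 := (hmem _).mpr h2
    have h4 : ((g * ⟨a, hA ha⟩ * g⁻¹ : alternatingGroup α) : Equiv.Perm α) ∈ B :=
      Subgroup.mem_subgroupOf.mp h3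
    simpa using h4

end Cfsg.Agent.Helper10.AMSYL5
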