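import Mathlib
import Cfsg.Agent.Helper9.PSL2Even
import Cfsg.Agent.Helper10.Conj

/-!
# Piece Eg of CALL S0999 (helper9, Brauer–Reynolds): the `PSL(2, 2^m)` end, general version
-/

set_option autoImplicit false
open Cfsg
open scoped ComplexConjugate Pointwise
universe u

namespace Cfsg.Agent.Helper10

theorem br_sl2_even_gen {G : Type u} [Group G] [Finite G] {p : ℕ} [Fact p.Prime]
    (hOp : ∀ K : Subgroup G, K.Normal → (Nat.card K).Coprime p → K = ⊥)
    (h5 : 5 ≤ p) (hcard : Nat.card G = p * (p - 1) * (p - 2)) (τ : G) (hτ : orderOf τ = 2)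
    (hCτ : Nat.card (Subgroup.centralizer ({τ} : Set G)) = p - 1)
    (hconj : ∀ c : G, c ∈ Subgroup.centralizer ({τ} : Set G) → c ≠ 1 → IsConj c τ) :
    ∃ (m : ℕ) (F : Type) (_ : Field F) (_ : Fintype F), Fintype.card F = 2 ^ m ∧ p = 2 ^ m + 1 ∧
      Nonempty (G ≃* Matrix.ProjectiveSpecialLinearGroup (Fin 2) F) := by
  classical
  obtain ⟨C, hCdef⟩ : ∃ C : Subgroup G, C = Subgroup.centralizer ({τ} : Set G) := ⟨_, rfl⟩
  rw [← hCdef] at hCτ hconj
  have hτsq : τ ^ 2 = 1 := by rw [← hτ]; exact pow_orderOf_eq_one τ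
  -- conjugates of `τ` have square one
  have hconjsq : ∀ g : G, IsConj g τ → g ^ 2 = 1 := by
    intro g hg
    obtain ⟨x, hx⟩ := isConj_iff.mp hg
    have h1 : g = x⁻¹ * τ * x := by rw [← hx]; group
    have h2 : (x⁻¹ * τ * x) ^ 2 = x⁻¹ * τ ^ 2 * x := by
      rw [sq, sq]
      group
    rw [h1, h2, hτsq]
    group
  have hCsq : ∀ c ∈ C, c ^ 2 = 1 := by
    intro c hc
    by_cases h1 : c = 1
    · rw [h1, one_pow]
    · exact hconjsq c (hconj c hc h1)
  have hCp : IsPGroup 2 C := by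
    intro c
    refine ⟨1, ?_⟩
    apply Subtype.ext
    rw [pow_one, Subgroup.coe_pow]
    exact hCsq c c.2
  obtain ⟨m, hm⟩ := IsPGroup.iff_card.mp hCp
  have hpm : p = 2 ^ m + 1 := by omega
  have ha4 : 4 ≤ 2 ^ m := by omega
  have hm2 : 2 ≤ m := by
    by_contra hlt
    have hm' : m = 0 ∨ m = 1 := by omega
    rcases hm' with h | h <;> rw [h] at ha4 <;> norm_num at ha4
  -- `C` is a Sylow 2-subgroup
  obtain ⟨T, hCT⟩ := hCp.exists_le_sylow
  have hTC : C = (T : Subgroup G) := by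
    obtain ⟨j, hj⟩ := IsPGroup.iff_card.mp T.isPGroup'
    have hdvd : Nat.card (T : Subgroup G) ∣ Nat.card G := Subgroup.card_subgroup_dvd_card _
    have hG' : Nat.card G = (2 ^ m + 1) * 2 ^ m * (2 ^ m - 1) := by
      rw [hcard, hpm]
      congr 1
    rw [hj, hG'] at hdvd
    have he : Even (2 ^ m) := Nat.even_pow.mpr ⟨by decide, by omega⟩
    have hodd1 : Odd (2 ^ m + 1) := he.add_one
    have hodd2 : Odd (2 ^ m - 1) := by
      obtain ⟨c, hc⟩ := he
      exact ⟨c - 1, by omega⟩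
    have hc1 : Nat.Coprime (2 ^ j) (2 ^ m + 1) := Nat.Coprime.pow_left j (Nat.coprime_two_left.mpr hodd1)
    have hc2 : Nat.Coprime (2 ^ j) (2 ^ m - 1) := Nat.Coprime.pow_left j (Nat.coprime_two_left.mpr hodd2)
    have h1 : 2 ^ j ∣ (2 ^ m + 1) * 2 ^ m := hc2.dvd_of_dvd_mul_right hdvd
    have h2 : 2 ^ j ∣ 2 ^ m := hc1.dvd_of_dvd_mul_left h1
    have h3 : Nat.card (T : Subgroup G) ≤ Nat.card C := by
      rw [hj, hm]
      exact Nat.le_of_dvd (by positivity) h2
    exact Subgroup.eq_of_le_of_card_ge hCT h3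
  have hTcard : Nat.card (T : Subgroup G) = 2 ^ m := by rw [← hTC]; exact hm
  -- every nontrivial 2-element is conjugate to `τ`
  have hkey : ∀ g : G, g ≠ 1 → g ^ Nat.card (T : Subgroup G) = 1 → IsConj g τ := by
    intro g hg1 hg
    have hzp : IsPGroup 2 (Subgroup.zpowers g) := by
      rintro ⟨y, hy⟩
      obtain ⟨i, rfl⟩ := Subgroup.mem_zpowers_iff.mp hy
      refine ⟨m, ?_⟩
      apply Subtype.ext
      rw [Subgroup.coe_pow]
      show (g ^ i) ^ 2 ^ m = 1
      rw [← zpow_natCast, ← zpow_mul, mul_comm, zpow_mul, zpow_natCast, ← hTcard, hg, one_zpow]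
    obtain ⟨Q, hQ⟩ := hzp.exists_le_sylow
    obtain ⟨x, hx⟩ := MulAction.exists_smul_eq G T Q
    have hgQ : g ∈ (Q : Subgroup G) := hQ (Subgroup.mem_zpowers g)
    rw [← hx, Sylow.coe_subgroup_smul, mem_conj_smul_iff] at hgQ
    have hc1 : x⁻¹ * g * x ≠ 1 := by
      intro h
      apply hg1
      have : g = x * (x⁻¹ * g * x) * x⁻¹ := by group
      rw [this, h]
      group
    have h1 : IsConj (x⁻¹ * g * x) τ := hconj _ (by rw [hTC]; exact hgQ) hc1
    have h2 : IsConj g (x⁻¹ * g * x) := isConj_iff.mpr ⟨x⁻¹, by group⟩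
    exact h2.trans h1
  have hT2 : 2 < Nat.card (T : Subgroup G) := by rw [hTcard]; omega
  have hnn : ¬ (T : Subgroup G).Normal := by
    intro hn
    have hcop : (Nat.card (T : Subgroup G)).Coprime p := by
      rw [hTcard, hpm]
      exact Nat.Coprime.pow_left m (by
        rw [Nat.coprime_two_left]
        exact (Nat.even_pow.mpr ⟨by decide, by omega⟩).add_one)
    have h := hOp _ hn hcop
    rw [h, Subgroup.card_bot] at hT2
    omega
  have hcount : Nat.card {g : G // g ≠ 1 ∧ g ^ Nat.card (T : Subgroup G) = 1} ≤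
      (T : Subgroup G).index := by
    have hch : ∀ g : {g : G // g ≠ 1 ∧ g ^ Nat.card (T : Subgroup G) = 1},
        ∃ x : G, x * τ * x⁻¹ = (g : G) := by
      intro g
      obtain ⟨x, hx⟩ := isConj_iff.mp (hkey g.1 g.2.1 g.2.2).symm
      exact ⟨x, hx⟩
    choose f hf using hch
    have hinj : Function.Injective
        (fun g : {g : G // g ≠ 1 ∧ g ^ Nat.card (T : Subgroup G) = 1} =>
          (QuotientGroup.mk (f g) : G ⧸ (T : Subgroup G))) := by
      intro g g' hgg
      have h1 : (f g)⁻¹ * f g' ∈ (T : Subgroup G) := QuotientGroup.eq.mp hgg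
      rw [← hTC, hCdef, Subgroup.mem_centralizer_singleton_iff] at h1
      apply Subtype.ext
      rw [← hf g, ← hf g']
      have h2 : f g' = f g * ((f g)⁻¹ * f g') := by group
      rw [h2]
      have h3 : f g * ((f g)⁻¹ * f g') * τ * (f g * ((f g)⁻¹ * f g'))⁻¹
          = f g * (((f g)⁻¹ * f g') * τ * ((f g)⁻¹ * f g')⁻¹) * (f g)⁻¹ := by group
      rw [h3, h1]
      group
    have h1 := Nat.card_le_card_of_injective _ hinj
    rwa [← Subgroup.index_eq_card] at h1
  have hC : ∀ z : G, orderOf z = 2 → ∀ c ∈ Subgroup.centralizer ({z} : Set G),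
      c ^ Nat.card (T : Subgroup G) = 1 := by
    intro z hz c hc
    have hz1 : z ≠ 1 := by
      rintro rfl
      rw [orderOf_one] at hz
      omega
    have hz2 : z ^ Nat.card (T : Subgroup G) = 1 := by
      rw [hTcard]
      have : z ^ 2 = 1 := by rw [← hz]; exact pow_orderOf_eq_one z
      obtain ⟨k, hk⟩ : 2 ∣ 2 ^ m := dvd_pow_self 2 (by omega)
      rw [hk, pow_mul, this, one_pow]
    obtain ⟨x, hx⟩ := isConj_iff.mp (hkey z hz1 hz2)
    -- `x * z * x⁻¹ = τ`, so `x * c * x⁻¹ ∈ C`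
    have hc' : x * c * x⁻¹ ∈ C := by
      rw [hCdef, Subgroup.mem_centralizer_singleton_iff]
      rw [Subgroup.mem_centralizer_singleton_iff] at hc
      rw [← hx]
      have h1 : x * c * x⁻¹ * (x * z * x⁻¹) = x * (c * z) * x⁻¹ := by group
      have h2 : x * z * x⁻¹ * (x * c * x⁻¹) = x * (z * c) * x⁻¹ := by group
      rw [h1, h2, hc]
    have h3 := hCsq _ hc'
    have h4 : (x * c * x⁻¹) ^ 2 = x * c ^ 2 * x⁻¹ := conj_pow
    rw [h4] at h3
    have h5 : c ^ 2 = 1 := by
      have : c ^ 2 = x⁻¹ * (x * c ^ 2 * x⁻¹) * x := by group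
      rw [this, h3]
      group
    rw [hTcard]
    obtain ⟨k, hk⟩ : 2 ∣ 2 ^ m := dvd_pow_self 2 (by omega)
    rw [hk, pow_mul, h5, one_pow]
  haveI : Fact (Nat.Prime 2) := ⟨Nat.prime_two⟩
  haveI : Fintype (GaloisField 2 m) := Fintype.ofFinite _
  have hF : Fintype.card (GaloisField 2 m) = 2 ^ m := by
    rw [← Nat.card_eq_fintype_card]
    exact GaloisField.card 2 m (by omega)
  refine ⟨m, GaloisField 2 m, inferInstance, inferInstance, hF, hpm, ?_⟩
  exact Helper9.OrdTools.iso_psl_of_count T hT2 hnn hcount hC (by rw [hF, hTcard])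

end Cfsg.Agent.Helper10
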