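import Mathlib
import Cfsg.Agent.Helper10.FFPair3
import Cfsg.Agent.S0611
import Cfsg.Agent.S0612

/-!
Helper10: assembly lemmas for the structure theorem for failure of factorization
(Kurzweil–Stellmacher 9.3.8): the groups `E = ⁅Q, A⁆ A` for minimal offenders `A`.
-/

set_option autoImplicit false

namespace Cfsg.Agent.Helper10

open scoped commutatorElement Pointwise

/-- A minimal nontrivially-acting best offender in `H`. -/
def IsMinOff {G : Type*} [Group G] (p : ℕ) (V H A : Subgroup G) : Prop :=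
  A ≤ H ∧ Cfsg.IsBestOffenderOn p V A ∧ ⁅V, A⁆ ≠ ⊥ ∧
    ∀ B : Subgroup G, B ≤ A → Cfsg.IsBestOffenderOn p V B → ⁅V, B⁆ ≠ ⊥ → B = A

section

variable {G : Type*} [Group G] [Finite G] {p : ℕ} [Fact p.Prime] {V H : Subgroup G}

/-- The standing hypothesis of the structure theorem gives `FFHyp` for `Q = O_{p'}(H)`. -/
theorem ffs_hyp (hV : Cfsg.IsElementaryAbelian p V)
    (hHV : H ≤ Subgroup.normalizer (V : Set G))
    (hf : H ⊓ Subgroup.centralizer (V : Set G) = ⊥)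
    (hS1 : Subgroup.centralizer (Cfsg.pPrimeCore p ↥H : Set ↥H) ≤ Cfsg.pPrimeCore p ↥H) :
    FFHyp p V H ((Cfsg.pPrimeCore p ↥H).map H.subtype) := by
  obtain ⟨hQH, hHQ, hQp, hfaith⟩ := hypS_of_pPrimeCore (p := p) H hS1
  exact ⟨hV, hHV, hf, hQH, hHQ, hQp, hfaith⟩

/-- Minimal offenders are T-subgroups. -/
theorem ffs_minoff_tsub (hV : Cfsg.IsElementaryAbelian p V)
    (hHV : H ≤ Subgroup.normalizer (V : Set G))
    (hf : H ⊓ Subgroup.centralizer (V : Set G) = ⊥)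
    (hS1 : Subgroup.centralizer (Cfsg.pPrimeCore p ↥H : Set ↥H) ≤ Cfsg.pPrimeCore p ↥H)
    (hS3 : H = ⨆ A : {A : Subgroup G // A ≤ H ∧ Cfsg.IsBestOffenderOn p V A}, (A : Subgroup G))
    (hH1 : H ≠ ⊥) {A : Subgroup G} (hA : IsMinOff p V H A) : IsTSub p V H A := by
  obtain ⟨hAc, hD, -⟩ :=
    Cfsg.Agent.S0611.result V H hV hHV hf hS1 hS3 hH1 A hA.1 hA.2.1 hA.2.2.1 hA.2.2.2
  exact ⟨hA.1, hAc, hD⟩

/-- `H` lies in every subgroup containing all minimal offenders. -/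
theorem ffs_le_of_minoff_le (hV : Cfsg.IsElementaryAbelian p V)
    (hHV : H ≤ Subgroup.normalizer (V : Set G))
    (hf : H ⊓ Subgroup.centralizer (V : Set G) = ⊥)
    (hS1 : Subgroup.centralizer (Cfsg.pPrimeCore p ↥H : Set ↥H) ≤ Cfsg.pPrimeCore p ↥H)
    (hS3 : H = ⨆ A : {A : Subgroup G // A ≤ H ∧ Cfsg.IsBestOffenderOn p V A}, (A : Subgroup G))
    (hH1 : H ≠ ⊥) (X : Subgroup G) (hX : ∀ A : Subgroup G, IsMinOff p V H A → A ≤ X) :
    H ≤ X := by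
  have key : (⨆ A : {A : Subgroup G // A ≤ H ∧ Cfsg.IsBestOffenderOn p V A}, (A : Subgroup G))
      ≤ X := by
    apply iSup_le
    rintro ⟨A, hAH, hA⟩
    show A ≤ X
    by_cases hA1 : A = ⊥
    · rw [hA1]; exact bot_le
    · obtain ⟨k, B, hB, -, hsup⟩ :=
        Cfsg.Agent.S0612.result V H hV hHV hf hS1 hS3 hH1 A hAH hA hA1
      rw [← hsup]
      apply iSup_le
      intro i
      exact hX (B i) ⟨(hB i).1.trans hAH, (hB i).2.1, (hB i).2.2.1, (hB i).2.2.2⟩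
  exact hS3.le.trans key

end

section

variable {G : Type*} [Group G] [Finite G] {p : ℕ} [Fact p.Prime] {V H Q : Subgroup G}

/-- If `H` is generated by T-subgroups then `H = L × C_H(W)` for `L = ⟨A, A ^ x⟩`,
`W = ⁅V, L⁆`: `C_H(W)` centralizes `L`, `H = L C_H(W)` and `⁅V, C_H(W)⁆ ≤ C_V(L)`. -/
theorem FFHyp.factor (h : FFHyp p V H Q) {A : Subgroup G} (hA : IsTSub p V H A) {x : G}
    (hx : x ∈ Q) (hxA : x ∉ Subgroup.centralizer (A : Set G))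
    (hgen : ∀ X : Subgroup G, (∀ A' : Subgroup G, IsTSub p V H A' → A' ≤ X) → H ≤ X) :
    H ⊓ Subgroup.centralizer ((⁅V, A ⊔ A.map (MulAut.conj x).toMonoidHom⁆ : Subgroup G) : Set G)
      ≤ Subgroup.centralizer ((A ⊔ A.map (MulAut.conj x).toMonoidHom : Subgroup G) : Set G) ∧
    H ≤ (A ⊔ A.map (MulAut.conj x).toMonoidHom) ⊔ (H ⊓ Subgroup.centralizer
      ((⁅V, A ⊔ A.map (MulAut.conj x).toMonoidHom⁆ : Subgroup G) : Set G)) ∧
    ⁅V, H ⊓ Subgroup.centralizer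
      ((⁅V, A ⊔ A.map (MulAut.conj x).toMonoidHom⁆ : Subgroup G) : Set G)⁆ ≤
      Subgroup.centralizer ((A ⊔ A.map (MulAut.conj x).toMonoidHom : Subgroup G) : Set G) := by
  obtain ⟨hc, hexp⟩ := (elemAb_iff p V).mp h.hV
  obtain ⟨-, -, hK, -, -, -⟩ := h.pair hA hx hxA
  have hBT : IsTSub p V H (A.map (MulAut.conj x).toMonoidHom) := hA.conj h.hHV (h.hQH hx)
  have hdich : ∀ A' : Subgroup G, IsTSub p V H A' → _ := fun A' hA' =>
    h.dichotomy hA hA' hx hxA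
  set L : Subgroup G := A ⊔ A.map (MulAut.conj x).toMonoidHom with hL
  set W : Subgroup G := ⁅V, L⁆ with hW
  have hLH : L ≤ H := sup_le hA.1 hBT.1
  have hWV : W ≤ V := commutator_le_of_le_normalizer V L (hLH.trans h.hHV)
  -- (6')
  have h6 : H ⊓ Subgroup.centralizer (W : Set G) ≤ Subgroup.centralizer (L : Set G) := by
    have hHLM : H ≤ L ⊔ (H ⊓ Subgroup.centralizer (L : Set G) ⊓
        Subgroup.centralizer (W : Set G)) := by
      apply hgen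
      intro A' hA'
      rcases hdich A' hA' with h1 | ⟨h1, h2⟩
      · exact h1.trans le_sup_left
      · exact (le_inf (le_inf hA'.1 h1) h2).trans le_sup_right
    intro n hn
    have hcomm : ∀ l ∈ L, ∀ m ∈ H ⊓ Subgroup.centralizer (L : Set G) ⊓
        Subgroup.centralizer (W : Set G), l * m = m * l := by
      intro l hl m hm
      exact Subgroup.mem_centralizer_iff.mp hm.1.2 l hl
    obtain ⟨l, hl, m, hm, rfl⟩ := mem_sup_of_commute' hcomm (hHLM hn.1)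
    have hlW : l ∈ Subgroup.centralizer (W : Set G) := by
      have e : l = (l * m) * m⁻¹ := by group
      rw [e]
      exact Subgroup.mul_mem _ hn.2 (Subgroup.inv_mem _ hm.2)
    have hl1 : l ∈ L ⊓ Subgroup.centralizer (W : Set G) := ⟨hl, hlW⟩
    rw [hK, Subgroup.mem_bot] at hl1
    rw [hl1, one_mul]
    exact hm.1.2
  refine ⟨h6, ?_, ?_⟩
  · apply hgen
    intro A' hA'
    rcases hdich A' hA' with h1 | ⟨-, h2⟩
    · exact h1.trans le_sup_left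
    · exact (le_inf hA'.1 h2).trans le_sup_right
  · rw [Subgroup.commutator_le]
    intro v hv n hn
    rw [Subgroup.mem_centralizer_iff]
    intro l hl
    have hnl : l * n = n * l := Subgroup.mem_centralizer_iff.mp (h6 hn) l hl
    have hnV : n ∈ Subgroup.normalizer (V : Set G) := h.hHV hn.1
    -- `w = l v l⁻¹ v⁻¹ ∈ W` is centralized by `n`
    have hw : l * v * l⁻¹ * v⁻¹ ∈ W := by
      have h2 : ⁅v, l⁆ ∈ W := Subgroup.commutator_mem_commutator hv hl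
      have e : l * v * l⁻¹ * v⁻¹ = ⁅v, l⁆⁻¹ := by rw [commutatorElement_def]; group
      rw [e]
      exact W.inv_mem h2
    have hnw : (l * v * l⁻¹ * v⁻¹) * n = n * (l * v * l⁻¹ * v⁻¹) :=
      Subgroup.mem_centralizer_iff.mp hn.2 _ hw
    have hvn : ⁅v, n⁆ ∈ V := by
      have h1 : n * v⁻¹ * n⁻¹ ∈ V :=
        (Subgroup.mem_normalizer_iff.mp hnV v⁻¹).mp (V.inv_mem hv)
      have e : ⁅v, n⁆ = v * (n * v⁻¹ * n⁻¹) := by rw [commutatorElement_def]; group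
      rw [e]
      exact V.mul_mem hv h1
    have hcw := hc _ (hWV hw) _ hvn
    -- l ⁅v, n⁆ l⁻¹ = ⁅l v l⁻¹, n⁆ = ⁅w v, n⁆ = w ⁅v, n⁆ w⁻¹ = ⁅v, n⁆
    have e1 : l * ⁅v, n⁆ * l⁻¹ = (l * v * l⁻¹ * v⁻¹) * ⁅v, n⁆ * (l * v * l⁻¹ * v⁻¹)⁻¹ := by
      have hnl' : n⁻¹ * l⁻¹ = l⁻¹ * n⁻¹ := by
        rw [← mul_inv_rev, ← mul_inv_rev, hnl]
      have hnw' : n⁻¹ * (l * v * l⁻¹ * v⁻¹)⁻¹ = (l * v * l⁻¹ * v⁻¹)⁻¹ * n⁻¹ := by
        rw [← mul_inv_rev, ← mul_inv_rev, hnw]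
      calc l * ⁅v, n⁆ * l⁻¹ = l * v * (n * (v⁻¹ * (n⁻¹ * l⁻¹))) := by
            rw [commutatorElement_def]; group
        _ = l * v * (n * (v⁻¹ * (l⁻¹ * n⁻¹))) := by rw [hnl']
        _ = l * v * l⁻¹ * (l * n) * l⁻¹ * l * v⁻¹ * l⁻¹ * n⁻¹ := by group
        _ = l * v * l⁻¹ * (n * l) * l⁻¹ * l * v⁻¹ * l⁻¹ * n⁻¹ := by rw [hnl]
        _ = (l * v * l⁻¹ * v⁻¹) * (v * n * v⁻¹) * ((l * v * l⁻¹ * v⁻¹)⁻¹ * n⁻¹) := by group
        _ = (l * v * l⁻¹ * v⁻¹) * (v * n * v⁻¹) * (n⁻¹ * (l * v * l⁻¹ * v⁻¹)⁻¹) := by rw [hnw']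
        _ = (l * v * l⁻¹ * v⁻¹) * ⁅v, n⁆ * (l * v * l⁻¹ * v⁻¹)⁻¹ := by
            rw [commutatorElement_def]; group
    have e2 : l * ⁅v, n⁆ * l⁻¹ = ⁅v, n⁆ := by
      rw [e1, hcw, mul_inv_cancel_right]
    calc l * ⁅v, n⁆ = (l * ⁅v, n⁆ * l⁻¹) * l := by group
      _ = ⁅v, n⁆ * l := by rw [e2]

end

end Cfsg.Agent.Helper10
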