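import Mathlib
import Cfsg.Agent.Helper10.FFStruct

/-!
Helper10: the final assembly of the structure theorem for failure of factorization: a family
of pairwise centralizing subgroups `E i` generating `H`, each acting faithfully on its own
commutator `⁅V, E i⁆` with `V = ⁅V, E i⁆ × C_V(E i)`, gives the direct decompositions of `H`
and of `V`.
-/

set_option autoImplicit false

namespace Cfsg.Agent.Helper10

open scoped commutatorElement Pointwise

theorem ffs_assemble {G : Type*} [Group G] {ι : Type*} [Finite ι] (V H : Subgroup G)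
    (E : ι → Subgroup G) (hc : ∀ x ∈ V, ∀ y ∈ V, x * y = y * x)
    (hWV : ∀ i, ⁅V, E i⁆ ≤ V) (hEH : ∀ i, E i ≤ H)
    (hK : ∀ i, E i ⊓ Subgroup.centralizer ((⁅V, E i⁆ : Subgroup G) : Set G) = ⊥)
    (hne : ∀ i j, i ≠ j → E j ≤ Subgroup.centralizer (E i : Set G) ∧
      E j ≤ Subgroup.centralizer ((⁅V, E i⁆ : Subgroup G) : Set G))
    (hgen : H ≤ ⨆ i, E i)
    (h4 : ∀ i, ⁅V, E i⁆ ⊓ Subgroup.centralizer (E i : Set G) = ⊥)
    (h5 : ∀ i, ⁅V, E i⁆ ⊔ (V ⊓ Subgroup.centralizer (E i : Set G)) = V) :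
    (∀ i, H ≤ Subgroup.normalizer (E i : Set G)) ∧ iSupIndep E ∧ (⨆ i, E i) = H ∧
    iSupIndep (fun o : Option ι =>
      o.elim (V ⊓ Subgroup.centralizer (H : Set G)) (fun i => ⁅V, E i⁆)) ∧
    (V ⊓ Subgroup.centralizer (H : Set G)) ⊔ (⨆ i, ⁅V, E i⁆) = V := by
  classical
  haveI : Fintype ι := Fintype.ofFinite ι
  have hA : ∀ S : Finset ι,
      (V ⊓ Subgroup.centralizer (H : Set G)) ⊓ S.sup (fun i => ⁅V, E i⁆) = ⊥ := by
    intro S
    induction S using Finset.induction_on with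
    | empty => simp
    | insert i S hi ih =>
      rw [Finset.sup_insert, eq_bot_iff]
      rintro y ⟨hyY, hy⟩
      have hSV : S.sup (fun i => ⁅V, E i⁆) ≤ V := Finset.sup_le (fun j _ => hWV j)
      have hSC : S.sup (fun i => ⁅V, E i⁆) ≤ Subgroup.centralizer (E i : Set G) :=
        Finset.sup_le (fun j hj => by
          have hji : j ≠ i := fun h => hi (h ▸ hj)
          exact Subgroup.le_centralizer_iff.mp (hne j i hji).2)
      obtain ⟨w, hw, s, hs, rfl⟩ :=
        mem_sup_of_commute' (fun a ha b hb => hc a (hWV i ha) b (hSV hb)) hy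
      have hyC : w * s ∈ Subgroup.centralizer (E i : Set G) :=
        Subgroup.centralizer_le (hEH i) hyY.2
      have hwC : w ∈ Subgroup.centralizer (E i : Set G) := by
        have e : w = (w * s) * s⁻¹ := by group
        rw [e]
        exact Subgroup.mul_mem _ hyC (Subgroup.inv_mem _ (hSC hs))
      have hw1 : w ∈ ⁅V, E i⁆ ⊓ Subgroup.centralizer (E i : Set G) := ⟨hw, hwC⟩
      rw [h4 i, Subgroup.mem_bot] at hw1
      rw [hw1, one_mul] at hyY ⊢
      rw [← ih]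
      exact ⟨hyY, hs⟩
  have hB : ∀ S : Finset ι, ∀ v ∈ V, ∃ s ∈ S.sup (fun i => ⁅V, E i⁆), ∃ c ∈ V,
      (∀ j ∈ S, c ∈ Subgroup.centralizer (E j : Set G)) ∧ v = s * c := by
    intro S
    induction S using Finset.induction_on with
    | empty =>
      intro v hv
      exact ⟨1, Subgroup.one_mem _, v, hv, by simp, (one_mul v).symm⟩
    | insert i S hi ih =>
      intro v hv
      obtain ⟨s, hs, c, hcV, hcC, rfl⟩ := ih v hv
      have hc5 : c ∈ ⁅V, E i⁆ ⊔ (V ⊓ Subgroup.centralizer (E i : Set G)) := by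
        rw [h5 i]; exact hcV
      have hcomm : ∀ a ∈ ⁅V, E i⁆, ∀ b ∈ V ⊓ Subgroup.centralizer (E i : Set G),
          a * b = b * a := fun a ha b hb => hc a (hWV i ha) b hb.1
      obtain ⟨w, hw, c', hc', rfl⟩ := mem_sup_of_commute' hcomm hc5
      refine ⟨s * w, ?_, c', hc'.1, ?_, by group⟩
      · rw [Finset.sup_insert]
        exact Subgroup.mul_mem _ (Subgroup.mem_sup_right hs) (Subgroup.mem_sup_left hw)
      · intro j hj
        rcases Finset.mem_insert.mp hj with hji | hjS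
        · rw [hji]
          exact hc'.2
        · have hji : j ≠ i := fun h => hi (h ▸ hjS)
          have hwC : w ∈ Subgroup.centralizer (E j : Set G) :=
            (Subgroup.le_centralizer_iff.mp (hne i j hji.symm).2) hw
          have e : c' = w⁻¹ * (w * c') := by group
          rw [e]
          exact Subgroup.mul_mem _ (Subgroup.inv_mem _ hwC) (hcC j hjS)
  refine ⟨?_, ?_, le_antisymm (iSup_le hEH) hgen, ?_, ?_⟩
  · intro i
    refine hgen.trans (iSup_le fun j => ?_)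
    by_cases hij : j = i
    · rw [hij]
      exact Subgroup.le_normalizer
    · exact ((hne i j (Ne.symm hij)).1).trans (Subgroup.centralizer_le_normalizer _)
  · rw [iSupIndep_def]
    intro i
    rw [disjoint_iff, ← le_bot_iff, ← hK i]
    exact le_inf inf_le_left (inf_le_right.trans (iSup₂_le fun j hj => (hne i j hj.symm).2))
  · rw [iSupIndep_def]
    intro o
    cases o with
    | none =>
      rw [disjoint_iff, ← le_bot_iff, ← hA Finset.univ, Finset.sup_univ_eq_iSup]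
      refine le_inf inf_le_left (inf_le_right.trans (iSup₂_le ?_))
      intro o' ho'
      cases o' with
      | none => exact absurd rfl ho'
      | some j => exact le_iSup (fun j => ⁅V, E j⁆) j
    | some i =>
      rw [disjoint_iff, ← le_bot_iff, ← h4 i]
      refine le_inf inf_le_left (inf_le_right.trans (iSup₂_le ?_))
      intro o' ho'
      cases o' with
      | none =>
        exact inf_le_right.trans (Subgroup.centralizer_le (hEH i))
      | some j =>
        have hji : j ≠ i := fun h => ho' (by rw [h])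
        exact Subgroup.le_centralizer_iff.mp (hne j i hji).2
  · apply le_antisymm (sup_le inf_le_left (iSup_le hWV))
    intro v hv
    obtain ⟨s, hs, c, hcV, hcC, rfl⟩ := hB Finset.univ v hv
    rw [Finset.sup_univ_eq_iSup] at hs
    have hcH : c ∈ Subgroup.centralizer (H : Set G) := by
      have hle : H ≤ Subgroup.centralizer ({c} : Set G) :=
        hgen.trans (iSup_le fun j => by
          intro e he
          rw [Subgroup.mem_centralizer_iff]
          intro y hy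
          rw [Set.mem_singleton_iff.mp hy]
          exact (Subgroup.mem_centralizer_iff.mp (hcC j (Finset.mem_univ j)) e he).symm)
      rw [Subgroup.mem_centralizer_iff]
      intro y hy
      exact (Subgroup.mem_centralizer_iff.mp (hle hy) c rfl).symm
    exact Subgroup.mul_mem _ (Subgroup.mem_sup_right hs) (Subgroup.mem_sup_left ⟨hcV, hcH⟩)

/-- Two different groups `L₁ = ⟨A₁, A₁ ^ x₁⟩`, `L₂ = ⟨A₂, A₂ ^ x₂⟩` centralize each other, and
`L₂` centralizes `⁅V, L₁⁆`. -/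
theorem FFHyp.pair_centralize {G : Type*} [Group G] [Finite G] {p : ℕ} [Fact p.Prime]
    {V H Q : Subgroup G} (h : FFHyp p V H Q) {A₁ A₂ : Subgroup G}
    (hA₁ : IsTSub p V H A₁) (hA₂ : IsTSub p V H A₂) {x₁ x₂ : G} (hx₁ : x₁ ∈ Q)
    (hx₁A : x₁ ∉ Subgroup.centralizer (A₁ : Set G)) (hx₂ : x₂ ∈ Q)
    (hx₂A : x₂ ∉ Subgroup.centralizer (A₂ : Set G))
    (hne : A₁ ⊔ A₁.map (MulAut.conj x₁).toMonoidHom ≠ A₂ ⊔ A₂.map (MulAut.conj x₂).toMonoidHom) :
    A₂ ⊔ A₂.map (MulAut.conj x₂).toMonoidHom ≤ Subgroup.centralizer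
      ((A₁ ⊔ A₁.map (MulAut.conj x₁).toMonoidHom : Subgroup G) : Set G) ∧
    A₂ ⊔ A₂.map (MulAut.conj x₂).toMonoidHom ≤ Subgroup.centralizer
      ((⁅V, A₁ ⊔ A₁.map (MulAut.conj x₁).toMonoidHom⁆ : Subgroup G) : Set G) := by
  obtain ⟨-, -, -, ⟨e₁⟩, -, -⟩ := h.pair hA₁ hx₁ hx₁A
  obtain ⟨-, -, -, ⟨e₂⟩, -, -⟩ := h.pair hA₂ hx₂ hx₂A
  have hQL := h.Q_le_normalizer hA₁ hx₁ hx₁A
  have hsup₂ := h.commutator_Q_sup hA₂ hx₂ hx₂A
  have hB₂ : IsTSub p V H (A₂.map (MulAut.conj x₂).toMonoidHom) := hA₂.conj h.hHV (h.hQH hx₂)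
  have hd₁ := h.dichotomy hA₁ hA₂ hx₁ hx₁A
  have hd₂ := h.dichotomy hA₁ hB₂ hx₁ hx₁A
  set L₁ : Subgroup G := A₁ ⊔ A₁.map (MulAut.conj x₁).toMonoidHom with hL₁
  have hnot : ¬ A₂ ≤ L₁ := by
    intro hle
    apply hne
    have hle' : A₂ ⊔ A₂.map (MulAut.conj x₂).toMonoidHom ≤ L₁ := by
      rw [← hsup₂]
      apply sup_le _ hle
      rw [Subgroup.commutator_le]
      intro q hq a ha
      have h1 : q * a * q⁻¹ ∈ L₁ := (Subgroup.mem_normalizer_iff.mp (hQL hq) a).mp (hle ha)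
      rw [commutatorElement_def]
      exact L₁.mul_mem h1 (L₁.inv_mem (hle ha))
    have hcard : Nat.card L₁ = Nat.card ↥(A₂ ⊔ A₂.map (MulAut.conj x₂).toMonoidHom) := by
      rw [Nat.card_congr e₁.toEquiv, Nat.card_congr e₂.toEquiv]
    exact (Subgroup.eq_of_le_of_card_ge hle' hcard.le).symm
  have hnot' : ¬ A₂.map (MulAut.conj x₂).toMonoidHom ≤ L₁ := by
    intro hle
    apply hnot
    intro a ha
    exact (Subgroup.mem_normalizer_iff.mp (hQL hx₂) a).mpr (hle (ffp_mem_map_conj A₂ x₂ ha))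
  rcases hd₁ with h1 | ⟨h1, h1'⟩
  · exact absurd h1 hnot
  rcases hd₂ with h2 | ⟨h2, h2'⟩
  · exact absurd h2 hnot'
  exact ⟨sup_le h1 h2, sup_le h1' h2'⟩

/-- **Structure theorem for failure of factorization**, with the index set of the groups
`E = ⁅Q, A⁆ A` given by a predicate `P`. -/
theorem ffs_structure {G : Type*} [Group G] [Finite G] {p : ℕ} [Fact p.Prime] (V H : Subgroup G)
    (hV : Cfsg.IsElementaryAbelian p V) (hHV : H ≤ Subgroup.normalizer (V : Set G))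
    (hf : H ⊓ Subgroup.centralizer (V : Set G) = ⊥)
    (hS1 : Subgroup.centralizer (Cfsg.pPrimeCore p ↥H : Set ↥H) ≤ Cfsg.pPrimeCore p ↥H)
    (hS3 : H = ⨆ A : {A : Subgroup G // A ≤ H ∧ Cfsg.IsBestOffenderOn p V A}, (A : Subgroup G))
    (hH1 : H ≠ ⊥) (P : Subgroup G → Prop)
    (hP : ∀ E, P E ↔ ∃ A, IsMinOff p V H A ∧
      E = ⁅(Cfsg.pPrimeCore p ↥H).map H.subtype, A⁆ ⊔ A) :
    (p = 2 ∨ p = 3) ∧
    (∀ E : {E : Subgroup G // P E}, H ≤ Subgroup.normalizer ((E : Subgroup G) : Set G) ∧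
      Nonempty (↥(E : Subgroup G) ≃* Matrix.SpecialLinearGroup (Fin 2) (ZMod p)) ∧
      Nat.card ↥(⁅V, (E : Subgroup G)⁆) = p ^ 2) ∧
    iSupIndep (fun E : {E : Subgroup G // P E} => (E : Subgroup G)) ∧
    (⨆ E : {E : Subgroup G // P E}, (E : Subgroup G)) = H ∧
    iSupIndep (fun o : Option {E : Subgroup G // P E} =>
      o.elim (V ⊓ Subgroup.centralizer (H : Set G)) (fun E => ⁅V, (E : Subgroup G)⁆)) ∧
    (V ⊓ Subgroup.centralizer (H : Set G)) ⊔
      (⨆ E : {E : Subgroup G // P E}, ⁅V, (E : Subgroup G)⁆) = V := by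
  have hp : p.Prime := Fact.out
  have hh := ffs_hyp hV hHV hf hS1
  have hc := ((elemAb_iff p V).mp hV).1
  have htsub : ∀ A, IsMinOff p V H A → IsTSub p V H A := fun A hA =>
    ffs_minoff_tsub hV hHV hf hS1 hS3 hH1 hA
  have hgen0 : ∀ X : Subgroup G, (∀ A, IsMinOff p V H A → A ≤ X) → H ≤ X :=
    ffs_le_of_minoff_le hV hHV hf hS1 hS3 hH1
  set Q : Subgroup G := (Cfsg.pPrimeCore p ↥H).map H.subtype with hQ
  have hdata : ∀ E : {E : Subgroup G // P E}, ∃ (A : Subgroup G) (x : G), IsTSub p V H A ∧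
      x ∈ Q ∧ x ∉ Subgroup.centralizer (A : Set G) ∧
      (E : Subgroup G) = A ⊔ A.map (MulAut.conj x).toMonoidHom := by
    rintro ⟨E, hE⟩
    obtain ⟨A, hA, rfl⟩ := (hP E).mp hE
    have hAT := htsub A hA
    obtain ⟨x, hx, hxA⟩ := hh.exists_not_mem_centralizer hAT
    exact ⟨A, x, hAT, hx, hxA, hh.commutator_Q_sup hAT hx hxA⟩
  obtain ⟨A₀, hA₀⟩ : ∃ A, IsMinOff p V H A := by
    by_contra hcon
    push Not at hcon
    have : H ≤ ⊥ := hgen0 ⊥ (fun A hA => absurd hA (hcon A))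
    exact hH1 (le_bot_iff.mp this)
  have h23 : p = 2 ∨ p = 3 := by
    have hAT := htsub A₀ hA₀
    obtain ⟨x, hx, hxA⟩ := hh.exists_not_mem_centralizer hAT
    exact (hh.pair hAT hx hxA).1
  have hEH : ∀ E : {E : Subgroup G // P E}, (E : Subgroup G) ≤ H := by
    intro E
    obtain ⟨A, x, hAT, hx, hxA, hE⟩ := hdata E
    rw [hE]
    exact sup_le hAT.1 (hAT.conj hHV (hh.hQH hx)).1
  have hWV : ∀ E : {E : Subgroup G // P E}, ⁅V, (E : Subgroup G)⁆ ≤ V := fun E =>
    commutator_le_of_le_normalizer V _ ((hEH E).trans hHV)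
  have hK : ∀ E : {E : Subgroup G // P E}, (E : Subgroup G) ⊓
      Subgroup.centralizer ((⁅V, (E : Subgroup G)⁆ : Subgroup G) : Set G) = ⊥ := by
    intro E
    obtain ⟨A, x, hAT, hx, hxA, hE⟩ := hdata E
    rw [hE]
    exact (hh.pair hAT hx hxA).2.2.1
  have hne : ∀ E₁ E₂ : {E : Subgroup G // P E}, E₁ ≠ E₂ →
      (E₂ : Subgroup G) ≤ Subgroup.centralizer ((E₁ : Subgroup G) : Set G) ∧
      (E₂ : Subgroup G) ≤
        Subgroup.centralizer ((⁅V, (E₁ : Subgroup G)⁆ : Subgroup G) : Set G) := by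
    intro E₁ E₂ h12
    obtain ⟨A₁, x₁, hA₁, hx₁, hx₁A, hE₁⟩ := hdata E₁
    obtain ⟨A₂, x₂, hA₂, hx₂, hx₂A, hE₂⟩ := hdata E₂
    have hne' : A₁ ⊔ A₁.map (MulAut.conj x₁).toMonoidHom ≠
        A₂ ⊔ A₂.map (MulAut.conj x₂).toMonoidHom := by
      rw [← hE₁, ← hE₂]
      exact fun h => h12 (Subtype.ext h)
    rw [hE₁, hE₂]
    exact hh.pair_centralize hA₁ hA₂ hx₁ hx₁A hx₂ hx₂A hne'
  have hgen : H ≤ ⨆ E : {E : Subgroup G // P E}, (E : Subgroup G) := by
    apply hgen0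
    intro A hA
    have hPE : P (⁅Q, A⁆ ⊔ A) := (hP _).mpr ⟨A, hA, rfl⟩
    exact le_sup_right.trans
      (le_iSup (fun E : {E : Subgroup G // P E} => (E : Subgroup G)) ⟨_, hPE⟩)
  have h4 : ∀ E : {E : Subgroup G // P E}, ⁅V, (E : Subgroup G)⁆ ⊓
      Subgroup.centralizer ((E : Subgroup G) : Set G) = ⊥ := by
    intro E
    obtain ⟨A, x, hAT, hx, hxA, hE⟩ := hdata E
    rw [hE]
    exact hh.inf_centralizer_L hAT hx hxA
  have h5 : ∀ E : {E : Subgroup G // P E}, ⁅V, (E : Subgroup G)⁆ ⊔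
      (V ⊓ Subgroup.centralizer ((E : Subgroup G) : Set G)) = V := by
    intro E
    obtain ⟨A, x, hAT, hx, hxA, hE⟩ := hdata E
    rw [hE]
    exact hh.sup_centralizer_L hAT hx hxA
  obtain ⟨hN, hind, hsupH, hindO, hsupV⟩ :=
    ffs_assemble V H (fun E : {E : Subgroup G // P E} => (E : Subgroup G)) hc hWV hEH hK hne
      hgen h4 h5
  refine ⟨h23, ?_, hind, hsupH, hindO, hsupV⟩
  intro E
  obtain ⟨A, x, hAT, hx, hxA, hE⟩ := hdata E
  refine ⟨hN E, ?_, ?_⟩
  · rw [hE]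
    exact (hh.pair hAT hx hxA).2.2.2.1
  · rw [hE]
    exact (hh.pair hAT hx hxA).2.1

end Cfsg.Agent.Helper10
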