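import Mathlib

set_option autoImplicit false

namespace Cfsg.Agent.Helper10

section FrobBase

variable {k : Type*} [Field k] {G : Type*} [Group G]
variable {V : Type*} [AddCommGroup V] [Module k V]

theorem frb_inv_apply (ρ : G →* Module.End k V) (g : G) (v : V) : ρ g⁻¹ (ρ g v) = v := by
  have : (ρ g⁻¹ * ρ g) v = v := by rw [← map_mul, inv_mul_cancel, map_one]; rfl
  exact this

theorem frb_apply_inv (ρ : G →* Module.End k V) (g : G) (v : V) : ρ g (ρ g⁻¹ v) = v := by
  have := frb_inv_apply ρ g⁻¹ v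
  rwa [inv_inv] at this

theorem frb_mul_apply (ρ : G →* Module.End k V) (g h : G) (v : V) : ρ (g * h) v = ρ g (ρ h v) := by
  rw [map_mul]; rfl

theorem frb_injective (ρ : G →* Module.End k V) (g : G) : Function.Injective (ρ g) := by
  intro a b h
  have := congrArg (ρ g⁻¹) h
  rwa [frb_inv_apply, frb_inv_apply] at this

/-- `W` freely generates `V` under `H`: the translates `ρ h W` are independent and span `V`. -/
def frbFreeGen (ρ : G →* Module.End k V) (H : Subgroup G) [Fintype H] (W : Submodule k V) : Prop :=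
  (∀ f : ↥H → V, (∀ h, f h ∈ W) → ∑ h : ↥H, ρ (h : G) (f h) = 0 → ∀ h, f h = 0) ∧
  (∀ v : V, ∃ f : ↥H → V, (∀ h, f h ∈ W) ∧ ∑ h : ↥H, ρ (h : G) (f h) = v)

/-- `V` is a free module for `H`. -/
def frbHFree (ρ : G →* Module.End k V) (H : Subgroup G) [Fintype H] : Prop :=
  ∃ W : Submodule k V, frbFreeGen ρ H W

theorem frbFreeGen.isInternal {ρ : G →* Module.End k V} {H : Subgroup G} [Fintype H]
    [DecidableEq H] {W : Submodule k V} (hW : frbFreeGen ρ H W) :
    DirectSum.IsInternal (fun h : ↥H => W.map (ρ (h : G))) := by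
  classical
  rw [DirectSum.isInternal_submodule_iff_iSupIndep_and_iSup_eq_top]
  constructor
  · rw [iSupIndep_iff_finsetSum_eq_zero_imp_eq_zero]
    intro s v hv hsum i hi
    have hex : ∀ i : ↥H, ∃ w : V, w ∈ W ∧ (i ∈ s → ρ (i : G) w = v i) ∧ (i ∉ s → w = 0) := by
      intro i
      by_cases his : i ∈ s
      · obtain ⟨w, hw, hwv⟩ := Submodule.mem_map.mp (hv i his)
        exact ⟨w, hw, fun _ => hwv, fun h => absurd his h⟩
      · exact ⟨0, W.zero_mem, fun h => absurd h his, fun _ => rfl⟩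
    choose f hfW hfv hf0 using hex
    have hsum' : ∑ h : ↥H, ρ (h : G) (f h) = 0 := by
      rw [← hsum]
      symm
      rw [← Finset.sum_subset (Finset.subset_univ s)]
      · exact Finset.sum_congr rfl (fun i hi => (hfv i hi).symm)
      · intro i _ his
        rw [hf0 i his, map_zero]
    have := hW.1 f hfW hsum' i
    rw [← hfv i hi, this, map_zero]
  · rw [eq_top_iff]
    intro v _
    obtain ⟨f, hf, rfl⟩ := hW.2 v
    exact Submodule.sum_mem _ (fun h _ =>
      Submodule.mem_iSup_of_mem h (Submodule.mem_map_of_mem (hf h)))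

/-- The sub-representation on an invariant subspace. -/
noncomputable def frbSub (ρ : G →* Module.End k V) (U : Submodule k V)
    (hU : ∀ g : G, ∀ u ∈ U, ρ g u ∈ U) : G →* Module.End k ↥U where
  toFun g := (ρ g).restrict (hU g)
  map_one' := by
    apply LinearMap.ext
    intro u
    apply Subtype.ext
    simp [LinearMap.restrict_apply]
  map_mul' := fun g h => by
    apply LinearMap.ext
    intro u
    apply Subtype.ext
    simp [LinearMap.restrict_apply]

theorem frbSub_coe (ρ : G →* Module.End k V) (U : Submodule k V)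
    (hU : ∀ g : G, ∀ u ∈ U, ρ g u ∈ U) (g : G) (u : ↥U) :
    ((frbSub ρ U hU g u : ↥U) : V) = ρ g (u : V) := rfl

/-- The quotient representation modulo an invariant subspace. -/
noncomputable def frbQuot (ρ : G →* Module.End k V) (U : Submodule k V)
    (hU : ∀ g : G, ∀ u ∈ U, ρ g u ∈ U) : G →* Module.End k (V ⧸ U) where
  toFun g := U.mapQ U (ρ g) (fun u hu => hU g u hu)
  map_one' := by
    apply Submodule.linearMap_qext
    apply LinearMap.ext
    intro v
    simp
  map_mul' := fun g h => by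
    apply Submodule.linearMap_qext
    apply LinearMap.ext
    intro v
    simp

theorem frbQuot_mk (ρ : G →* Module.End k V) (U : Submodule k V)
    (hU : ∀ g : G, ∀ u ∈ U, ρ g u ∈ U) (g : G) (v : V) :
    frbQuot ρ U hU g (U.mkQ v) = U.mkQ (ρ g v) := rfl

/-- Extension lemma: free sub and free quotient give a free module. -/
theorem frb_extension (ρ : G →* Module.End k V) (H : Subgroup G) [Fintype H]
    (U : Submodule k V) (hU : ∀ g : G, ∀ u ∈ U, ρ g u ∈ U)
    (h1 : frbHFree (frbSub ρ U hU) H) (h2 : frbHFree (frbQuot ρ U hU) H) : frbHFree ρ H := by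
  classical
  obtain ⟨W1, hW1i, hW1s⟩ := h1
  obtain ⟨W2, hW2i, hW2s⟩ := h2
  obtain ⟨C, hC⟩ := Submodule.exists_isCompl U
  refine ⟨W1.map U.subtype ⊔ (C ⊓ W2.comap U.mkQ), ?_, ?_⟩
  · intro f hf hsum h
    have hdec : ∀ h : ↥H, ∃ u : ↥U, ∃ c : V, u ∈ W1 ∧ c ∈ C ∧ U.mkQ c ∈ W2 ∧
        f h = (u : V) + c := by
      intro h
      obtain ⟨a, ha, c, hc, hac⟩ := Submodule.mem_sup.mp (hf h)
      obtain ⟨u, hu, rfl⟩ := Submodule.mem_map.mp ha
      exact ⟨u, c, hu, hc.1, hc.2, hac.symm⟩
    choose u c hu hcC hcW hfuc using hdec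
    have hq : ∑ h : ↥H, (frbQuot ρ U hU (h : G)) (U.mkQ (c h)) = 0 := by
      have h0 := congrArg U.mkQ hsum
      rw [map_sum, map_zero] at h0
      rw [← h0]
      refine Finset.sum_congr rfl (fun h _ => ?_)
      rw [hfuc h, map_add, map_add]
      have hz : U.mkQ (ρ (h : G) (u h : V)) = 0 :=
        (Submodule.Quotient.mk_eq_zero U).mpr (hU _ _ (u h).2)
      rw [hz, zero_add]
      rfl
    have hc0 : ∀ h, U.mkQ (c h) = 0 := hW2i (fun h => U.mkQ (c h)) hcW hq
    have hc0' : ∀ h, c h = 0 := by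
      intro h
      have hcU : c h ∈ U := (Submodule.Quotient.mk_eq_zero U).mp (hc0 h)
      exact (Submodule.disjoint_def.mp hC.disjoint) (c h) hcU (hcC h)
    have hu0 : ∑ h : ↥H, (frbSub ρ U hU (h : G)) (u h) = 0 := by
      apply Subtype.ext
      rw [Submodule.coe_sum, Submodule.coe_zero, ← hsum]
      refine Finset.sum_congr rfl (fun h _ => ?_)
      rw [hfuc h, hc0' h, add_zero]
      rfl
    have := hW1i u hu hu0 h
    rw [hfuc h, hc0' h, this]
    simp
  · intro v
    obtain ⟨g2, hg2, hsum2⟩ := hW2s (U.mkQ v)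
    have hlift : ∀ h : ↥H, ∃ c : V, c ∈ C ∧ U.mkQ c = g2 h := by
      intro h
      obtain ⟨x, hx⟩ := Submodule.mkQ_surjective U (g2 h)
      have hx' : x ∈ U ⊔ C := by rw [hC.sup_eq_top]; trivial
      obtain ⟨a, ha, c, hc, hac⟩ := Submodule.mem_sup.mp hx'
      refine ⟨c, hc, ?_⟩
      rw [← hx, ← hac, map_add]
      have hz : U.mkQ a = 0 := (Submodule.Quotient.mk_eq_zero U).mpr ha
      rw [hz, zero_add]
    choose c hcC hcq using hlift
    have hvU : v - ∑ h : ↥H, ρ (h : G) (c h) ∈ U := by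
      have h0 : U.mkQ (v - ∑ h : ↥H, ρ (h : G) (c h)) = 0 := by
        rw [map_sub, map_sum, ← hsum2, sub_eq_zero]
        refine Finset.sum_congr rfl (fun h _ => ?_)
        rw [← hcq h]
        rfl
      exact (Submodule.Quotient.mk_eq_zero U).mp h0
    obtain ⟨g1, hg1, hsum1⟩ := hW1s ⟨_, hvU⟩
    refine ⟨fun h => (g1 h : V) + c h, fun h => ?_, ?_⟩
    · exact Submodule.add_mem_sup (Submodule.mem_map_of_mem (hg1 h))
        ⟨hcC h, by show U.mkQ (c h) ∈ W2; rw [hcq]; exact hg2 h⟩
    · have h0 := congrArg Subtype.val hsum1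
      rw [Submodule.coe_sum] at h0
      simp only [map_add, Finset.sum_add_distrib]
      have h1 : ∑ h : ↥H, ρ (h : G) (g1 h : V) = v - ∑ h : ↥H, ρ (h : G) (c h) := h0
      rw [h1]
      abel

/-- Averaging: if the `N`-fixed vectors lie in `U` and `#N` is invertible, then `V/U` has no
nonzero `N`-fixed vector. -/
theorem frb_average (ρ : G →* Module.End k V) (N : Subgroup G) [Fintype N]
    (hN : (Fintype.card N : k) ≠ 0) (U : Submodule k V)
    (hfix : ∀ v : V, (∀ n ∈ N, ρ n v = v) → v ∈ U) (v : V)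
    (hv : ∀ n ∈ N, ρ n v - v ∈ U) : v ∈ U := by
  classical
  have he : ∑ n : ↥N, ρ (n : G) v ∈ U := by
    apply hfix
    intro m hm
    rw [map_sum]
    exact Fintype.sum_equiv (Equiv.mulLeft (⟨m, hm⟩ : ↥N)) _ _
      (fun n => by rw [← frb_mul_apply]; rfl)
  have h2 : (Fintype.card N : k) • v = ∑ n : ↥N, ρ (n : G) v - ∑ n : ↥N, (ρ (n : G) v - v) := by
    rw [Finset.sum_sub_distrib, sub_sub_cancel, Finset.sum_const, Finset.card_univ,
      Nat.cast_smul_eq_nsmul]
  have h3 : (Fintype.card N : k) • v ∈ U := by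
    rw [h2]
    exact U.sub_mem he (U.sum_mem fun n _ => hv n n.2)
  exact (U.smul_mem_iff hN).mp h3

end FrobBase

end Cfsg.Agent.Helper10
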