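import Mathlib

set_option autoImplicit false

namespace Cfsg.Agent.Helper10

/-- Abstract semilinear lemma: a finite group acting faithfully on a field `L` and semilinearly on a
nonzero `L`-space has a `k`-subspace `W` whose translates are independent and span an `L`-stable set. -/
theorem frb_semilinear {k L M Γ : Type*} [Field k] [Field L] [Algebra k L] [AddCommGroup M]
    [Module k M] [Module L M] [IsScalarTower k L M] [Group Γ] [Fintype Γ]
    [MulSemiringAction Γ L] [FaithfulSMul Γ L]
    (σ : Γ →* Module.End k M)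
    (hsemi : ∀ (g : Γ) (a : L) (m : M), σ g (a • m) = (g • a) • σ g m)
    (hk : ∀ (g : Γ) (c : k), g • (algebraMap k L c) = algebraMap k L c)
    [Nontrivial M] :
    ∃ W : Submodule k M, W ≠ ⊥ ∧
      (∀ f : Γ → M, (∀ g, f g ∈ W) → ∑ g, σ g (f g) = 0 → ∀ g, f g = 0) ∧
      (∀ (a : L) (f : Γ → M), (∀ g, f g ∈ W) →
        ∃ f' : Γ → M, (∀ g, f' g ∈ W) ∧ a • ∑ g, σ g (f g) = ∑ g, σ g (f' g)) := by
  classical
  obtain ⟨m0, hm0⟩ := exists_ne (0 : M)
  have hσmul : ∀ (g h : Γ) (x : M), σ g (σ h x) = σ (g * h) x := by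
    intro g h x
    rw [map_mul]; rfl
  have hfix : ∃ v0 : M, v0 ≠ 0 ∧ ∀ g, σ g v0 = v0 := by
    by_contra hcon
    push Not at hcon
    have hT : ∀ a : L, ∑ g : Γ, (g • a) • σ g m0 = 0 := by
      intro a
      by_contra hne
      have hfixed : ∀ h : Γ, σ h (∑ g : Γ, σ g (a • m0)) = ∑ g : Γ, σ g (a • m0) := by
        intro h
        rw [map_sum]
        exact Fintype.sum_equiv (Equiv.mulLeft h) _ _ (fun g => by rw [hσmul]; rfl)
      have hne' : ∑ g : Γ, σ g (a • m0) ≠ 0 := by
        intro h0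
        apply hne
        rw [← h0]
        exact Finset.sum_congr rfl (fun g _ => (hsemi g a m0).symm)
      obtain ⟨h, hh⟩ := hcon _ hne'
      exact hh (hfixed h)
    have hli : LinearIndependent L (fun g : Γ => (fun a : L => g • a)) := by
      have h1 := linearIndependent_monoidHom L L
      have hinj : Function.Injective
          (fun g : Γ => ((MulSemiringAction.toRingHom Γ L g : L →+* L) : L →* L)) := by
        intro g g' hgg'
        apply eq_of_smul_eq_smul (α := L)
        intro a
        exact DFunLike.congr_fun hgg' a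
      exact h1.comp _ hinj
    rw [Fintype.linearIndependent_iff] at hli
    have hdual : ∀ φ : Module.Dual L M, ∀ g : Γ, φ (σ g m0) = 0 := by
      intro φ
      apply hli (fun g => φ (σ g m0))
      funext a
      have := congrArg φ (hT a)
      simp only [map_sum, map_smul, map_zero, smul_eq_mul] at this
      simp only [Finset.sum_apply, Pi.smul_apply, smul_eq_mul, Pi.zero_apply]
      rw [← this]
      exact Finset.sum_congr rfl (fun g _ => mul_comm _ _)
    have h1 : σ 1 m0 = 0 :=
      (Module.forall_dual_apply_eq_zero_iff L _).mp (fun φ => hdual φ 1)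
    rw [map_one] at h1
    exact hm0 h1
  obtain ⟨v0, hv0, hv0fix⟩ := hfix
  let b := IsGalois.normalBasis (FixedPoints.subfield Γ L) L
  let ψ := FixedPoints.toAlgAutMulEquiv Γ L
  obtain ⟨θ, hθ⟩ : ∃ θ : L, θ = b 1 := ⟨_, rfl⟩
  have hbψ : ∀ g : Γ, b (ψ g) = g • θ := by
    intro g
    rw [IsGalois.normalBasis_apply, hθ]
    rfl
  have hθ0 : θ ≠ 0 := by rw [hθ]; exact b.ne_zero 1
  -- key computation
  have hcomp : ∀ c : Γ → L, (∀ g h : Γ, h • c g = c g) →
      ∑ g, σ g ((c g * θ) • v0) = (∑ g, c g * (g • θ)) • v0 := by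
    intro c hc
    rw [Finset.sum_smul]
    refine Finset.sum_congr rfl (fun g _ => ?_)
    rw [hsemi, smul_mul', hc, hv0fix]
  -- independence of the g • θ over the fixed field
  have hind : ∀ c : Γ → L, (∀ g h : Γ, h • c g = c g) → ∑ g, c g * (g • θ) = 0 → ∀ g, c g = 0 := by
    intro c hc hsum g
    have hli := b.linearIndependent.comp ψ ψ.injective
    rw [Fintype.linearIndependent_iff] at hli
    have := hli (fun g => (⟨c g, fun h => hc g h⟩ : FixedPoints.subfield Γ L)) (by
      rw [← hsum]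
      refine Finset.sum_congr rfl (fun g _ => ?_)
      simp only [Function.comp_apply, hbψ]
      rfl) g
    exact congrArg Subtype.val this
  let W : Submodule k M :=
    { carrier := {x | ∃ c : L, (∀ g : Γ, g • c = c) ∧ x = (c * θ) • v0}
      zero_mem' := ⟨0, fun g => smul_zero g, by simp⟩
      add_mem' := by
        rintro x y ⟨c, hc, rfl⟩ ⟨d, hd, rfl⟩
        exact ⟨c + d, fun g => by rw [smul_add, hc, hd], by rw [add_mul, add_smul]⟩
      smul_mem' := by
        rintro r x ⟨c, hc, rfl⟩
        refine ⟨algebraMap k L r * c, fun g => by rw [smul_mul', hk, hc], ?_⟩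
        rw [mul_assoc, ← smul_smul (algebraMap k L r), algebraMap_smul] }
  have hWmem : ∀ x : M, x ∈ W ↔ ∃ c : L, (∀ g : Γ, g • c = c) ∧ x = (c * θ) • v0 := fun x => Iff.rfl
  refine ⟨W, ?_, ?_, ?_⟩
  · intro hbot
    have h1 : θ • v0 ∈ W := (hWmem _).mpr ⟨1, fun g => smul_one g, by rw [one_mul]⟩
    rw [hbot, Submodule.mem_bot] at h1
    exact (smul_ne_zero hθ0 hv0) h1
  · intro f hf hsum g
    have hex : ∀ g, ∃ c : L, (∀ h : Γ, h • c = c) ∧ f g = (c * θ) • v0 := fun g => (hWmem _).mp (hf g)
    choose c hc hfc using hex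
    have h1 : (∑ g, c g * (g • θ)) • v0 = 0 := by
      rw [← hcomp c hc, ← hsum]
      exact Finset.sum_congr rfl (fun g _ => by rw [hfc g])
    have h2 : ∑ g, c g * (g • θ) = 0 := by
      rcases smul_eq_zero.mp h1 with h | h
      · exact h
      · exact absurd h hv0
    rw [hfc g, hind c hc h2 g, zero_mul, zero_smul]
  · intro a f hf
    have hex : ∀ g, ∃ c : L, (∀ h : Γ, h • c = c) ∧ f g = (c * θ) • v0 := fun g => (hWmem _).mp (hf g)
    choose c hc hfc using hex
    obtain ⟨x, hx⟩ : ∃ x : L, x = a * ∑ g, c g * (g • θ) := ⟨_, rfl⟩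
    have hxsum : x = ∑ g : Γ, ((b.repr x (ψ g) : FixedPoints.subfield Γ L) : L) * (g • θ) := by
      conv_lhs => rw [← b.sum_repr x]
      rw [← Fintype.sum_equiv ψ.toEquiv (fun g => (b.repr x (ψ g)) • b (ψ g))
        (fun e => (b.repr x e) • b e) (fun g => rfl)]
      refine Finset.sum_congr rfl (fun g _ => ?_)
      rw [hbψ]
      rfl
    refine ⟨fun g => (((b.repr x (ψ g) : FixedPoints.subfield Γ L) : L) * θ) • v0, fun g => ?_, ?_⟩
    · exact (hWmem _).mpr ⟨_, fun h => (b.repr x (ψ g)).2 h, rfl⟩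
    · rw [hcomp (fun g => ((b.repr x (ψ g) : FixedPoints.subfield Γ L) : L))
        (fun g h => (b.repr x (ψ g)).2 h), ← hxsum, hx,
        ← smul_smul, ← hcomp c hc]
      congr 1
      exact Finset.sum_congr rfl (fun g _ => by rw [hfc g])

end Cfsg.Agent.Helper10
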