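import Mathlib
import Cfsg.Agent.Helper10.FrobSL

set_option autoImplicit false

namespace Cfsg.Agent.Helper10

theorem frb_adjoin_comm {k A : Type*} [Field k] [Ring A] [Algebra k A] (S : Set A)
    (hS : ∀ a ∈ S, ∀ b ∈ S, a * b = b * a) :
    ∀ a ∈ Algebra.adjoin k S, ∀ b ∈ Algebra.adjoin k S, a * b = b * a := by
  have h1 : Algebra.adjoin k S ≤ Subalgebra.centralizer k S := by
    apply Algebra.adjoin_le
    intro a ha
    rw [SetLike.mem_coe, Subalgebra.mem_centralizer_iff]
    intro g hg
    exact hS g hg a ha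
  intro a ha b hb
  have h2 := Algebra.adjoin_le_centralizer_centralizer k S ha
  rw [Subalgebra.mem_centralizer_iff] at h2
  exact (h2 b (h1 hb)).symm

theorem frb_field_step {k M Γ : Type*} [Field k] [AddCommGroup M] [Module k M]
    [FiniteDimensional k M] [Nontrivial M] [Group Γ] [Fintype Γ]
    (S : Set (Module.End k M)) (hScomm : ∀ a ∈ S, ∀ b ∈ S, a * b = b * a)
    (hinj : ∀ r ∈ Algebra.adjoin k S, r ≠ 0 → Function.Injective r)
    (σ : Γ →* Module.End k M)
    (hσS : ∀ g : Γ, ∀ a ∈ S, σ g * a * σ g⁻¹ ∈ S)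
    (hfaith : ∀ g : Γ, (∀ a ∈ S, σ g * a = a * σ g) → g = 1) :
    ∃ W : Submodule k M, W ≠ ⊥ ∧
      (∀ f : Γ → M, (∀ g, f g ∈ W) → ∑ g, σ g (f g) = 0 → ∀ g, f g = 0) ∧
      (∀ r ∈ Algebra.adjoin k S, ∀ (f : Γ → M), (∀ g, f g ∈ W) →
        ∃ f' : Γ → M, (∀ g, f' g ∈ W) ∧ r (∑ g, σ g (f g)) = ∑ g, σ g (f' g)) := by
  classical
  have hσinv : ∀ g : Γ, σ g⁻¹ * σ g = 1 := fun g => by rw [← map_mul, inv_mul_cancel, map_one]
  have hσinv' : ∀ g : Γ, σ g * σ g⁻¹ = 1 := fun g => by rw [← map_mul, mul_inv_cancel, map_one]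
  have hcomm := frb_adjoin_comm (k := k) S hScomm
  have hconj : ∀ g : Γ, ∀ a ∈ Algebra.adjoin k S, σ g * a * σ g⁻¹ ∈ Algebra.adjoin k S := by
    intro g a ha
    induction ha using Algebra.adjoin_induction with
    | mem x hx => exact Algebra.subset_adjoin (hσS g x hx)
    | algebraMap r =>
      have : σ g * algebraMap k (Module.End k M) r * σ g⁻¹ = algebraMap k (Module.End k M) r := by
        rw [← Algebra.commutes r (σ g), mul_assoc, hσinv', mul_one]
      rw [this]
      exact Subalgebra.algebraMap_mem _ r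
    | add x y _ _ hx hy =>
      have : σ g * (x + y) * σ g⁻¹ = σ g * x * σ g⁻¹ + σ g * y * σ g⁻¹ := by
        rw [mul_add, add_mul]
      rw [this]
      exact Subalgebra.add_mem _ hx hy
    | mul x y _ _ hx hy =>
      have : σ g * (x * y) * σ g⁻¹ = (σ g * x * σ g⁻¹) * (σ g * y * σ g⁻¹) := by
        calc σ g * (x * y) * σ g⁻¹ = σ g * x * 1 * y * σ g⁻¹ := by simp [mul_assoc]
          _ = σ g * x * (σ g⁻¹ * σ g) * y * σ g⁻¹ := by rw [hσinv]
          _ = (σ g * x * σ g⁻¹) * (σ g * y * σ g⁻¹) := by simp only [mul_assoc]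
      rw [this]
      exact Subalgebra.mul_mem _ hx hy
  -- the action on the subalgebra
  let act0 : MulSemiringAction Γ ↥(Algebra.adjoin k S) :=
    { smul := fun g a => ⟨σ g * (a : Module.End k M) * σ g⁻¹, hconj g a a.2⟩
      one_smul := fun a => by
        apply Subtype.ext
        change σ 1 * (a : Module.End k M) * σ (1 : Γ)⁻¹ = a
        rw [inv_one, map_one, one_mul, mul_one]
      mul_smul := fun g h a => by
        apply Subtype.ext
        change σ (g * h) * (a : Module.End k M) * σ (g * h)⁻¹ =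
          σ g * (σ h * (a : Module.End k M) * σ h⁻¹) * σ g⁻¹
        rw [mul_inv_rev, map_mul, map_mul]
        simp only [mul_assoc]
      smul_zero := fun g => by
        apply Subtype.ext
        change σ g * ((0 : ↥(Algebra.adjoin k S)) : Module.End k M) * σ g⁻¹ = 0
        simp
      smul_add := fun g a b => by
        apply Subtype.ext
        change σ g * ((a + b : ↥(Algebra.adjoin k S)) : Module.End k M) * σ g⁻¹ =
          σ g * (a : Module.End k M) * σ g⁻¹ + σ g * (b : Module.End k M) * σ g⁻¹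
        rw [Subalgebra.coe_add, mul_add, add_mul]
      smul_one := fun g => by
        apply Subtype.ext
        change σ g * ((1 : ↥(Algebra.adjoin k S)) : Module.End k M) * σ g⁻¹ = 1
        rw [Subalgebra.coe_one, mul_one, hσinv']
      smul_mul := fun g a b => by
        apply Subtype.ext
        change σ g * ((a * b : ↥(Algebra.adjoin k S)) : Module.End k M) * σ g⁻¹ =
          (σ g * (a : Module.End k M) * σ g⁻¹) * (σ g * (b : Module.End k M) * σ g⁻¹)
        rw [Subalgebra.coe_mul]
        calc σ g * ((a : Module.End k M) * b) * σ g⁻¹ = σ g * a * 1 * b * σ g⁻¹ := by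
              simp [mul_assoc]
          _ = σ g * a * (σ g⁻¹ * σ g) * b * σ g⁻¹ := by rw [hσinv]
          _ = _ := by simp only [mul_assoc] }
  have hact0 : ∀ (g : Γ) (a : ↥(Algebra.adjoin k S)),
      ((g • a : ↥(Algebra.adjoin k S)) : Module.End k M) = σ g * (a : Module.End k M) * σ g⁻¹ :=
    fun g a => rfl
  -- commutative ring, domain, field
  let instC : CommRing ↥(Algebra.adjoin k S) :=
    { (inferInstance : Ring ↥(Algebra.adjoin k S)) with
      mul_comm := fun a b => Subtype.ext (hcomm a a.2 b b.2) }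
  have hdom : IsDomain ↥(Algebra.adjoin k S) := by
    have hnt : Nontrivial ↥(Algebra.adjoin k S) := by
      refine ⟨⟨0, 1, ?_⟩⟩
      intro h01
      obtain ⟨m, hm⟩ := exists_ne (0 : M)
      have := congrArg (fun a : ↥(Algebra.adjoin k S) => (a : Module.End k M) m) h01
      simp at this
      exact hm this.symm
    have hnz : NoZeroDivisors ↥(Algebra.adjoin k S) := by
      refine ⟨fun {a b} hab => ?_⟩
      by_cases ha : a = 0
      · exact Or.inl ha
      · right
        have ha' : (a : Module.End k M) ≠ 0 := fun h => ha (Subtype.ext h)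
        have hi := hinj a a.2 ha'
        apply Subtype.ext
        apply LinearMap.ext
        intro m
        apply hi
        have := congrArg (fun c : ↥(Algebra.adjoin k S) => (c : Module.End k M) m) hab
        simpa using this
    exact NoZeroDivisors.to_isDomain _
  have hfld : IsField ↥(Algebra.adjoin k S) :=
    isField_of_isIntegral_of_isField' (R := k) (Field.toIsField k)
  let fK : Field ↥(Algebra.adjoin k S) := hfld.toField
  let algK : Algebra k ↥(Algebra.adjoin k S) := Subalgebra.algebra _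
  let modK : Module ↥(Algebra.adjoin k S) M := Subalgebra.moduleLeft _
  have towK : IsScalarTower k ↥(Algebra.adjoin k S) M := Subalgebra.isScalarTower_mid _
  let actK : MulSemiringAction Γ ↥(Algebra.adjoin k S) := act0
  have faithK : FaithfulSMul Γ ↥(Algebra.adjoin k S) := by
    refine ⟨fun {g g'} h => ?_⟩
    have h1 : g'⁻¹ * g = 1 := by
      apply hfaith
      intro a ha
      have h2 := congrArg (fun c : ↥(Algebra.adjoin k S) => (c : Module.End k M))
        (h ⟨a, Algebra.subset_adjoin ha⟩)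
      have h3 : σ g * a * σ g⁻¹ = σ g' * a * σ g'⁻¹ := h2
      calc σ (g'⁻¹ * g) * a = σ g'⁻¹ * (σ g * a * σ g⁻¹) * σ g := by
            rw [map_mul]; simp only [mul_assoc]; rw [hσinv, mul_one]
        _ = σ g'⁻¹ * (σ g' * a * σ g'⁻¹) * σ g := by rw [h3]
        _ = (σ g'⁻¹ * σ g') * a * (σ g'⁻¹ * σ g) := by simp only [mul_assoc]
        _ = a * σ (g'⁻¹ * g) := by rw [hσinv, one_mul, map_mul]
    exact (inv_mul_eq_one.mp h1).symm
  have hsemi : ∀ (g : Γ) (a : ↥(Algebra.adjoin k S)) (m : M), σ g (a • m) = (g • a) • σ g m := by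
    intro g a m
    change σ g ((a : Module.End k M) m) = (σ g * (a : Module.End k M) * σ g⁻¹) (σ g m)
    have : (σ g⁻¹ * σ g) m = m := by rw [hσinv]; rfl
    change σ g ((a : Module.End k M) m) = σ g ((a : Module.End k M) ((σ g⁻¹ * σ g) m))
    rw [this]
  have hk : ∀ (g : Γ) (c : k), g • (algebraMap k ↥(Algebra.adjoin k S) c) =
      algebraMap k ↥(Algebra.adjoin k S) c := by
    intro g c
    apply Subtype.ext
    change σ g * algebraMap k (Module.End k M) c * σ g⁻¹ = algebraMap k (Module.End k M) c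
    rw [← Algebra.commutes c (σ g), mul_assoc, hσinv', mul_one]
  obtain ⟨W, hW0, hWi, hWs⟩ := frb_semilinear (k := k) (L := ↥(Algebra.adjoin k S)) (M := M) σ hsemi hk
  refine ⟨W, hW0, hWi, ?_⟩
  intro r hr f hf
  exact hWs ⟨r, hr⟩ f hf

end Cfsg.Agent.Helper10
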