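import Mathlib
import Cfsg.Agent.Helper10.FrobBase
import Cfsg.Agent.Helper10.FrobField

set_option autoImplicit false

namespace Cfsg.Agent.Helper10

section FrobCliff

variable {k : Type*} [Field k] {G : Type*} [Group G]
variable {V : Type*} [AddCommGroup V] [Module k V]

/-- The set of operators `ρ n`, `n ∈ N`. -/
def frbImg (ρ : G →* Module.End k V) (N : Subgroup G) : Set (Module.End k V) :=
  {a | ∃ n ∈ N, a = ρ n}

/-- The algebra generated by the operators `ρ n`, `n ∈ N`. -/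
def frbAlg (ρ : G →* Module.End k V) (N : Subgroup G) : Subalgebra k (Module.End k V) :=
  Algebra.adjoin k (frbImg ρ N)

theorem frb_mem_alg (ρ : G →* Module.End k V) (N : Subgroup G) {n : G} (hn : n ∈ N) :
    ρ n ∈ frbAlg ρ N := Algebra.subset_adjoin ⟨n, hn, rfl⟩

theorem frbAlg_comm (ρ : G →* Module.End k V) (N : Subgroup G)
    (hcomm : ∀ n ∈ N, ∀ n' ∈ N, ρ n * ρ n' = ρ n' * ρ n) :
    ∀ a ∈ frbAlg ρ N, ∀ b ∈ frbAlg ρ N, a * b = b * a := by
  apply frb_adjoin_comm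
  rintro _ ⟨n, hn, rfl⟩ _ ⟨n', hn', rfl⟩
  exact hcomm n hn n' hn'

theorem frbAlg_conj (ρ : G →* Module.End k V) (N : Subgroup G) (h : G)
    (hh : ∀ n ∈ N, h * n * h⁻¹ ∈ N) :
    ∀ a ∈ frbAlg ρ N, ρ h * a * ρ h⁻¹ ∈ frbAlg ρ N := by
  have hσinv : ρ h⁻¹ * ρ h = 1 := by rw [← map_mul, inv_mul_cancel, map_one]
  have hσinv' : ρ h * ρ h⁻¹ = 1 := by rw [← map_mul, mul_inv_cancel, map_one]
  intro a ha
  induction ha using Algebra.adjoin_induction with
  | mem x hx =>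
    obtain ⟨n, hn, rfl⟩ := hx
    have : ρ h * ρ n * ρ h⁻¹ = ρ (h * n * h⁻¹) := by rw [map_mul, map_mul]
    rw [this]
    exact frb_mem_alg ρ N (hh n hn)
  | algebraMap r =>
    have : ρ h * algebraMap k (Module.End k V) r * ρ h⁻¹ = algebraMap k (Module.End k V) r := by
      rw [← Algebra.commutes r (ρ h), mul_assoc, hσinv', mul_one]
    rw [this]
    exact Subalgebra.algebraMap_mem _ r
  | add x y _ _ hx hy =>
    have : ρ h * (x + y) * ρ h⁻¹ = ρ h * x * ρ h⁻¹ + ρ h * y * ρ h⁻¹ := by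
      rw [mul_add, add_mul]
    rw [this]
    exact Subalgebra.add_mem _ hx hy
  | mul x y _ _ hx hy =>
    have : ρ h * (x * y) * ρ h⁻¹ = (ρ h * x * ρ h⁻¹) * (ρ h * y * ρ h⁻¹) := by
      calc ρ h * (x * y) * ρ h⁻¹ = ρ h * x * 1 * y * ρ h⁻¹ := by simp [mul_assoc]
        _ = ρ h * x * (ρ h⁻¹ * ρ h) * y * ρ h⁻¹ := by rw [hσinv]
        _ = (ρ h * x * ρ h⁻¹) * (ρ h * y * ρ h⁻¹) := by simp only [mul_assoc]
    rw [this]
    exact Subalgebra.mul_mem _ hx hy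

theorem frbAlg_invariant (ρ : G →* Module.End k V) (N : Subgroup G) (U : Submodule k V)
    (hU : ∀ n ∈ N, ∀ u ∈ U, ρ n u ∈ U) :
    ∀ a ∈ frbAlg ρ N, ∀ u ∈ U, a u ∈ U := by
  intro a ha
  induction ha using Algebra.adjoin_induction with
  | mem x hx =>
    obtain ⟨n, hn, rfl⟩ := hx
    exact hU n hn
  | algebraMap r =>
    intro u hu
    rw [Module.algebraMap_end_apply]
    exact U.smul_mem r hu
  | add x y _ _ hx hy =>
    intro u hu
    rw [LinearMap.add_apply]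
    exact U.add_mem (hx u hu) (hy u hu)
  | mul x y _ _ hx hy =>
    intro u hu
    exact hx _ (hy u hu)

/-- A minimal nonzero subspace with a given property. -/
theorem frb_exists_min [FiniteDimensional k V] [Nontrivial V] (P : Submodule k V → Prop)
    (hP : P ⊤) :
    ∃ U : Submodule k V, U ≠ ⊥ ∧ P U ∧ ∀ U' : Submodule k V, U' ≤ U → U' ≠ ⊥ → P U' → U' = U := by
  have hne : {U : Submodule k V | U ≠ ⊥ ∧ P U}.Nonempty := ⟨⊤, top_ne_bot, hP⟩
  obtain ⟨U, hU, hmin⟩ := (wellFounded_lt (α := Submodule k V)).has_min _ hne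
  refine ⟨U, hU.1, hU.2, fun U' hle hne' hP' => ?_⟩
  by_contra hcon
  exact hmin U' ⟨hne', hP'⟩ (lt_of_le_of_ne hle hcon)

/-- Standing data for the Clifford step. -/
structure FrbData (ρ : G →* Module.End k V) (N H : Subgroup G) (U1 : Submodule k V) : Prop where
  norm : ∀ h ∈ H, ∀ n ∈ N, h * n * h⁻¹ ∈ N
  comm : ∀ n ∈ N, ∀ n' ∈ N, ρ n * ρ n' = ρ n' * ρ n
  fpf : ∀ h ∈ H, h ≠ 1 → ∀ n ∈ N, n * h = h * n → n = 1
  cent : ∀ v : V, (∀ n ∈ N, ρ n v = v) → v = 0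
  ne : U1 ≠ ⊥
  inv : ∀ n ∈ N, ∀ u ∈ U1, ρ n u ∈ U1
  min : ∀ U' : Submodule k V, U' ≤ U1 → U' ≠ ⊥ → (∀ n ∈ N, ∀ u ∈ U', ρ n u ∈ U') → U' = U1

/-- The isotypic part: vectors killed by every element of the algebra that kills `U1`. -/
def frbIso (ρ : G →* Module.End k V) (N : Subgroup G) (U1 : Submodule k V) : Submodule k V where
  carrier := {v | ∀ a ∈ frbAlg ρ N, (∀ u ∈ U1, a u = 0) → a v = 0}
  zero_mem' := fun a _ _ => map_zero a
  add_mem' := fun {x y} hx hy a ha hk => by rw [map_add, hx a ha hk, hy a ha hk, add_zero]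
  smul_mem' := fun c x hx a ha hk => by rw [map_smul, hx a ha hk, smul_zero]

theorem frb_mem_iso (ρ : G →* Module.End k V) (N : Subgroup G) (U1 : Submodule k V) (v : V) :
    v ∈ frbIso ρ N U1 ↔ ∀ a ∈ frbAlg ρ N, (∀ u ∈ U1, a u = 0) → a v = 0 := Iff.rfl

theorem frb_le_iso (ρ : G →* Module.End k V) (N : Subgroup G) (U1 : Submodule k V) :
    U1 ≤ frbIso ρ N U1 := fun u hu _ _ hk => hk u hu

variable {ρ : G →* Module.End k V} {N H : Subgroup G} {U1 : Submodule k V}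

theorem FrbData.iso_invariant (D : FrbData ρ N H U1) :
    ∀ b ∈ frbAlg ρ N, ∀ v ∈ frbIso ρ N U1, b v ∈ frbIso ρ N U1 := by
  intro b hb v hv a ha hk
  have h1 : a (b v) = b (a v) := by
    have := frbAlg_comm ρ N D.comm a ha b hb
    exact congrArg (fun f : Module.End k V => f v) this
  rw [h1, hv a ha hk, map_zero]

/-- An element of the algebra not killing `U1` is invertible modulo the annihilator. -/
theorem FrbData.exists_inv [FiniteDimensional k V] (D : FrbData ρ N H U1) (r : Module.End k V)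
    (hr : r ∈ frbAlg ρ N) (hne : ∃ u ∈ U1, r u ≠ 0) :
    ∃ s ∈ frbAlg ρ N, ∀ v ∈ frbIso ρ N U1, s (r v) = v := by
  have hcomm := frbAlg_comm ρ N D.comm
  have hinvU := frbAlg_invariant ρ N U1 D.inv
  -- r is injective on U1
  have hinj : ∀ u ∈ U1, r u = 0 → u = 0 := by
    by_contra hcon
    push Not at hcon
    obtain ⟨u0, hu0, hru0, hu0ne⟩ := hcon
    have hK : U1 ⊓ LinearMap.ker r = U1 := by
      apply D.min _ inf_le_left
      · intro hbot
        have : u0 ∈ U1 ⊓ LinearMap.ker r := Submodule.mem_inf.mpr ⟨hu0, LinearMap.mem_ker.mpr hru0⟩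
        rw [hbot, Submodule.mem_bot] at this
        exact hu0ne this
      · intro n hn u hu
        rw [Submodule.mem_inf] at hu ⊢
        refine ⟨D.inv n hn u hu.1, ?_⟩
        rw [LinearMap.mem_ker]
        have h1 : r (ρ n u) = ρ n (r u) :=
          congrArg (fun f : Module.End k V => f u) (hcomm r hr (ρ n) (frb_mem_alg ρ N hn))
        rw [h1, LinearMap.mem_ker.mp hu.2, map_zero]
    obtain ⟨u, hu, hru⟩ := hne
    have : u ∈ U1 ⊓ LinearMap.ker r := by rw [hK]; exact hu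
    exact hru (LinearMap.mem_ker.mp (Submodule.mem_inf.mp this).2)
  -- pick u ≠ 0
  obtain ⟨u, hu, hu0⟩ := (Submodule.ne_bot_iff U1).mp D.ne
  -- R u = U1
  let Ru : Submodule k V :=
    { carrier := {x | ∃ a ∈ frbAlg ρ N, x = a u}
      zero_mem' := ⟨0, Subalgebra.zero_mem _, by simp⟩
      add_mem' := by
        rintro x y ⟨a, ha, rfl⟩ ⟨b, hb, rfl⟩
        exact ⟨a + b, Subalgebra.add_mem _ ha hb, by simp⟩
      smul_mem' := by
        rintro c x ⟨a, ha, rfl⟩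
        exact ⟨c • a, Subalgebra.smul_mem _ ha c, by simp⟩ }
  have hRu : Ru = U1 := by
    apply D.min
    · rintro x ⟨a, ha, rfl⟩
      exact hinvU a ha u hu
    · intro hbot
      have : u ∈ Ru := ⟨1, Subalgebra.one_mem _, by simp⟩
      rw [hbot, Submodule.mem_bot] at this
      exact hu0 this
    · rintro n hn x ⟨a, ha, rfl⟩
      exact ⟨ρ n * a, Subalgebra.mul_mem _ (frb_mem_alg ρ N hn) ha, rfl⟩
  -- r restricted to U1 is surjective
  have hsurj : Function.Surjective (r.restrict (hinvU r hr)) := by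
    apply LinearMap.injective_iff_surjective.mp
    intro x y hxy
    have h1 : r (x : V) = r (y : V) := congrArg Subtype.val hxy
    have h2 : r ((x : V) - y) = 0 := by rw [map_sub, h1, sub_self]
    have h3 := hinj _ (U1.sub_mem x.2 y.2) h2
    exact Subtype.ext (sub_eq_zero.mp h3)
  obtain ⟨u', hu'⟩ := hsurj ⟨u, hu⟩
  have hu'r : r (u' : V) = u := congrArg Subtype.val hu'
  have hu'R : (u' : V) ∈ Ru := by rw [hRu]; exact u'.2
  obtain ⟨s, hs, hsu⟩ := hu'R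
  refine ⟨s, hs, ?_⟩
  have hkill : ∀ x ∈ U1, (s * r - 1) x = 0 := by
    intro x hx
    rw [← hRu] at hx
    obtain ⟨a, ha, rfl⟩ := hx
    have hsr : s * r - 1 ∈ frbAlg ρ N :=
      Subalgebra.sub_mem _ (Subalgebra.mul_mem _ hs hr) (Subalgebra.one_mem _)
    have h1 : (s * r - 1) (a u) = a ((s * r - 1) u) :=
      congrArg (fun f : Module.End k V => f u) (hcomm _ hsr a ha)
    rw [h1]
    have h2 : (s * r - 1) u = 0 := by
      have h3 : (r * s) u = u := by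
        change r (s u) = u
        rw [← hsu, hu'r]
      have h4 : s * r = r * s := hcomm s hs r hr
      rw [LinearMap.sub_apply, h4, h3]
      simp
    rw [h2, map_zero]
  intro v hv
  have hsr : s * r - 1 ∈ frbAlg ρ N :=
    Subalgebra.sub_mem _ (Subalgebra.mul_mem _ hs hr) (Subalgebra.one_mem _)
  have := hv _ hsr hkill
  rw [LinearMap.sub_apply] at this
  have h5 : (s * r) v = v := by
    have h6 := sub_eq_zero.mp this
    simpa using h6
  exact h5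


theorem frb_conj_mul (ρ : G →* Module.End k V) (g h : G) (a : Module.End k V) :
    ρ (g * h) * a * ρ (g * h)⁻¹ = ρ g * (ρ h * a * ρ h⁻¹) * ρ g⁻¹ := by
  rw [mul_inv_rev, map_mul, map_mul]
  simp only [mul_assoc]

theorem frb_conj_inv (ρ : G →* Module.End k V) (h : G) (a : Module.End k V) :
    ρ h * (ρ h⁻¹ * a * ρ h⁻¹⁻¹) * ρ h⁻¹ = a := by
  have h1 : ρ h * ρ h⁻¹ = 1 := by rw [← map_mul, mul_inv_cancel, map_one]
  have h2 : ρ h⁻¹⁻¹ * ρ h⁻¹ = 1 := by rw [← map_mul, inv_mul_cancel, map_one]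
  calc ρ h * (ρ h⁻¹ * a * ρ h⁻¹⁻¹) * ρ h⁻¹ = (ρ h * ρ h⁻¹) * a * (ρ h⁻¹⁻¹ * ρ h⁻¹) := by
        simp only [mul_assoc]
    _ = a := by rw [h1, h2, one_mul, mul_one]

/-- The stabilizer in `H` of the annihilator of `U1`. -/
def frbStab (ρ : G →* Module.End k V) (N H : Subgroup G) (U1 : Submodule k V)
    (hnorm : ∀ h ∈ H, ∀ n ∈ N, h * n * h⁻¹ ∈ N) : Subgroup ↥H where
  carrier := {h | ∀ a ∈ frbAlg ρ N, (∀ u ∈ U1, a u = 0) ↔
    (∀ u ∈ U1, (ρ (h : G) * a * ρ (h : G)⁻¹) u = 0)}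
  mul_mem' := by
    intro h h' hh hh' a ha
    have hh : ∀ a ∈ frbAlg ρ N, (∀ u ∈ U1, a u = 0) ↔
        (∀ u ∈ U1, (ρ (h : G) * a * ρ (h : G)⁻¹) u = 0) := hh
    have hh' : ∀ a ∈ frbAlg ρ N, (∀ u ∈ U1, a u = 0) ↔
        (∀ u ∈ U1, (ρ (h' : G) * a * ρ (h' : G)⁻¹) u = 0) := hh'
    rw [hh' a ha, hh _ (frbAlg_conj ρ N (h' : G) (hnorm _ h'.2) a ha), Subgroup.coe_mul,
      frb_conj_mul]
  one_mem' := by
    intro a _
    simp
  inv_mem' := by
    intro h hh a ha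
    have hh : ∀ a ∈ frbAlg ρ N, (∀ u ∈ U1, a u = 0) ↔
        (∀ u ∈ U1, (ρ (h : G) * a * ρ (h : G)⁻¹) u = 0) := hh
    have h1 := hh _ (frbAlg_conj ρ N ((h : G)⁻¹) (hnorm _ (H.inv_mem h.2)) a ha)
    rw [frb_conj_inv] at h1
    rw [Subgroup.coe_inv]
    exact h1.symm

theorem frb_mem_stab (ρ : G →* Module.End k V) (N H : Subgroup G) (U1 : Submodule k V)
    (hnorm : ∀ h ∈ H, ∀ n ∈ N, h * n * h⁻¹ ∈ N) (h : ↥H) :
    h ∈ frbStab ρ N H U1 hnorm ↔ ∀ a ∈ frbAlg ρ N, (∀ u ∈ U1, a u = 0) ↔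
      (∀ u ∈ U1, (ρ (h : G) * a * ρ (h : G)⁻¹) u = 0) := Iff.rfl

theorem FrbData.stab_invariant (D : FrbData ρ N H U1) (h : ↥H)
    (hh : h ∈ frbStab ρ N H U1 D.norm) :
    ∀ v ∈ frbIso ρ N U1, ρ (h : G) v ∈ frbIso ρ N U1 := by
  intro v hv a ha hk
  have hinv : h⁻¹ ∈ frbStab ρ N H U1 D.norm := Subgroup.inv_mem _ hh
  have h1 := (frb_mem_stab ρ N H U1 D.norm h⁻¹).mp hinv a ha
  rw [Subgroup.coe_inv] at h1
  have h2 := hv _ (frbAlg_conj ρ N ((h : G)⁻¹) (D.norm _ (H.inv_mem h.2)) a ha) (h1.mp hk)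
  have h3 : (ρ (h : G)⁻¹ * a * ρ (h : G)⁻¹⁻¹) v = ρ (h : G)⁻¹ (a (ρ (h : G) v)) := by
    rw [inv_inv]; rfl
  rw [h3] at h2
  have h4 := congrArg (ρ (h : G)) h2
  rwa [frb_apply_inv, map_zero] at h4

end FrobCliff

end Cfsg.Agent.Helper10
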