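import Mathlib
import Cfsg.Agent.Helper10.FrobCliff

set_option autoImplicit false

namespace Cfsg.Agent.Helper10

section FrobCliff2

variable {k : Type*} [Field k] {G : Type*} [Group G]
variable {V : Type*} [AddCommGroup V] [Module k V]

/-- The generating set of the algebra restricted to the isotypic part. -/
def frbS1 (ρ : G →* Module.End k V) (N : Subgroup G) (U1 : Submodule k V) :
    Set (Module.End k ↥(frbIso ρ N U1)) :=
  {b | ∃ n ∈ N, ∀ v : ↥(frbIso ρ N U1), ((b v : ↥(frbIso ρ N U1)) : V) = ρ n (v : V)}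

theorem frbS1_lift (ρ : G →* Module.End k V) (N : Subgroup G) (U1 : Submodule k V) :
    ∀ b ∈ Algebra.adjoin k (frbS1 ρ N U1), ∃ r ∈ frbAlg ρ N,
      ∀ v : ↥(frbIso ρ N U1), ((b v : ↥(frbIso ρ N U1)) : V) = r (v : V) := by
  intro b hb
  induction hb using Algebra.adjoin_induction with
  | mem x hx =>
    obtain ⟨n, hn, hx⟩ := hx
    exact ⟨ρ n, frb_mem_alg ρ N hn, hx⟩
  | algebraMap c =>
    refine ⟨algebraMap k (Module.End k V) c, Subalgebra.algebraMap_mem _ c, fun v => ?_⟩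
    rw [Module.algebraMap_end_apply, Module.algebraMap_end_apply]
    rfl
  | add x y _ _ hx hy =>
    obtain ⟨r1, hr1, h1⟩ := hx
    obtain ⟨r2, hr2, h2⟩ := hy
    refine ⟨r1 + r2, Subalgebra.add_mem _ hr1 hr2, fun v => ?_⟩
    rw [LinearMap.add_apply, LinearMap.add_apply, Submodule.coe_add, h1, h2]
  | mul x y _ _ hx hy =>
    obtain ⟨r1, hr1, h1⟩ := hx
    obtain ⟨r2, hr2, h2⟩ := hy
    refine ⟨r1 * r2, Subalgebra.mul_mem _ hr1 hr2, fun v => ?_⟩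
    change ((x (y v) : ↥(frbIso ρ N U1)) : V) = r1 (r2 (v : V))
    rw [h1, h2]

variable {ρ : G →* Module.End k V} {N H : Subgroup G} {U1 : Submodule k V}

theorem FrbData.iso_N_invariant (D : FrbData ρ N H U1) (n : G) (hn : n ∈ N) :
    ∀ v ∈ frbIso ρ N U1, ρ n v ∈ frbIso ρ N U1 :=
  D.iso_invariant (ρ n) (frb_mem_alg ρ N hn)

theorem FrbData.exists_W0 [Finite G] [FiniteDimensional k V] (D : FrbData ρ N H U1)
    [Fintype ↥(frbStab ρ N H U1 D.norm)] :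
    ∃ W0 : Submodule k ↥(frbIso ρ N U1), W0 ≠ ⊥ ∧
      (∀ f : ↥(frbStab ρ N H U1 D.norm) → ↥(frbIso ρ N U1), (∀ g, f g ∈ W0) →
        ∑ g : ↥(frbStab ρ N H U1 D.norm), ρ ((g : ↥H) : G) (f g : V) = 0 → ∀ g, f g = 0) ∧
      (∀ n ∈ N, ∀ w ∈ W0, ∃ f' : ↥(frbStab ρ N H U1 D.norm) → ↥(frbIso ρ N U1),
        (∀ g, f' g ∈ W0) ∧
          ρ n (w : V) = ∑ g : ↥(frbStab ρ N H U1 D.norm), ρ ((g : ↥H) : G) (f' g : V)) := by
  classical
  have hV1nt : Nontrivial ↥(frbIso ρ N U1) := by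
    obtain ⟨u, hu, hu0⟩ := (Submodule.ne_bot_iff U1).mp D.ne
    exact ⟨⟨⟨u, frb_le_iso ρ N U1 hu⟩, 0, fun h => hu0 (congrArg Subtype.val h)⟩⟩
  have hstab : ∀ g : ↥(frbStab ρ N H U1 D.norm), ∀ u ∈ frbIso ρ N U1,
      (ρ.comp (H.subtype.comp (frbStab ρ N H U1 D.norm).subtype)) g u ∈ frbIso ρ N U1 :=
    fun g u hu => D.stab_invariant (g : ↥H) g.2 u hu
  have hScomm : ∀ a ∈ frbS1 ρ N U1, ∀ b ∈ frbS1 ρ N U1, a * b = b * a := by
    rintro a ⟨n, hn, ha⟩ b ⟨n', hn', hb⟩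
    apply LinearMap.ext
    intro v
    apply Subtype.ext
    change ((a (b v) : ↥(frbIso ρ N U1)) : V) = ((b (a v) : ↥(frbIso ρ N U1)) : V)
    rw [ha, hb, hb, ha]
    exact congrArg (fun f : Module.End k V => f (v : V)) (D.comm n hn n' hn')
  have hinj : ∀ r ∈ Algebra.adjoin k (frbS1 ρ N U1), r ≠ 0 → Function.Injective r := by
    intro r hr hr0
    obtain ⟨r', hr', hrr'⟩ := frbS1_lift ρ N U1 r hr
    have hne : ∃ u ∈ U1, r' u ≠ 0 := by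
      by_contra hcon
      push Not at hcon
      apply hr0
      apply LinearMap.ext
      intro v
      apply Subtype.ext
      rw [hrr' v]
      simpa using (frb_mem_iso ρ N U1 v).mp v.2 r' hr' hcon
    obtain ⟨s, hs, hsr⟩ := D.exists_inv r' hr' hne
    intro x y hxy
    apply Subtype.ext
    have h1 : r' (x : V) = r' (y : V) := by rw [← hrr' x, ← hrr' y, hxy]
    rw [← hsr x x.2, ← hsr y y.2, h1]
  have hσS : ∀ g : ↥(frbStab ρ N H U1 D.norm), ∀ a ∈ frbS1 ρ N U1,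
      frbSub (ρ.comp (H.subtype.comp (frbStab ρ N H U1 D.norm).subtype)) (frbIso ρ N U1) hstab g
        * a *
      frbSub (ρ.comp (H.subtype.comp (frbStab ρ N H U1 D.norm).subtype)) (frbIso ρ N U1) hstab g⁻¹
        ∈ frbS1 ρ N U1 := by
    rintro g a ⟨n, hn, ha⟩
    refine ⟨((g : ↥H) : G) * n * ((g : ↥H) : G)⁻¹, D.norm _ (g : ↥H).2 n hn, fun v => ?_⟩
    change ρ ((g : ↥H) : G) ((a (frbSub (ρ.comp (H.subtype.comp
      (frbStab ρ N H U1 D.norm).subtype)) (frbIso ρ N U1) hstab g⁻¹ v) : ↥(frbIso ρ N U1)) : V) = _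
    rw [ha, frb_mul_apply, frb_mul_apply]
    rfl
  have hfaith : ∀ g : ↥(frbStab ρ N H U1 D.norm), (∀ a ∈ frbS1 ρ N U1,
      frbSub (ρ.comp (H.subtype.comp (frbStab ρ N H U1 D.norm).subtype)) (frbIso ρ N U1) hstab g
        * a = a *
      frbSub (ρ.comp (H.subtype.comp (frbStab ρ N H U1 D.norm).subtype)) (frbIso ρ N U1) hstab g)
      → g = 1 := by
    intro g hg
    by_contra hg1
    have hgG : ((g : ↥H) : G) ≠ 1 := fun h => hg1 (Subtype.ext (Subtype.ext h))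
    have hc : ∀ n ∈ N, ∀ v ∈ frbIso ρ N U1,
        ρ ((g : ↥H) : G) (ρ n v) = ρ n (ρ ((g : ↥H) : G) v) := by
      intro n hn v hv
      have hmem : (ρ n).restrict (D.iso_N_invariant n hn) ∈ frbS1 ρ N U1 :=
        ⟨n, hn, fun v => rfl⟩
      exact congrArg (fun f : Module.End k ↥(frbIso ρ N U1) =>
        ((f ⟨v, hv⟩ : ↥(frbIso ρ N U1)) : V)) (hg _ hmem)
    have hφ : ∀ n : ↥N, ((g : ↥H) : G) * n * ((g : ↥H) : G)⁻¹ * (n : G)⁻¹ ∈ N :=
      fun n => N.mul_mem (D.norm _ (g : ↥H).2 n n.2) (N.inv_mem n.2)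
    have hinjφ : Function.Injective (fun n : ↥N => (⟨_, hφ n⟩ : ↥N)) := by
      intro n m hnm
      have h1 : ((g : ↥H) : G) * n * ((g : ↥H) : G)⁻¹ * (n : G)⁻¹ =
          ((g : ↥H) : G) * m * ((g : ↥H) : G)⁻¹ * (m : G)⁻¹ := congrArg Subtype.val hnm
      have h2 : ((m : G)⁻¹ * n) * ((g : ↥H) : G)⁻¹ = ((g : ↥H) : G)⁻¹ * ((m : G)⁻¹ * n) := by
        calc ((m : G)⁻¹ * n) * ((g : ↥H) : G)⁻¹
            = (m : G)⁻¹ * ((g : ↥H) : G)⁻¹ *
                (((g : ↥H) : G) * n * ((g : ↥H) : G)⁻¹ * (n : G)⁻¹) * n := by group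
          _ = (m : G)⁻¹ * ((g : ↥H) : G)⁻¹ *
                (((g : ↥H) : G) * m * ((g : ↥H) : G)⁻¹ * (m : G)⁻¹) * n := by rw [h1]
          _ = ((g : ↥H) : G)⁻¹ * ((m : G)⁻¹ * n) := by group
      have h3 := D.fpf _ (H.inv_mem (g : ↥H).2) (fun h => hgG (inv_eq_one.mp h)) _
        (N.mul_mem (N.inv_mem m.2) n.2) h2
      exact Subtype.ext (inv_mul_eq_one.mp h3).symm
    have hsurj := Finite.injective_iff_surjective.mp hinjφ
    obtain ⟨u, hu, hu0⟩ := (Submodule.ne_bot_iff U1).mp D.ne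
    apply hu0
    apply D.cent
    intro m hm
    obtain ⟨n, hn⟩ := hsurj ⟨m, hm⟩
    have hm' : m = ((g : ↥H) : G) * n * ((g : ↥H) : G)⁻¹ * (n : G)⁻¹ :=
      (congrArg Subtype.val hn).symm
    have huV := frb_le_iso ρ N U1 hu
    rw [hm', frb_mul_apply, frb_mul_apply, frb_mul_apply]
    have hx : ρ ((g : ↥H) : G)⁻¹ (ρ (n : G)⁻¹ u) ∈ frbIso ρ N U1 := by
      have h1 := D.iso_N_invariant _ (N.inv_mem n.2) u huV
      exact D.stab_invariant (g⁻¹ : ↥(frbStab ρ N H U1 D.norm)) (inv_mem g.2) _ h1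
    rw [hc n n.2 _ hx, frb_apply_inv, frb_apply_inv]
  obtain ⟨W0, hW0, hWi, hWs⟩ := frb_field_step (k := k) (frbS1 ρ N U1) hScomm hinj
    (frbSub (ρ.comp (H.subtype.comp (frbStab ρ N H U1 D.norm).subtype)) (frbIso ρ N U1) hstab)
    hσS hfaith
  refine ⟨W0, hW0, ?_, ?_⟩
  · intro f hf hsum
    apply hWi f hf
    apply Subtype.ext
    rw [Submodule.coe_sum]
    exact hsum
  · intro n hn w hw
    have hmem : (ρ n).restrict (D.iso_N_invariant n hn) ∈ frbS1 ρ N U1 :=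
      ⟨n, hn, fun v => rfl⟩
    obtain ⟨f', hf', hsum⟩ := hWs _ (Algebra.subset_adjoin hmem)
      (Pi.single (1 : ↥(frbStab ρ N H U1 D.norm)) (w : ↥(frbIso ρ N U1))) (fun g => by
        by_cases hg : g = 1
        · rw [hg, Pi.single_eq_same]; exact hw
        · rw [Pi.single_eq_of_ne hg]; exact W0.zero_mem)
    refine ⟨f', hf', ?_⟩
    have h1 : ∑ g : ↥(frbStab ρ N H U1 D.norm),
        (frbSub (ρ.comp (H.subtype.comp (frbStab ρ N H U1 D.norm).subtype)) (frbIso ρ N U1)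
          hstab g) ((Pi.single (1 : ↥(frbStab ρ N H U1 D.norm)) w :
            ↥(frbStab ρ N H U1 D.norm) → ↥(frbIso ρ N U1)) g) = w := by
      rw [Finset.sum_eq_single (1 : ↥(frbStab ρ N H U1 D.norm))]
      · rw [Pi.single_eq_same, map_one]; rfl
      · intro g _ hg
        rw [Pi.single_eq_of_ne hg, map_zero]
      · intro h
        exact absurd (Finset.mem_univ _) h
    rw [h1] at hsum
    have h2 := congrArg (Subtype.val) hsum
    rw [Submodule.coe_sum] at h2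
    exact h2


theorem FrbData.sep (D : FrbData ρ N H U1) (g : ↥H) (hg : g ∉ frbStab ρ N H U1 D.norm) :
    (∃ a ∈ frbAlg ρ N, (∀ u ∈ U1, a u = 0) ∧
      ¬ (∀ u ∈ U1, (ρ (g : G) * a * ρ (g : G)⁻¹) u = 0)) ∨
    (∃ a ∈ frbAlg ρ N, (∀ u ∈ U1, a u = 0) ∧
      ¬ (∀ u ∈ U1, (ρ (g : G)⁻¹ * a * ρ (g : G)⁻¹⁻¹) u = 0)) := by
  by_contra hcon
  rw [not_or] at hcon
  obtain ⟨hA, hB⟩ := hcon
  apply hg
  rw [frb_mem_stab]
  intro a ha
  constructor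
  · intro hk
    by_contra hq
    exact hA ⟨a, ha, hk, hq⟩
  · intro hq
    by_contra hk
    apply hB
    refine ⟨ρ (g : G) * a * ρ (g : G)⁻¹, frbAlg_conj ρ N _ (D.norm _ g.2) a ha, hq, ?_⟩
    have h1 : ρ (g : G)⁻¹ * ρ (g : G) = 1 := by rw [← map_mul, inv_mul_cancel, map_one]
    have h2 : ρ (g : G)⁻¹ * (ρ (g : G) * a * ρ (g : G)⁻¹) * ρ (g : G)⁻¹⁻¹ = a := by
      calc ρ (g : G)⁻¹ * (ρ (g : G) * a * ρ (g : G)⁻¹) * ρ (g : G)⁻¹⁻¹
          = (ρ (g : G)⁻¹ * ρ (g : G)) * a * (ρ (g : G)⁻¹ * ρ (g : G)⁻¹⁻¹) := by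
            simp only [mul_assoc]
        _ = a := by rw [h1, ← map_mul, mul_inv_cancel, map_one, one_mul, mul_one]
    rw [h2]
    exact hk

theorem FrbData.coset_key [FiniteDimensional k V] (D : FrbData ρ N H U1) {ι : Type*}
    [DecidableEq ι] (τ : ι → ↥H) (s : Finset ι) (y : ι → V)
    (hy : ∀ i, y i ∈ frbIso ρ N U1)
    (hsum : ∑ i ∈ s, ρ (τ i : G) (y i) = 0) (i0 i1 : ι) (hi0 : i0 ∈ s)
    (hne : i0 ≠ i1)
    (IH : ∀ y' : ι → V, (∀ i, y' i ∈ frbIso ρ N U1) →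
      ∑ i ∈ s.erase i1, ρ (τ i : G) (y' i) = 0 → ∀ i ∈ s.erase i1, y' i = 0)
    (a : Module.End k V) (ha : a ∈ frbAlg ρ N) (hk : ∀ u ∈ U1, a u = 0)
    (hnk : ¬ (∀ u ∈ U1, (ρ (((τ i0)⁻¹ * τ i1 : ↥H) : G) * a *
      ρ (((τ i0)⁻¹ * τ i1 : ↥H) : G)⁻¹) u = 0)) :
    y i0 = 0 := by
  have hb : ρ (τ i1 : G) * a * ρ (τ i1 : G)⁻¹ ∈ frbAlg ρ N :=
    frbAlg_conj ρ N _ (D.norm _ (τ i1).2) a ha
  have hy' : ∀ i, (ρ (τ i : G)⁻¹ * (ρ (τ i1 : G) * a * ρ (τ i1 : G)⁻¹) * ρ (τ i : G)⁻¹⁻¹) (y i)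
      ∈ frbIso ρ N U1 :=
    fun i => D.iso_invariant _ (frbAlg_conj ρ N _ (D.norm _ (H.inv_mem (τ i).2)) _ hb) _ (hy i)
  have hsum' : ∑ i ∈ s.erase i1, ρ (τ i : G)
      ((ρ (τ i : G)⁻¹ * (ρ (τ i1 : G) * a * ρ (τ i1 : G)⁻¹) * ρ (τ i : G)⁻¹⁻¹) (y i)) = 0 := by
    rw [Finset.sum_erase]
    · have h0 := congrArg (ρ (τ i1 : G) * a * ρ (τ i1 : G)⁻¹) hsum
      rw [map_sum, map_zero] at h0
      rw [← h0]
      refine Finset.sum_congr rfl (fun i _ => ?_)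
      rw [inv_inv]
      change ρ (τ i : G) (ρ (τ i : G)⁻¹ ((ρ (τ i1 : G) * a * ρ (τ i1 : G)⁻¹)
        (ρ (τ i : G) (y i)))) = _
      rw [frb_apply_inv]
    · rw [inv_inv]
      change ρ (τ i1 : G) (ρ (τ i1 : G)⁻¹ (ρ (τ i1 : G) (a (ρ (τ i1 : G)⁻¹
        (ρ (τ i1 : G) (y i1)))))) = 0
      rw [frb_inv_apply, frb_inv_apply, hy i1 a ha hk, map_zero]
  have h0 := IH _ hy' hsum' i0 (Finset.mem_erase.mpr ⟨hne, hi0⟩)
  have hb' : ρ (((τ i0)⁻¹ * τ i1 : ↥H) : G) * a * ρ (((τ i0)⁻¹ * τ i1 : ↥H) : G)⁻¹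
      ∈ frbAlg ρ N :=
    frbAlg_conj ρ N _ (D.norm _ ((τ i0)⁻¹ * τ i1).2) a ha
  have hne' : ∃ u ∈ U1, (ρ (((τ i0)⁻¹ * τ i1 : ↥H) : G) * a *
      ρ (((τ i0)⁻¹ * τ i1 : ↥H) : G)⁻¹) u ≠ 0 := by
    by_contra hcon
    push Not at hcon
    exact hnk hcon
  obtain ⟨s', hs', hinv⟩ := D.exists_inv _ hb' hne'
  have h1 : (ρ (((τ i0)⁻¹ * τ i1 : ↥H) : G) * a * ρ (((τ i0)⁻¹ * τ i1 : ↥H) : G)⁻¹) (y i0)
      = 0 := by
    rw [Subgroup.coe_mul, Subgroup.coe_inv, frb_conj_mul]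
    exact h0
  rw [← hinv _ (hy i0), h1, map_zero]

theorem FrbData.coset_indep [FiniteDimensional k V] (D : FrbData ρ N H U1) {ι : Type*}
    [DecidableEq ι] (τ : ι → ↥H)
    (hτ : ∀ i j, i ≠ j → (τ i)⁻¹ * τ j ∉ frbStab ρ N H U1 D.norm) :
    ∀ (n : ℕ) (s : Finset ι) (y : ι → V), s.card = n → (∀ i, y i ∈ frbIso ρ N U1) →
      ∑ i ∈ s, ρ (τ i : G) (y i) = 0 → ∀ i ∈ s, y i = 0 := by
  intro n
  induction n with
  | zero =>
    intro s y hs _ _ i hi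
    rw [Finset.card_eq_zero] at hs
    rw [hs] at hi
    exact absurd hi (Finset.notMem_empty i)
  | succ n ih =>
    intro s y hs hy hsum
    have hex : ∃ i ∈ s, y i = 0 := by
      obtain ⟨i0, hi0⟩ : s.Nonempty := by
        rw [← Finset.card_pos, hs]; exact Nat.succ_pos n
      by_cases hall : ∀ j ∈ s, j = i0
      · refine ⟨i0, hi0, ?_⟩
        have hs1 : s = {i0} := Finset.eq_singleton_iff_unique_mem.mpr ⟨hi0, hall⟩
        rw [hs1, Finset.sum_singleton] at hsum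
        exact frb_injective ρ _ (by rw [hsum, map_zero])
      · push Not at hall
        obtain ⟨i1, hi1, hne⟩ := hall
        rcases D.sep _ (hτ i0 i1 (Ne.symm hne)) with ⟨a, ha, hk, hnk⟩ | ⟨a, ha, hk, hnk⟩
        · refine ⟨i0, hi0, D.coset_key τ s y hy hsum i0 i1 hi0 (Ne.symm hne) ?_ a ha hk hnk⟩
          intro y' hy' hs'
          exact ih (s.erase i1) y' (by rw [Finset.card_erase_of_mem hi1, hs]; rfl) hy' hs'
        · refine ⟨i1, hi1, D.coset_key τ s y hy hsum i1 i0 hi1 hne ?_ a ha hk ?_⟩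
          · intro y' hy' hs'
            exact ih (s.erase i0) y' (by rw [Finset.card_erase_of_mem hi0, hs]; rfl) hy' hs'
          · have he : (((τ i0)⁻¹ * τ i1 : ↥H) : G)⁻¹ = (((τ i1)⁻¹ * τ i0 : ↥H) : G) := by
              rw [Subgroup.coe_mul, Subgroup.coe_mul, Subgroup.coe_inv, Subgroup.coe_inv,
                mul_inv_rev, inv_inv]
            rw [he] at hnk
            exact hnk
    obtain ⟨i, hi, hyi⟩ := hex
    have hsum' : ∑ j ∈ s.erase i, ρ (τ j : G) (y j) = 0 := by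
      rw [Finset.sum_erase _ (by rw [hyi, map_zero])]
      exact hsum
    have h1 := ih (s.erase i) y (by rw [Finset.card_erase_of_mem hi, hs]; rfl) hy hsum'
    intro j hj
    by_cases hji : j = i
    · rw [hji]; exact hyi
    · exact h1 j (Finset.mem_erase.mpr ⟨hji, hj⟩)

end FrobCliff2

end Cfsg.Agent.Helper10
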