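import Mathlib
import Cfsg.Agent.Helper10.FrobCliff2

set_option autoImplicit false

namespace Cfsg.Agent.Helper10

section FrobCliff3

variable {k : Type*} [Field k] {G : Type*} [Group G]
variable {V : Type*} [AddCommGroup V] [Module k V]

/-- The span of the `H`-translates of `W`. -/
def frbSpan (ρ : G →* Module.End k V) (H : Subgroup G) (W : Submodule k V) : Submodule k V :=
  Submodule.span k {x | ∃ h ∈ H, ∃ w ∈ W, x = ρ h w}

theorem frb_le_span (ρ : G →* Module.End k V) (H : Subgroup G) (W : Submodule k V) :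
    W ≤ frbSpan ρ H W := by
  intro w hw
  apply Submodule.subset_span
  refine ⟨1, H.one_mem, w, hw, ?_⟩
  rw [map_one]; rfl

theorem frbSpan_rep (ρ : G →* Module.End k V) (H : Subgroup G) [Fintype H]
    (W : Submodule k V) (x : V) (hx : x ∈ frbSpan ρ H W) :
    ∃ f : ↥H → V, (∀ h, f h ∈ W) ∧ ∑ h : ↥H, ρ (h : G) (f h) = x := by
  classical
  induction hx using Submodule.span_induction with
  | mem x hx =>
    obtain ⟨h, hh, w, hw, rfl⟩ := hx
    refine ⟨Pi.single (⟨h, hh⟩ : ↥H) w, fun g => ?_, ?_⟩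
    · by_cases hg : g = ⟨h, hh⟩
      · rw [hg, Pi.single_eq_same]; exact hw
      · rw [Pi.single_eq_of_ne hg]; exact W.zero_mem
    · rw [Finset.sum_eq_single (⟨h, hh⟩ : ↥H)]
      · rw [Pi.single_eq_same]
      · intro g _ hg
        rw [Pi.single_eq_of_ne hg, map_zero]
      · intro h'
        exact absurd (Finset.mem_univ _) h'
  | zero => exact ⟨fun _ => 0, fun _ => W.zero_mem, by simp⟩
  | add x y _ _ hx hy =>
    obtain ⟨f1, hf1, h1⟩ := hx
    obtain ⟨f2, hf2, h2⟩ := hy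
    refine ⟨fun h => f1 h + f2 h, fun h => W.add_mem (hf1 h) (hf2 h), ?_⟩
    simp only [map_add, Finset.sum_add_distrib]
    rw [h1, h2]
  | smul c x _ hx =>
    obtain ⟨f1, hf1, h1⟩ := hx
    refine ⟨fun h => c • f1 h, fun h => W.smul_mem c (hf1 h), ?_⟩
    simp only [map_smul]
    rw [← Finset.smul_sum, h1]

theorem frbSpan_H_invariant (ρ : G →* Module.End k V) (H : Subgroup G) (W : Submodule k V)
    (h0 : G) (hh0 : h0 ∈ H) : ∀ x ∈ frbSpan ρ H W, ρ h0 x ∈ frbSpan ρ H W := by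
  have hle : frbSpan ρ H W ≤ (frbSpan ρ H W).comap (ρ h0) := by
    apply Submodule.span_le.mpr
    rintro _ ⟨h, hh, w, hw, rfl⟩
    show ρ h0 (ρ h w) ∈ frbSpan ρ H W
    rw [← frb_mul_apply]
    exact Submodule.subset_span ⟨h0 * h, H.mul_mem hh0 hh, w, hw, rfl⟩
  exact fun x hx => hle hx

theorem frbSpan_sum_mem (ρ : G →* Module.End k V) (H : Subgroup G) [Fintype H]
    (W : Submodule k V) (f : ↥H → V) (hf : ∀ h, f h ∈ W) :
    ∑ h : ↥H, ρ (h : G) (f h) ∈ frbSpan ρ H W :=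
  Submodule.sum_mem _ (fun h _ => Submodule.subset_span ⟨h, h.2, f h, hf h, rfl⟩)

/-- The Clifford step: an abelian normal subgroup without fixed points on which `H` acts
fixed-point-freely yields a nonzero `H`-free, `N`-stable piece. -/
theorem frb_clifford_step [Finite G] [FiniteDimensional k V] [Nontrivial V]
    (ρ : G →* Module.End k V) (N H : Subgroup G) [Fintype H]
    (hnorm : ∀ h ∈ H, ∀ n ∈ N, h * n * h⁻¹ ∈ N)
    (hcomm : ∀ n ∈ N, ∀ n' ∈ N, ρ n * ρ n' = ρ n' * ρ n)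
    (hfpf : ∀ h ∈ H, h ≠ 1 → ∀ n ∈ N, n * h = h * n → n = 1)
    (hcent : ∀ v : V, (∀ n ∈ N, ρ n v = v) → v = 0) :
    ∃ W : Submodule k V, W ≠ ⊥ ∧
      (∀ f : ↥H → V, (∀ h, f h ∈ W) → ∑ h : ↥H, ρ (h : G) (f h) = 0 → ∀ h, f h = 0) ∧
      (∀ n ∈ N, ∀ x ∈ frbSpan ρ H W, ρ n x ∈ frbSpan ρ H W) := by
  classical
  obtain ⟨U1, hU1ne, hU1inv, hU1min⟩ := frb_exists_min (k := k) (V := V)
    (fun U => ∀ n ∈ N, ∀ u ∈ U, ρ n u ∈ U) (fun _ _ _ _ => Submodule.mem_top)
  have D : FrbData ρ N H U1 := ⟨hnorm, hcomm, hfpf, hcent, hU1ne, hU1inv, hU1min⟩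
  have : Fintype ↥(frbStab ρ N H U1 D.norm) := Fintype.ofFinite _
  have : Fintype (↥H ⧸ frbStab ρ N H U1 D.norm) := Fintype.ofFinite _
  obtain ⟨W0, hW0, hWi, hWs⟩ := D.exists_W0
  have hWV1 : ∀ w ∈ W0.map (frbIso ρ N U1).subtype, w ∈ frbIso ρ N U1 := by
    rintro _ ⟨w0, _, rfl⟩
    exact w0.2
  refine ⟨W0.map (frbIso ρ N U1).subtype, ?_, ?_, ?_⟩
  · obtain ⟨w0, hw0, hw0ne⟩ := (Submodule.ne_bot_iff W0).mp hW0
    rw [Submodule.ne_bot_iff]
    exact ⟨(w0 : V), Submodule.mem_map_of_mem hw0, fun h => hw0ne (Subtype.ext h)⟩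
  · intro f hf hsum
    -- the coset decomposition
    have hτ : ∀ c c' : ↥H ⧸ frbStab ρ N H U1 D.norm, c ≠ c' →
        (c.out)⁻¹ * c'.out ∉ frbStab ρ N H U1 D.norm := by
      intro c c' hne hmem
      apply hne
      have := QuotientGroup.eq.mpr hmem
      rwa [QuotientGroup.out_eq', QuotientGroup.out_eq'] at this
    have he : Function.Bijective (fun p : (↥H ⧸ frbStab ρ N H U1 D.norm) ×
        ↥(frbStab ρ N H U1 D.norm) => p.1.out * (p.2 : ↥H)) := by
      constructor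
      · rintro ⟨c, g⟩ ⟨c', g'⟩ hp
        have hp' : c.out * (g : ↥H) = c'.out * (g' : ↥H) := hp
        have hc : c = c' := by
          by_contra hne
          apply hτ c c' hne
          have : (c.out)⁻¹ * c'.out = (g : ↥H) * (g' : ↥H)⁻¹ := by
            rw [inv_mul_eq_iff_eq_mul, ← mul_assoc, hp', mul_inv_cancel_right]
          rw [this]
          exact Subgroup.mul_mem _ g.2 (Subgroup.inv_mem _ g'.2)
        subst hc
        have hg : (g : ↥H) = g' := mul_left_cancel hp'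
        rw [Subtype.ext hg]
      · intro h
        have hmem : ((h : ↥H ⧸ frbStab ρ N H U1 D.norm).out)⁻¹ * h ∈ frbStab ρ N H U1 D.norm := by
          apply QuotientGroup.eq.mp
          rw [QuotientGroup.out_eq']
        exact ⟨⟨(h : ↥H ⧸ frbStab ρ N H U1 D.norm), ⟨_, hmem⟩⟩, mul_inv_cancel_left _ _⟩
    have hdecomp : ∑ h : ↥H, ρ (h : G) (f h) =
        ∑ c : ↥H ⧸ frbStab ρ N H U1 D.norm, ρ ((c.out : ↥H) : G)
          (∑ g : ↥(frbStab ρ N H U1 D.norm), ρ ((g : ↥H) : G) (f (c.out * (g : ↥H)))) := by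
      rw [← Fintype.sum_bijective _ he (fun p => ρ ((p.1.out * (p.2 : ↥H) : ↥H) : G)
        (f (p.1.out * (p.2 : ↥H)))) _ (fun _ => rfl)]
      rw [Fintype.sum_prod_type]
      refine Finset.sum_congr rfl (fun c _ => ?_)
      rw [map_sum]
      refine Finset.sum_congr rfl (fun g _ => ?_)
      rw [← frb_mul_apply]
      rfl
    rw [hdecomp] at hsum
    have hy : ∀ c : ↥H ⧸ frbStab ρ N H U1 D.norm,
        (∑ g : ↥(frbStab ρ N H U1 D.norm), ρ ((g : ↥H) : G) (f (c.out * (g : ↥H))))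
          ∈ frbIso ρ N U1 := fun c =>
      Submodule.sum_mem _ (fun g _ => D.stab_invariant (g : ↥H) g.2 _ (hWV1 _ (hf _)))
    have hy0 := D.coset_indep (fun c : ↥H ⧸ frbStab ρ N H U1 D.norm => c.out) hτ _ Finset.univ
      _ rfl hy hsum
    intro h
    obtain ⟨⟨c, g⟩, rfl⟩ := he.2 h
    have hlift : ∀ g : ↥(frbStab ρ N H U1 D.norm), ∃ w0 : ↥(frbIso ρ N U1), w0 ∈ W0 ∧
        (w0 : V) = f (c.out * (g : ↥H)) := by
      intro g
      obtain ⟨w0, hw0, hw0f⟩ := Submodule.mem_map.mp (hf (c.out * (g : ↥H)))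
      exact ⟨w0, hw0, hw0f⟩
    choose f0 hf0 hf0f using hlift
    have h1 := hWi f0 hf0 (by
      rw [← hy0 c (Finset.mem_univ c)]
      exact Finset.sum_congr rfl (fun g _ => by rw [hf0f g])) g
    show f (c.out * (g : ↥H)) = 0
    rw [← hf0f g, h1]
    rfl
  · -- N-stability
    have hgen : ∀ m ∈ N, ∀ w ∈ W0.map (frbIso ρ N U1).subtype,
        ρ m w ∈ frbSpan ρ H (W0.map (frbIso ρ N U1).subtype) := by
      rintro m hm _ ⟨w0, hw0, rfl⟩
      obtain ⟨f', hf', hsum⟩ := hWs m hm w0 hw0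
      show ρ m (w0 : V) ∈ _
      rw [hsum]
      exact Submodule.sum_mem _ (fun g _ => Submodule.subset_span
        ⟨((g : ↥H) : G), (g : ↥H).2, (f' g : V), Submodule.mem_map_of_mem (hf' g), rfl⟩)
    intro n hn
    have hle : frbSpan ρ H (W0.map (frbIso ρ N U1).subtype) ≤
        (frbSpan ρ H (W0.map (frbIso ρ N U1).subtype)).comap (ρ n) := by
      apply Submodule.span_le.mpr
      rintro _ ⟨h, hh, w, hw, rfl⟩
      show ρ n (ρ h w) ∈ frbSpan ρ H (W0.map (frbIso ρ N U1).subtype)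
      have h1 : ρ n (ρ h w) = ρ h (ρ (h⁻¹ * n * h⁻¹⁻¹) w) := by
        rw [← frb_mul_apply, ← frb_mul_apply]
        congr 2
        group
      rw [h1]
      exact frbSpan_H_invariant ρ H _ h hh _ (hgen _ (hnorm _ (H.inv_mem hh) n hn) w hw)
    exact fun x hx => hle hx

end FrobCliff3

end Cfsg.Agent.Helper10
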