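import Mathlib
import Cfsg.Agent.Helper10.FrobCliff3

set_option autoImplicit false

universe u

namespace Cfsg.Agent.Helper10

section FrobAb

theorem frb_abelian_core {k : Type*} [Field k] {G : Type*} [Group G] [Finite G]
    (N H : Subgroup G) [Fintype H] (hNH : N ⊔ H = ⊤)
    (hnorm : ∀ h ∈ H, ∀ n ∈ N, h * n * h⁻¹ ∈ N)
    (hfpf : ∀ h ∈ H, h ≠ 1 → ∀ n ∈ N, n * h = h * n → n = 1)
    (hcard : (Nat.card N : k) ≠ 0) :
    ∀ (d : ℕ) (V : Type u) [AddCommGroup V] [Module k V] [FiniteDimensional k V]
      (ρ : G →* Module.End k V), Module.finrank k V = d →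
      (∀ n ∈ N, ∀ n' ∈ N, ρ n * ρ n' = ρ n' * ρ n) →
      (∀ v : V, (∀ n ∈ N, ρ n v = v) → v = 0) → frbHFree ρ H := by
  classical
  intro d
  induction d using Nat.strong_induction_on with
  | _ d ih =>
    intro V _ _ _ ρ hd hcomm hcent
    by_cases hV : Subsingleton V
    · refine ⟨⊥, ?_, ?_⟩
      · intro f _ _ h
        exact Subsingleton.elim _ _
      · intro v
        exact ⟨fun _ => 0, fun _ => Submodule.zero_mem _, Subsingleton.elim _ _⟩
    · rw [not_subsingleton_iff_nontrivial] at hV
      obtain ⟨W, hW0, hWi, hWN⟩ := frb_clifford_step ρ N H hnorm hcomm hfpf hcent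
      have hXinv : ∀ g : G, ∀ x ∈ frbSpan ρ H W, ρ g x ∈ frbSpan ρ H W := by
        let K : Subgroup G :=
          { carrier := {g | ∀ x ∈ frbSpan ρ H W, ρ g x ∈ frbSpan ρ H W ∧
              ρ g⁻¹ x ∈ frbSpan ρ H W}
            mul_mem' := by
              intro g g' hg hg' x hx
              constructor
              · rw [frb_mul_apply]
                exact (hg _ (hg' x hx).1).1
              · rw [mul_inv_rev, frb_mul_apply]
                exact (hg' _ (hg x hx).2).2
            one_mem' := by
              intro x hx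
              rw [inv_one, map_one]
              exact ⟨hx, hx⟩
            inv_mem' := by
              intro g hg x hx
              rw [inv_inv]
              exact ⟨(hg x hx).2, (hg x hx).1⟩ }
        have hle : N ⊔ H ≤ K := by
          apply sup_le
          · intro n hn x hx
            exact ⟨hWN n hn x hx, hWN _ (N.inv_mem hn) x hx⟩
          · intro h hh x hx
            exact ⟨frbSpan_H_invariant ρ H W h hh x hx,
              frbSpan_H_invariant ρ H W _ (H.inv_mem hh) x hx⟩
        intro g x hx
        have hg : g ∈ K := hle (by rw [hNH]; exact Subgroup.mem_top g)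
        exact (hg x hx).1
      have hsub : frbHFree (frbSub ρ (frbSpan ρ H W) hXinv) H := by
        refine ⟨W.comap (frbSpan ρ H W).subtype, ?_, ?_⟩
        · intro f hf hsum h
          have h0 := congrArg Subtype.val hsum
          rw [Submodule.coe_sum] at h0
          exact Subtype.ext (hWi (fun h => (f h : V)) hf h0 h)
        · intro v
          obtain ⟨f, hf, hsum⟩ := frbSpan_rep ρ H W (v : V) v.2
          refine ⟨fun h => ⟨f h, frb_le_span ρ H W (hf h)⟩, fun h => hf h, ?_⟩
          apply Subtype.ext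
          rw [Submodule.coe_sum]
          exact hsum
      have hquot : frbHFree (frbQuot ρ (frbSpan ρ H W) hXinv) H := by
        have hlt : Module.finrank k (V ⧸ frbSpan ρ H W) < d := by
          have h1 := Submodule.finrank_quotient_add_finrank (frbSpan ρ H W)
          have h2 : 0 < Module.finrank k ↥(frbSpan ρ H W) := by
            rw [Nat.pos_iff_ne_zero]
            intro h0
            rw [Submodule.finrank_eq_zero] at h0
            apply hW0
            rw [eq_bot_iff, ← h0]
            exact frb_le_span ρ H W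
          omega
        apply ih _ hlt (V ⧸ frbSpan ρ H W) (frbQuot ρ (frbSpan ρ H W) hXinv) rfl
        · intro n hn n' hn'
          apply Submodule.linearMap_qext
          apply LinearMap.ext
          intro v
          change (frbSpan ρ H W).mkQ (ρ n (ρ n' v)) = (frbSpan ρ H W).mkQ (ρ n' (ρ n v))
          have := congrArg (fun f : Module.End k V => f v) (hcomm n hn n' hn')
          change ρ n (ρ n' v) = ρ n' (ρ n v) at this
          rw [this]
        · intro vbar hvbar
          obtain ⟨v, rfl⟩ := Submodule.mkQ_surjective _ vbar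
          have : Fintype ↥N := Fintype.ofFinite _
          have hcard' : (Fintype.card ↥N : k) ≠ 0 := by
            rw [← Nat.card_eq_fintype_card]; exact hcard
          have hv : v ∈ frbSpan ρ H W := by
            apply frb_average ρ N hcard' (frbSpan ρ H W)
            · intro v' hv'
              rw [hcent v' hv']
              exact Submodule.zero_mem _
            · intro n hn
              have h1 := hvbar n hn
              rw [frbQuot_mk] at h1
              have h2 : (frbSpan ρ H W).mkQ (ρ n v - v) = 0 := by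
                rw [map_sub, h1, sub_self]
              exact (Submodule.Quotient.mk_eq_zero _).mp h2
          exact (Submodule.Quotient.mk_eq_zero _).mpr hv
      exact frb_extension ρ H (frbSpan ρ H W) hXinv hsub hquot


theorem frb_abelian {k : Type*} [Field k] {G : Type*} [Group G] [Finite G]
    {V : Type u} [AddCommGroup V] [Module k V] [FiniteDimensional k V]
    (ρ : G →* Module.End k V) (N H : Subgroup G) [Fintype H]
    (hnorm : ∀ h ∈ H, ∀ n ∈ N, h * n * h⁻¹ ∈ N)
    (hfpf : ∀ h ∈ H, h ≠ 1 → ∀ n ∈ N, n * h = h * n → n = 1)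
    (hcard : (Nat.card N : k) ≠ 0)
    (hcomm : ∀ n ∈ N, ∀ n' ∈ N, ρ n * ρ n' = ρ n' * ρ n)
    (hcent : ∀ v : V, (∀ n ∈ N, ρ n v = v) → v = 0) : frbHFree ρ H := by
  classical
  have : Fintype ↥(H.subgroupOf (N ⊔ H)) := Fintype.ofFinite _
  have hsup : N.subgroupOf (N ⊔ H) ⊔ H.subgroupOf (N ⊔ H) = ⊤ :=
    codisjoint_iff.mp (Subgroup.codisjoint_subgroupOf_sup N H)
  have hcard' : (Nat.card ↥(N.subgroupOf (N ⊔ H)) : k) ≠ 0 := by
    rw [Nat.card_congr (Subgroup.subgroupOfEquivOfLe (le_sup_left : N ≤ N ⊔ H)).toEquiv]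
    exact hcard
  obtain ⟨W, hWi, hWs⟩ := frb_abelian_core (k := k) (N.subgroupOf (N ⊔ H))
    (H.subgroupOf (N ⊔ H)) hsup
    (fun h hh n hn => by
      rw [Subgroup.mem_subgroupOf] at hh hn ⊢
      exact hnorm _ hh _ hn)
    (fun h hh h1 n hn hnh => by
      rw [Subgroup.mem_subgroupOf] at hh hn
      have h1' : (h : G) ≠ 1 := fun h0 => h1 (Subtype.ext h0)
      have := hfpf _ hh h1' _ hn (congrArg Subtype.val hnh)
      exact Subtype.ext this)
    hcard' _ V (ρ.comp (N ⊔ H).subtype) rfl
    (fun n hn n' hn' => by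
      rw [Subgroup.mem_subgroupOf] at hn hn'
      exact hcomm _ hn _ hn')
    (fun v hv => hcent v (fun n hn => hv ⟨n, le_sup_left (a := N) (b := H) hn⟩
      (by rw [Subgroup.mem_subgroupOf]; exact hn)))
  have hsumeq : ∀ f : ↥H → V,
      ∑ h' : ↥(H.subgroupOf (N ⊔ H)), (ρ.comp (N ⊔ H).subtype) (h' : ↥(N ⊔ H))
        (f (Subgroup.subgroupOfEquivOfLe (le_sup_right : H ≤ N ⊔ H) h'))
      = ∑ h : ↥H, ρ (h : G) (f h) := by
    intro f
    exact Fintype.sum_equiv (Subgroup.subgroupOfEquivOfLe (le_sup_right : H ≤ N ⊔ H)).toEquiv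
      _ _ (fun h' => rfl)
  refine ⟨W, ?_, ?_⟩
  · intro f hf hsum h
    have h1 := hWi (fun h' => f (Subgroup.subgroupOfEquivOfLe (le_sup_right : H ≤ N ⊔ H) h'))
      (fun h' => hf _) (by rw [hsumeq f]; exact hsum)
      ((Subgroup.subgroupOfEquivOfLe (le_sup_right : H ≤ N ⊔ H)).symm h)
    simpa using h1
  · intro v
    obtain ⟨f', hf', hsum⟩ := hWs v
    refine ⟨fun h => f' ((Subgroup.subgroupOfEquivOfLe (le_sup_right : H ≤ N ⊔ H)).symm h),
      fun h => hf' _, ?_⟩
    rw [← hsumeq]
    simpa using hsum

end FrobAb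

end Cfsg.Agent.Helper10
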