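import Mathlib
import Cfsg.Agent.Helper10.FrobAb
import Cfsg.Agent.Helper58.PGroupFix

set_option autoImplicit false

universe u

namespace Cfsg.Agent.Helper10

section FrobMain

theorem frbQuot_comm {k : Type*} [Field k] {G : Type*} [Group G]
    {V : Type*} [AddCommGroup V] [Module k V] (ρ : G →* Module.End k V) (U : Submodule k V)
    (hU : ∀ g : G, ∀ u ∈ U, ρ g u ∈ U) (n n' : G) (h : ρ n * ρ n' = ρ n' * ρ n) :
    frbQuot ρ U hU n * frbQuot ρ U hU n' = frbQuot ρ U hU n' * frbQuot ρ U hU n := by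
  apply Submodule.linearMap_qext
  apply LinearMap.ext
  intro v
  change U.mkQ (ρ n (ρ n' v)) = U.mkQ (ρ n' (ρ n v))
  have h1 := congrArg (fun f : Module.End k V => f v) h
  change ρ n (ρ n' v) = ρ n' (ρ n v) at h1
  rw [h1]

theorem frbQuot_cent {k : Type*} [Field k] {G : Type*} [Group G]
    {V : Type*} [AddCommGroup V] [Module k V] (ρ : G →* Module.End k V) (N : Subgroup G)
    [Finite N] (hcard : (Nat.card N : k) ≠ 0) (U : Submodule k V)
    (hU : ∀ g : G, ∀ u ∈ U, ρ g u ∈ U)
    (hfix : ∀ v : V, (∀ n ∈ N, ρ n v = v) → v ∈ U) :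
    ∀ vbar : V ⧸ U, (∀ n ∈ N, frbQuot ρ U hU n vbar = vbar) → vbar = 0 := by
  classical
  intro vbar hvbar
  obtain ⟨v, rfl⟩ := Submodule.mkQ_surjective _ vbar
  have : Fintype ↥N := Fintype.ofFinite _
  have hcard' : (Fintype.card ↥N : k) ≠ 0 := by
    rw [← Nat.card_eq_fintype_card]; exact hcard
  have hv : v ∈ U := by
    apply frb_average ρ N hcard' U hfix
    intro n hn
    have h1 := hvbar n hn
    rw [frbQuot_mk] at h1
    have h2 : U.mkQ (ρ n v - v) = 0 := by
      rw [map_sub, h1, sub_self]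
    exact (Submodule.Quotient.mk_eq_zero _).mp h2
  exact (Submodule.Quotient.mk_eq_zero _).mpr hv

/-- A nilpotent normal subgroup without fixed points has a normal Sylow subgroup, for a prime
invertible in `k`, acting nontrivially. -/
theorem frb_exists_sylow {k : Type*} [Field k] {A : Type*} [Group A] [Finite A]
    (Fk : Subgroup A) [Fk.Normal] (hnil : Group.IsNilpotent ↥Fk)
    {V : Type*} [AddCommGroup V] [Module k V] [Nontrivial V] (ρ : A →* Module.End k V)
    (hCF : ∀ v : V, (∀ f ∈ Fk, ρ f v = v) → v = 0) :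
    ∃ (q : ℕ) (Q : Subgroup A), q.Prime ∧ (q : k) ≠ 0 ∧ Q.Normal ∧ Q ≤ Fk ∧ IsPGroup q Q ∧
      ∃ g ∈ Q, ∃ v : V, ρ g v ≠ v := by
  classical
  by_contra hcon
  push Not at hcon
  have hsylN : ∀ (p : ℕ), Fact (Nat.Prime p) → ∀ (P : Sylow p ↥Fk), (P : Subgroup ↥Fk).Normal :=
    (Group.isNilpotent_of_finite_tfae (G := ↥Fk)).out 0 3 |>.mp hnil
  have hQnormal : ∀ (p : ℕ) [Fact p.Prime] (P : Sylow p ↥Fk),
      ((P : Subgroup ↥Fk).map Fk.subtype).Normal := by
    intro p hp P
    have h1 : (P : Subgroup ↥Fk).Characteristic := P.characteristic_of_normal (hsylN p hp P)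
    exact ConjAct.normal_of_characteristic_of_normal
  have htriv : ∀ (p : ℕ) [Fact p.Prime] (P : Sylow p ↥Fk), (p : k) ≠ 0 →
      ∀ g ∈ (P : Subgroup ↥Fk).map Fk.subtype, ∀ v : V, ρ g v = v := by
    intro p hp P hpk
    exact hcon p _ hp.out hpk (hQnormal p P) (Subgroup.map_subtype_le _) (P.isPGroup'.map _)
  -- a nonzero vector fixed by a Sylow subgroup for each prime
  have hv : ∃ v : V, v ≠ 0 ∧ ∀ (p : ℕ) [Fact p.Prime], ∃ P : Sylow p ↥Fk,
      ∀ g ∈ (P : Subgroup ↥Fk).map Fk.subtype, ρ g v = v := by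
    by_cases hchar : ∀ p : ℕ, p.Prime → (p : k) ≠ 0
    · obtain ⟨v, hv⟩ := exists_ne (0 : V)
      exact ⟨v, hv, fun p hp => ⟨default, fun g hg => htriv p default (hchar p hp.out) g hg v⟩⟩
    · push Not at hchar
      obtain ⟨p, hp, hpk⟩ := hchar
      have : Fact p.Prime := ⟨hp⟩
      have : CharP k p := by
        obtain ⟨c, hc⟩ := CharP.exists k
        have h1 : c ∣ p := (CharP.cast_eq_zero_iff k c p).mp hpk
        rcases (Nat.dvd_prime hp).mp h1 with h2 | h2
        · exfalso
          subst h2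
          exact CharP.char_ne_one k 1 rfl
        · subst h2; exact hc
      obtain ⟨v, -, hv0, hvfix⟩ := Cfsg.Agent.Helper58.exists_fixed_vector_of_pgroup ρ
        (((default : Sylow p ↥Fk) : Subgroup ↥Fk).map Fk.subtype)
        ((default : Sylow p ↥Fk).isPGroup'.map _) (⊤ : Submodule k V)
        (fun _ _ _ _ => Submodule.mem_top) top_ne_bot
      refine ⟨v, hv0, fun q hq => ?_⟩
      by_cases hqp : q = p
      · subst hqp
        exact ⟨default, hvfix⟩
      · have hqk : (q : k) ≠ 0 := by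
          intro h0
          have h1 : p ∣ q := (CharP.cast_eq_zero_iff k p q).mp h0
          exact hqp ((Nat.prime_dvd_prime_iff_eq hp hq.out).mp h1).symm
        exact ⟨default, fun g hg => htriv q default hqk g hg v⟩
  obtain ⟨v, hv0, hvP⟩ := hv
  -- the stabilizer of v in Fk has index 1
  let T : Subgroup ↥Fk :=
    { carrier := {f | ρ (f : A) v = v}
      mul_mem' := by
        intro a b ha hb
        show ρ ((a * b : ↥Fk) : A) v = v
        rw [Subgroup.coe_mul, frb_mul_apply]
        have hb' : ρ (b : A) v = v := hb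
        have ha' : ρ (a : A) v = v := ha
        rw [hb', ha']
      one_mem' := by
        show ρ ((1 : ↥Fk) : A) v = v
        rw [Subgroup.coe_one, map_one]
        rfl
      inv_mem' := by
        intro a ha
        show ρ ((a⁻¹ : ↥Fk) : A) v = v
        have ha' : ρ (a : A) v = v := ha
        rw [Subgroup.coe_inv]
        have := frb_inv_apply ρ (a : A) v
        rw [ha'] at this
        exact this }
  have hT : T.index = 1 := by
    rw [Nat.eq_one_iff_not_exists_prime_dvd]
    intro p hp hdvd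
    have : Fact p.Prime := ⟨hp⟩
    obtain ⟨P, hP⟩ := hvP p
    have hle : (P : Subgroup ↥Fk) ≤ T := by
      intro f hf
      exact hP _ (Subgroup.mem_map_of_mem _ hf)
    exact P.not_dvd_index (dvd_trans hdvd (Subgroup.index_dvd_of_le hle))
  rw [Subgroup.index_eq_one] at hT
  apply hv0
  apply hCF
  intro f hf
  have : (⟨f, hf⟩ : ↥Fk) ∈ T := by rw [hT]; exact Subgroup.mem_top _
  exact this


/-- An abelian-acting normal subgroup inside a normal `q`-subgroup acting nontrivially. -/
theorem frb_exists_abelian {k : Type*} [Field k] {A : Type*} [Group A] [Finite A]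
    {V : Type*} [AddCommGroup V] [Module k V] (ρ : A →* Module.End k V)
    (q : ℕ) (hq : q.Prime) (Q : Subgroup A) (hQn : Q.Normal) (hQ : IsPGroup q Q)
    (hQnt : ∃ g ∈ Q, ∃ v : V, ρ g v ≠ v) :
    ∃ N : Subgroup A, N.Normal ∧ N ≤ Q ∧ (∃ g ∈ N, ∃ v : V, ρ g v ≠ v) ∧
      ∀ n ∈ N, ∀ n' ∈ N, ρ n * ρ n' = ρ n' * ρ n := by
  classical
  have hne : {n : ℕ | ∃ M : Subgroup A, M.Normal ∧ M ≤ Q ∧ (∃ g ∈ M, ∃ v : V, ρ g v ≠ v) ∧
      Nat.card M = n}.Nonempty := ⟨_, Q, hQn, le_refl Q, hQnt, rfl⟩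
  obtain ⟨n, ⟨N, hNn, hNQ, hNnt, hNcard⟩, hmin⟩ := Nat.lt_wfRel.wf.has_min _ hne
  refine ⟨N, hNn, hNQ, hNnt, ?_⟩
  have : Fact q.Prime := ⟨hq⟩
  have hNp : IsPGroup q N := hQ.to_le hNQ
  have hNnil : Group.IsNilpotent ↥N := hNp.isNilpotent
  have hNntr : Nontrivial ↥N := by
    obtain ⟨g, hg, v, hgv⟩ := hNnt
    refine ⟨⟨⟨g, hg⟩, 1, fun h => hgv ?_⟩⟩
    have h1 : g = 1 := congrArg Subtype.val h
    rw [h1, map_one]
    rfl
  have hlt : _root_.commutator ↥N < ⊤ := Group.IsSolvable.commutator_lt_top_of_nontrivial ↥N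
  have hcn : (⁅N, N⁆ : Subgroup A).Normal := Subgroup.commutator_normal N N
  have hcle : ⁅N, N⁆ ≤ N := Subgroup.commutator_le_right N N
  have hcard : Nat.card ↥(⁅N, N⁆ : Subgroup A) < n := by
    by_contra hcon
    rw [not_lt, ← hNcard] at hcon
    have heq : ⁅N, N⁆ = N := Subgroup.eq_of_le_of_card_ge hcle hcon
    have h1 : (_root_.commutator ↥N).map N.subtype = (⊤ : Subgroup ↥N).map N.subtype := by
      rw [Subgroup.map_subtype_commutator, heq, ← MonoidHom.range_eq_map, Subgroup.range_subtype]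
    have h2 := Subgroup.map_injective N.subtype_injective h1
    exact (ne_of_lt hlt) h2
  have htriv : ∀ g ∈ (⁅N, N⁆ : Subgroup A), ∀ v : V, ρ g v = v := by
    by_contra hcon
    push Not at hcon
    exact hmin _ ⟨⁅N, N⁆, hcn, hcle.trans hNQ, hcon, rfl⟩ hcard
  intro a ha b hb
  have hab : a * b * a⁻¹ * b⁻¹ ∈ (⁅N, N⁆ : Subgroup A) :=
    Subgroup.commutator_mem_commutator ha hb
  have h1 : ρ (a * b * a⁻¹ * b⁻¹) = 1 := by
    apply LinearMap.ext
    intro v
    exact htriv _ hab v
  have h2 : a * b = (a * b * a⁻¹ * b⁻¹) * (b * a) := by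
    group
  rw [← map_mul, ← map_mul, h2, map_mul, h1, one_mul]

theorem frb_main {k : Type*} [Field k] {A : Type*} [Group A] [Finite A]
    (Fk Hc : Subgroup A) [Fk.Normal] [Fintype Hc] (hnil : Group.IsNilpotent ↥Fk)
    (hfpf : ∀ h ∈ Hc, h ≠ 1 → ∀ f ∈ Fk, f * h = h * f → f = 1) :
    ∀ (d : ℕ) (V : Type u) [AddCommGroup V] [Module k V] [FiniteDimensional k V]
      (ρ : A →* Module.End k V), Module.finrank k V = d →
      (∀ v : V, (∀ f ∈ Fk, ρ f v = v) → v = 0) → frbHFree ρ Hc := by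
  classical
  intro d
  induction d using Nat.strong_induction_on with
  | _ d ih =>
    intro V _ _ _ ρ hd hCF
    by_cases hV : Subsingleton V
    · refine ⟨⊥, ?_, ?_⟩
      · intro f _ _ h
        exact Subsingleton.elim _ _
      · intro v
        exact ⟨fun _ => 0, fun _ => Submodule.zero_mem _, Subsingleton.elim _ _⟩
    · rw [not_subsingleton_iff_nontrivial] at hV
      obtain ⟨q, Q, hq, hqk, hQn, hQF, hQp, hQnt⟩ := frb_exists_sylow Fk hnil ρ hCF
      obtain ⟨N, hNn, hNQ, hNnt, hNcomm⟩ := frb_exists_abelian ρ q hq Q hQn hQp hQnt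
      have : Fact q.Prime := ⟨hq⟩
      have hNcard : (Nat.card ↥N : k) ≠ 0 := by
        obtain ⟨m, hm⟩ := IsPGroup.iff_card.mp (hQp.to_le hNQ)
        rw [hm, Nat.cast_pow]
        exact pow_ne_zero _ hqk
      -- the fixed space of N
      let U : Submodule k V :=
        { carrier := {v | ∀ n ∈ N, ρ n v = v}
          zero_mem' := fun n _ => map_zero _
          add_mem' := fun {x y} hx hy n hn => by rw [map_add, hx n hn, hy n hn]
          smul_mem' := fun c x hx n hn => by rw [map_smul, hx n hn] }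
      have hUmem : ∀ v : V, v ∈ U ↔ ∀ n ∈ N, ρ n v = v := fun v => Iff.rfl
      have hUinv : ∀ g : A, ∀ u ∈ U, ρ g u ∈ U := by
        intro g u hu
        rw [hUmem] at hu ⊢
        intro n hn
        have h1 : ρ n (ρ g u) = ρ g (ρ (g⁻¹ * n * g⁻¹⁻¹) u) := by
          rw [← frb_mul_apply, ← frb_mul_apply]
          congr 2
          group
        rw [h1, hu _ (hNn.conj_mem n hn g⁻¹)]
      have hUne : U ≠ ⊤ := by
        obtain ⟨g, hg, v, hgv⟩ := hNnt
        intro htop
        have hv : v ∈ U := by rw [htop]; exact Submodule.mem_top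
        exact hgv (hv g hg)
      have hsub : frbHFree (frbSub ρ U hUinv) Hc := by
        apply ih _ (by rw [← hd]; exact Submodule.finrank_lt hUne) ↥U (frbSub ρ U hUinv) rfl
        intro u hu
        apply Subtype.ext
        apply hCF
        intro f hf
        exact congrArg Subtype.val (hu f hf)
      have hquot : frbHFree (frbQuot ρ U hUinv) Hc := by
        apply frb_abelian (frbQuot ρ U hUinv) N Hc
        · intro h _ n hn
          exact hNn.conj_mem n hn h
        · intro h hh h1 n hn hnh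
          exact hfpf h hh h1 n (hQF (hNQ hn)) hnh
        · exact hNcard
        · intro n hn n' hn'
          exact frbQuot_comm ρ U hUinv n n' (hNcomm n hn n' hn')
        · exact frbQuot_cent ρ N hNcard U hUinv (fun v hv => hv)
      exact frb_extension ρ Hc U hUinv hsub hquot

end FrobMain

end Cfsg.Agent.Helper10
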