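import Cfsg.Agent.Helper55.N9Defs
import Cfsg.Agent.Helper35.SZ

set_option autoImplicit false

/-! CALL S4409 (helper55), piece C1b (helper10): the case `[X, K]` quaternion and `≠ X`. -/

namespace Cfsg.Agent.Helper10.N9

open Subgroup Cfsg.Agent.Helper55.N9
open scoped Pointwise

variable {G : Type*} [Group G] [Finite G]

omit [Finite G] in
/-- if `c` centralizes `D`, `c ^ 2 ∈ D`, then every element `b` of `D ⊔ ⟨c⟩` has `b ∈ D` or
`b * c ∈ D`. -/
theorem c1b_sup_mem (D : Subgroup G) (c : G) (hcomm : ∀ d ∈ D, c * d = d * c)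
    (hsq : c ^ 2 ∈ D) : ∀ b ∈ D ⊔ zpowers c, b ∈ D ∨ b * c ∈ D := by
  have hcc : c * c ∈ D := by rw [← pow_two]; exact hsq
  have hcci : c⁻¹ * c⁻¹ ∈ D := by
    have h1 := D.inv_mem hcc
    rwa [mul_inv_rev] at h1
  let M : Subgroup G :=
    { carrier := {b | b ∈ D ∨ b * c ∈ D}
      one_mem' := Or.inl D.one_mem
      mul_mem' := by
        rintro a b (ha | ha) (hb | hb)
        · exact Or.inl (D.mul_mem ha hb)
        · right
          rw [mul_assoc]
          exact D.mul_mem ha hb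
        · right
          have h1 : a * b * c = (a * c) * b := by
            rw [mul_assoc a b c, mul_assoc a c b, hcomm b hb]
          rw [h1]
          exact D.mul_mem ha hb
        · left
          have h1 : a * b = (a * c) * (b * c) * (c⁻¹ * c⁻¹) := by
            have h2 := hcomm (b * c) hb
            have h3 : c⁻¹ * (b * c) = (b * c) * c⁻¹ := by
              have h4 : c⁻¹ * (b * c) = c⁻¹ * ((b * c) * c) * c⁻¹ := by group
              rw [h4, ← h2]
              group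
            calc a * b = (a * c) * (c⁻¹ * (b * c)) * c⁻¹ := by group
              _ = (a * c) * ((b * c) * c⁻¹) * c⁻¹ := by rw [h3]
              _ = (a * c) * (b * c) * (c⁻¹ * c⁻¹) := by group
          rw [h1]
          exact D.mul_mem (D.mul_mem ha hb) hcci
      inv_mem' := by
        rintro a (ha | ha)
        · exact Or.inl (D.inv_mem ha)
        · right
          have h1 : a⁻¹ * c = (a * c)⁻¹ * (c * c) := by
            have h2 := hcomm (a * c)⁻¹ (D.inv_mem ha)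
            calc a⁻¹ * c = c * (a * c)⁻¹ * c := by group
              _ = (a * c)⁻¹ * c * c := by rw [h2]
              _ = (a * c)⁻¹ * (c * c) := by group
          rw [h1]
          exact D.mul_mem (D.inv_mem ha) hcc }
  have hle : D ⊔ zpowers c ≤ M := by
    refine sup_le (fun d hd => Or.inl hd) ?_
    rw [zpowers_le]
    exact Or.inr hcc
  intro b hb
  exact hle hb

/-- C1b. -/
theorem n9_case1_q8 (T : Tools G) (X K : Subgroup G) (c : Core X K) (hmin : MinCfg K ⁅X, K⁆)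
    (mf : MinFacts K ⁅X, K⁆) (hQ : IsQ8 ⁅X, K⁆) (hne : ⁅X, K⁆ ≠ X) :
    (⁅X, K⁆ : Subgroup G).relIndex X = 2 ∧
      ⁅X, K⁆ ⊔ (X ⊓ centralizer ((⁅X, K⁆ : Subgroup G) : Set G)) = X := by
  classical
  obtain ⟨hX1X, hXN, hKN⟩ := T.comm_inv X K c.inv
  have hdec := T.decomp X K c.pX c.odd c.inv
  obtain ⟨X1, hX1⟩ : ∃ X1 : Subgroup G, X1 = ⁅X, K⁆ := ⟨_, rfl⟩
  rw [← hX1] at hX1X hXN hKN hdec mf hQ hne ⊢
  obtain ⟨c₀, hc₀, hc₀n⟩ : ∃ c₀ ∈ X ⊓ centralizer (K : Set G), c₀ ∉ X1 := by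
    by_contra hcon
    push Not at hcon
    apply hne
    refine le_antisymm hX1X ?_
    intro y hy
    obtain ⟨a, ha, c', hc', rfl⟩ := hdec y hy
    exact X1.mul_mem ha (hcon c' hc')
  obtain ⟨k, hk⟩ : ∃ k : ℕ, c₀ ^ 2 ^ k = 1 := by
    obtain ⟨k, hk⟩ := c.pX ⟨c₀, hc₀.1⟩
    refine ⟨k, ?_⟩
    have h1 := congrArg (fun x : ↥X => (x : G)) hk
    simpa using h1
  have hex : ∃ n : ℕ, c₀ ^ 2 ^ n ∈ X1 := ⟨k, by rw [hk]; exact X1.one_mem⟩
  obtain ⟨n, hn⟩ : ∃ n, n = Nat.find hex := ⟨_, rfl⟩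
  have hspec : c₀ ^ 2 ^ n ∈ X1 := by
    rw [hn]
    exact Nat.find_spec hex
  have hn0 : n ≠ 0 := by
    rintro rfl
    rw [pow_zero, pow_one] at hspec
    exact hc₀n hspec
  obtain ⟨j, rfl⟩ := Nat.exists_eq_succ_of_ne_zero hn0
  have hj : c₀ ^ 2 ^ j ∉ X1 :=
    Nat.find_min hex (m := j) (by rw [← hn]; exact Nat.lt_succ_self j)
  obtain ⟨c₁, hc₁⟩ : ∃ c₁, c₁ = c₀ ^ 2 ^ j := ⟨_, rfl⟩
  rw [← hc₁] at hj
  have hc₁sq : c₁ ^ 2 ∈ X1 := by
    rw [hc₁, ← pow_mul, ← pow_succ]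
    exact hspec
  have hc₁X : c₁ ∈ X := by
    rw [hc₁]
    exact X.pow_mem hc₀.1 _
  have hc₁K : c₁ ∈ centralizer (K : Set G) := by
    rw [hc₁]
    exact (centralizer (K : Set G)).pow_mem hc₀.2 _
  have hc₁pow : c₁ ^ 2 ^ k = 1 := by
    rw [hc₁, ← pow_mul, mul_comm, pow_mul, hk, one_pow]
  have hcent : zpowers c₁ ≤ centralizer (X1 : Set G) :=
    mf.cent (zpowers c₁) (IsPGroup.to_le c.pX (zpowers_le.mpr hc₁X))
      (zpowers_le.mpr (hXN hc₁X)) (zpowers_le.mpr hc₁K)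
  have hcomm : ∀ d ∈ X1, c₁ * d = d * c₁ := by
    intro d hd
    have h1 := hcent (mem_zpowers c₁)
    rw [Subgroup.mem_centralizer_iff] at h1
    exact (h1 d hd).symm
  have hYX : X1 ⊔ zpowers c₁ ≤ X := sup_le hX1X (zpowers_le.mpr hc₁X)
  have hKY : K ≤ normalizer ((X1 ⊔ zpowers c₁ : Subgroup G) : Set G) := by
    intro x hx
    have hxz : x ∈ normalizer ((zpowers c₁ : Subgroup G) : Set G) := by
      apply centralizer_le_normalizer
      rw [Subgroup.mem_centralizer_iff]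
      intro h hh
      have h1 := (zpowers_le.mpr hc₁K) hh
      rw [Subgroup.mem_centralizer_iff] at h1
      exact (h1 x hx).symm
    rw [Cfsg.Agent.Helper35.mem_normalizer_iff_conj_smul_eq, Subgroup.smul_sup,
      Cfsg.Agent.Helper35.mem_normalizer_iff_conj_smul_eq.mp (hKN hx),
      Cfsg.Agent.Helper35.mem_normalizer_iff_conj_smul_eq.mp hxz]
  have hA8 := T.cent_a8 X1 (Or.inr hQ) c₁ hcomm hj ⟨k, hc₁pow⟩
  have hYeq : X1 ⊔ zpowers c₁ = X := by
    by_contra hY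
    exact hA8 (c.hyp _ hYX hY hKY)
  constructor
  · have hmem := c1b_sup_mem X1 c₁ hcomm hc₁sq
    rw [hYeq] at hmem
    show (X1.subgroupOf X).index = 2
    rw [Subgroup.index_eq_two_iff]
    refine ⟨⟨c₁, hc₁X⟩, fun b => ?_⟩
    have hnot : ¬ ((b : G) ∈ X1 ∧ (b : G) * c₁ ∈ X1) := by
      rintro ⟨h1, h2⟩
      apply hj
      have h3 := X1.mul_mem (X1.inv_mem h1) h2
      rwa [inv_mul_cancel_left] at h3
    rcases hmem b b.2 with h | h
    · exact Or.inr ⟨h, fun h' => hnot ⟨h, h'⟩⟩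
    · exact Or.inl ⟨h, fun h' => hnot ⟨h', h⟩⟩
  · refine le_antisymm (sup_le hX1X inf_le_left) ?_
    conv_lhs => rw [← hYeq]
    refine sup_le le_sup_left ?_
    refine le_trans ?_ le_sup_right
    exact le_inf (zpowers_le.mpr hc₁X) hcent

end Cfsg.Agent.Helper10.N9
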