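import Mathlib
import Cfsg.Agent.Helper60.NCDefs

/-!
# S4135 piece CASEA (helper10)
-/

set_option autoImplicit false
open Subgroup

namespace Cfsg.Agent.Helper10.NCCASEA
open Cfsg.Agent.Helper60.NC

variable {G : Type*} [Group G] [Finite G] {r : ℕ} [Fact r.Prime] {N : Subgroup G} {m : ℕ}

/-- elements of `N` killed by a number prime to `r` are central -/
theorem casea_coprime (N : Subgroup G)
    (hA : ∀ v ∈ N, ∀ q : ℕ, q.Prime → q ≠ r → (∃ k : ℕ, v ^ q ^ k = 1) → v ∈ center G) :
    ∀ b : ℕ, Nat.Coprime b r → ∀ w ∈ N, w ^ b = 1 → w ∈ center G := by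
  have hr : r.Prime := Fact.out
  intro b
  induction b using Nat.strong_induction_on with
  | _ b ih =>
    intro hb w hw hwb
    rcases Nat.lt_or_ge b 2 with hb2 | hb2
    · -- b = 0 or 1
      have hb1 : b = 1 := by
        rcases Nat.eq_zero_or_pos b with h0 | h0
        · rw [h0] at hb
          rw [Nat.coprime_zero_left] at hb
          exact absurd hb hr.one_lt.ne'
        · omega
      rw [hb1, pow_one] at hwb
      rw [hwb]
      exact Subgroup.one_mem _
    · -- a prime q dividing b
      have hb0 : b ≠ 0 := by omega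
      obtain ⟨q, hq, hqb⟩ := Nat.exists_prime_and_dvd (show b ≠ 1 by omega)
      have hqr : q ≠ r := by
        rintro rfl
        exact hr.one_lt.ne' (Nat.eq_one_of_dvd_coprimes hb hqb dvd_rfl) |>.elim
      obtain ⟨e, c, hqc, hbe⟩ := Nat.exists_eq_pow_mul_and_not_dvd hb0 q hq.one_lt.ne'
      have he : e ≠ 0 := by
        rintro rfl
        rw [pow_zero, one_mul] at hbe
        rw [hbe] at hqb
        exact hqc hqb
      have hc0 : 0 < c := by
        rcases Nat.eq_zero_or_pos c with h0 | h0
        · rw [h0, mul_zero] at hbe; exact absurd hbe hb0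
        · exact h0
      have hclt : c < b := by
        rw [hbe]
        have h2 : 2 ≤ q ^ e := by
          calc 2 ≤ q := hq.two_le
            _ = q ^ 1 := (pow_one q).symm
            _ ≤ q ^ e := Nat.pow_le_pow_right hq.pos (Nat.one_le_iff_ne_zero.mpr he)
        nlinarith
      have hcr : Nat.Coprime c r := Nat.Coprime.coprime_dvd_left ⟨q ^ e, by rw [hbe]; ring⟩ hb
      -- the two components
      have h1 : w ^ (q ^ e) ∈ center G := by
        apply ih c hclt hcr _ (N.pow_mem hw _)
        rw [← pow_mul, ← hbe, hwb]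
      have h2 : w ^ c ∈ center G := by
        apply hA _ (N.pow_mem hw _) q hq hqr
        refine ⟨e, ?_⟩
        rw [← pow_mul, mul_comm, ← hbe, hwb]
      have hcop : Nat.Coprime (q ^ e) c :=
        Nat.Coprime.pow_left e ((Nat.Prime.coprime_iff_not_dvd hq).mpr hqc)
      obtain ⟨s, t, hst⟩ := Nat.isCoprime_iff_coprime.mpr hcop
      have hw1 : w = (w ^ (q ^ e)) ^ s * (w ^ c) ^ t := by
        rw [← zpow_natCast, ← zpow_natCast, ← zpow_mul, ← zpow_mul, ← zpow_add]
        have : ((q ^ e : ℕ) : ℤ) * s + (c : ℤ) * t = 1 := by rw [← hst]; push_cast; ring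
        rw [this, zpow_one]
      rw [hw1]
      exact Subgroup.mul_mem _ (Subgroup.zpow_mem _ h1 s) (Subgroup.zpow_mem _ h2 t)

/-- CASEA -/
theorem case_a (N : Subgroup G)
    (hA : ∀ v ∈ N, ∀ q : ℕ, q.Prime → q ≠ r → (∃ k : ℕ, v ^ q ^ k = 1) → v ∈ center G) :
    Group.IsNilpotent N := by
  have hr : r.Prime := Fact.out
  have hcop := casea_coprime N hA
  -- every element of `N` has an `r`-power in the center
  have hpow : ∀ v ∈ N, ∃ k : ℕ, v ^ r ^ k ∈ center G := by
    intro v hv
    obtain ⟨k, b, hrb, hob⟩ := Nat.exists_eq_pow_mul_and_not_dvd (orderOf_pos v).ne' r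
      hr.one_lt.ne'
    refine ⟨k, hcop b ?_ _ (N.pow_mem hv _) ?_⟩
    · exact ((Nat.Prime.coprime_iff_not_dvd hr).mpr hrb).symm
    · rw [← pow_mul, ← hob, pow_orderOf_eq_one]
  have hP : IsPGroup r (↥N ⧸ center ↥N) := by
    intro x
    induction x using QuotientGroup.induction_on with
    | H x =>
      obtain ⟨k, hk⟩ := hpow x.1 x.2
      refine ⟨k, ?_⟩
      rw [← QuotientGroup.mk_pow, QuotientGroup.eq_one_iff, Subgroup.mem_center_iff]
      intro y
      apply Subtype.ext
      have := Subgroup.mem_center_iff.mp hk y.1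
      simpa using this
  exact Group.of_quotient_center_nilpotent hP.isNilpotent

end Cfsg.Agent.Helper10.NCCASEA
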