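import Mathlib
import Cfsg.Agent.Helper60.NCDefs

/-!
# S4135 piece SYLCENT (helper10)
-/

set_option autoImplicit false
open Subgroup

namespace Cfsg.Agent.Helper10.NCSYLCENT
open Cfsg.Agent.Helper60.NC

variable {G : Type*} [Group G] [Finite G] {r : ℕ} [Fact r.Prime] {N : Subgroup G} {m : ℕ}

/-- SYLCENT -/
theorem syl_cent (R : Sylow r G) (H : Subgroup G) (hH : ¬ r ∣ H.index) :
    ∃ a : G, ∀ g ∈ (R : Subgroup G), a⁻¹ * g * a ∈ H := by
  classical
  obtain ⟨P⟩ : Nonempty (Sylow r H) := inferInstance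
  have hQ : IsPGroup r ((P : Subgroup H).map H.subtype) := P.isPGroup'.map H.subtype
  obtain ⟨Q', hQ'⟩ := hQ.exists_le_sylow
  have hcardP : Nat.card ((P : Subgroup H).map H.subtype) = r ^ (Nat.card H).factorization r := by
    rw [Subgroup.card_map_of_injective H.subtype_injective]
    exact P.card_eq_multiplicity
  have hcardQ' : Nat.card (Q' : Subgroup G) = r ^ (Nat.card G).factorization r :=
    Q'.card_eq_multiplicity
  have hfac : (Nat.card G).factorization r = (Nat.card H).factorization r := by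
    rw [← Subgroup.card_mul_index H, Nat.factorization_mul Nat.card_pos.ne'
      Subgroup.index_ne_zero_of_finite, Finsupp.add_apply,
      Nat.factorization_eq_zero_of_not_dvd hH, add_zero]
  have hEq : (P : Subgroup H).map H.subtype = (Q' : Subgroup G) := by
    apply Subgroup.eq_of_le_of_card_ge hQ'
    rw [hcardP, hcardQ', hfac]
  obtain ⟨g, hg⟩ := MulAction.exists_smul_eq G Q' R
  refine ⟨g, fun x hx => ?_⟩
  have hx' : x ∈ ((g • Q' : Sylow r G) : Subgroup G) := by rw [hg]; exact hx
  rw [Sylow.smul_def, Sylow.pointwise_smul_def,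
    Subgroup.mem_pointwise_smul_iff_inv_smul_mem] at hx'
  have e : (MulAut.conj g)⁻¹ • x = g⁻¹ * x * g := by
    rw [MulAut.smul_def, MulAut.conj_inv_apply]
  rw [e, ← hEq] at hx'
  obtain ⟨z, _, hz⟩ := hx'
  rw [← hz]
  exact z.2

end Cfsg.Agent.Helper10.NCSYLCENT
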