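import Mathlib
import Cfsg.Agent.Helper60.NCDefs

/-!
# S4135 piece SYLN (helper10)
-/

set_option autoImplicit false
open Subgroup

namespace Cfsg.Agent.Helper10.NCSYLN
open Cfsg.Agent.Helper60.NC

variable {G : Type*} [Group G] [Finite G] {r : ℕ} [Fact r.Prime] {N : Subgroup G} {m : ℕ}

/-- SYLN -/
theorem syl_n (R : Sylow r G) (N : Subgroup G) [N.Normal] (hRN : (R : Subgroup G) ≤ N) (a : G) :
    ∃ n ∈ N, ∀ g ∈ (R : Subgroup G), ∃ g' ∈ (R : Subgroup G), n⁻¹ * g * n = a⁻¹ * g' * a := by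
  have htop := Sylow.normalizer_sup_eq_top' R hRN
  have ha : a ∈ (⊤ : Subgroup G) := Subgroup.mem_top a
  rw [← htop] at ha
  obtain ⟨c, hc, n, hn, rfl⟩ := Subgroup.mem_sup_of_normal_right.mp ha
  refine ⟨n, hn, fun g hg => ⟨c * g * c⁻¹, ?_, by group⟩⟩
  exact (Subgroup.mem_set_normalizer_iff.mp hc g).mp hg

end Cfsg.Agent.Helper10.NCSYLN
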