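import Mathlib
import Cfsg.Agent.Helper16.NGDefs

set_option autoImplicit false

/-! CALL S4404 (helper16), piece CASE2B (helper10). -/

namespace Cfsg.Agent.Helper10.NGCASE2B
open Cfsg.Agent.Helper16.NG

variable {S : Type*} [Group S]

/-- CASE2B -/
theorem ng_case2b [Finite S] (V : Subgroup S) (p : ℕ) (hp : p.Prime) (hp5 : 5 ≤ p) (P F : Subgroup S)
    (hFP : F ≤ P) (hF : Cfsg.IsElementaryAbelian p F) (hF3 : Nat.card F = p ^ 3)
    (hidx : (P ⊓ Subgroup.centralizer (V : Set S)).relIndex P ≤ 7) :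
    ¬ IsCyclic ↥(F ⊓ Subgroup.centralizer (V : Set S)) := by
  intro hcyc
  obtain ⟨C, hC⟩ : ∃ C : Subgroup S, C = Subgroup.centralizer (V : Set S) := ⟨_, rfl⟩
  rw [← hC] at hidx hcyc
  have h1 : (F ⊓ C).relIndex F ≤ 7 := by
    rw [Subgroup.inf_relIndex_left]
    have h2 : C.relIndex P ≤ 7 := by rwa [Subgroup.inf_relIndex_left] at hidx
    have h3 : C.relIndex F ≤ C.relIndex P :=
      Subgroup.relIndex_le_of_le_right hFP
        (Subgroup.index_ne_zero_of_finite (H := C.subgroupOf P))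
    omega
  have h4 : (F ⊓ C).relIndex F * Nat.card ↥(F ⊓ C) = Nat.card F := by
    have h5 := Subgroup.index_mul_card ((F ⊓ C).subgroupOf F)
    rw [Nat.card_congr (Subgroup.subgroupOfEquivOfLe (inf_le_left : F ⊓ C ≤ F)).toEquiv] at h5
    exact h5
  have h5 : Nat.card ↥(F ⊓ C) ≤ p := by
    obtain ⟨g, hg⟩ := hcyc.exists_generator
    have h6 : orderOf g = Nat.card ↥(F ⊓ C) := orderOf_eq_card_of_forall_mem_zpowers hg
    have h7 : g ^ p = 1 := by
      apply Subtype.ext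
      have h8 := hF.2 (g : S) g.2.1
      simpa using h8
    have h8 : orderOf g ∣ p := orderOf_dvd_of_pow_eq_one h7
    rw [← h6]
    exact Nat.le_of_dvd hp.pos h8
  have h9 : p ^ 3 ≤ 7 * p := by
    rw [← hF3, ← h4]
    exact Nat.mul_le_mul h1 h5
  have h10 : 5 * 5 * p ≤ p * p * p := Nat.mul_le_mul (Nat.mul_le_mul hp5 hp5) le_rfl
  have h11 : p ^ 3 = p * p * p := by ring
  rw [h11] at h9
  obtain ⟨c, hc⟩ : ∃ c, c = p * p * p := ⟨_, rfl⟩
  rw [← hc] at h9 h10
  omega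

end Cfsg.Agent.Helper10.NGCASE2B
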