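import Mathlib
import Cfsg.Agent.Helper16.NGDefs

set_option autoImplicit false

/-! CALL S4404 (helper16), piece LF (helper10). -/

namespace Cfsg.Agent.Helper10.NGLF
open Cfsg.Agent.Helper16.NG

variable {S : Type*} [Group S]

/-- LF -/
theorem ng_LF [Finite S] (M : Subgroup S) [M.Normal] (hcomm : ∀ a ∈ M, ∀ b ∈ M, a * b = b * a)
    (hsq : ∀ a ∈ M, a ^ 2 = 1) (W : Subgroup S) (hW : W ≤ M) (t : S) (ht : Odd (orderOf t))
    (h1 : ∀ w ∈ W, t * w * t⁻¹ = w) (h2 : ∀ m ∈ M, t * m * t⁻¹ * m⁻¹ ∈ W) :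
    t ∈ Subgroup.centralizer (M : Set S) := by
  rw [Subgroup.mem_centralizer_iff]
  intro m hm
  obtain ⟨w, hw⟩ : ∃ w, w = t * m * t⁻¹ * m⁻¹ := ⟨_, rfl⟩
  have hwW : w ∈ W := by
    rw [hw]
    exact h2 m hm
  have htm : t * m * t⁻¹ = w * m := by
    rw [hw]
    group
  have hpow : ∀ k : ℕ, t ^ k * m * (t ^ k)⁻¹ = w ^ k * m := by
    intro k
    induction k with
    | zero => simp
    | succ k ih =>
      have e : t ^ (k + 1) * m * (t ^ (k + 1))⁻¹ = t * (t ^ k * m * (t ^ k)⁻¹) * t⁻¹ := by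
        rw [pow_succ']
        group
      rw [e, ih]
      have e2 : t * (w ^ k * m) * t⁻¹ = (t * w * t⁻¹) ^ k * (t * m * t⁻¹) := by
        rw [conj_pow]
        group
      rw [e2, h1 w hwW, htm, pow_succ, mul_assoc]
  have hk := hpow (orderOf t)
  rw [pow_orderOf_eq_one] at hk
  have hwk : w ^ orderOf t = 1 := by
    have h3 : m = w ^ orderOf t * m := by simpa using hk
    have h4 : w ^ orderOf t * m = 1 * m := by rw [one_mul]; exact h3.symm
    exact mul_right_cancel h4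
  obtain ⟨j, hj⟩ := ht
  have hw2 : w ^ 2 = 1 := hsq w (hW hwW)
  have hw1 : w = 1 := by
    rw [hj, pow_succ, pow_mul, hw2, one_pow, one_mul] at hwk
    exact hwk
  rw [hw1, one_mul] at htm
  calc m * t = (t * m * t⁻¹) * t := by rw [htm]
    _ = t * m := by group

end Cfsg.Agent.Helper10.NGLF
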