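import Mathlib
import Cfsg.Agent.Helper16.NGDefs
import Cfsg.Agent.Helper10.NGLF

set_option autoImplicit false

/-! CALL S4404 (helper16), pieces LTW and LTS with the piece LT as a hypothesis (helper10). -/

namespace Cfsg.Agent.Helper10.NGLTWof
open Cfsg.Agent.Helper16.NG

variable {S : Type*} [Group S]

/-- LTW, with LT (for the automorphism group of `W`) as a hypothesis. -/
theorem ng_LTW_of [Finite S] (W : Subgroup S) (p : ℕ) (T : Subgroup S) (hT : IsPGroup p ↥T)
    (hn : ∀ t ∈ T, ∀ w ∈ W, t * w * t⁻¹ ∈ W)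
    (hLT : ∀ T' : Subgroup (MulAut ↥W), IsPGroup p ↥T' → Nat.card T' ≤ 7) :
    (T ⊓ Subgroup.centralizer (W : Set S)).relIndex T ≤ 7 := by
  have hn' : ∀ t ∈ T, ∀ w ∈ W, t⁻¹ * w * t ∈ W := by
    intro t ht w hw
    have h1 := hn t⁻¹ (T.inv_mem ht) w hw
    rwa [inv_inv] at h1
  let ρ : ↥T →* MulAut ↥W :=
    { toFun := fun t =>
        { toFun := fun w => ⟨t * w * (t : S)⁻¹, hn t t.2 w w.2⟩
          invFun := fun w => ⟨(t : S)⁻¹ * w * t, hn' t t.2 w w.2⟩
          left_inv := fun w => Subtype.ext (by simp [mul_assoc])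
          right_inv := fun w => Subtype.ext (by simp [mul_assoc])
          map_mul' := fun a b => Subtype.ext (by simp [mul_assoc]) }
      map_one' := by
        ext w
        simp
      map_mul' := fun s t => by
        ext w
        simp [mul_assoc] }
  have hρ : ∀ (t : ↥T) (w : ↥W), ((ρ t) w : S) = t * w * (t : S)⁻¹ := fun t w => rfl
  have hker : ρ.ker = (T ⊓ Subgroup.centralizer (W : Set S)).subgroupOf T := by
    ext t
    rw [MonoidHom.mem_ker, Subgroup.mem_subgroupOf, Subgroup.mem_inf,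
      Subgroup.mem_centralizer_iff]
    constructor
    · intro h
      refine ⟨t.2, fun w hw => ?_⟩
      have h1 := hρ t ⟨w, hw⟩
      rw [h] at h1
      have h2 : w = t * w * (t : S)⁻¹ := h1
      calc w * t = (t * w * (t : S)⁻¹) * t := by rw [← h2]
        _ = t * w := by group
    · rintro ⟨-, h⟩
      ext w
      rw [hρ]
      have h1 := h w w.2
      have h2 : (t : S) * w * (t : S)⁻¹ = w := by
        rw [← h1]
        group
      rw [h2]
      rfl
  show ((T ⊓ Subgroup.centralizer (W : Set S)).subgroupOf T).index ≤ 7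
  rw [← hker, Subgroup.index_ker]
  apply hLT
  exact IsPGroup.of_surjective hT ρ.rangeRestrict ρ.rangeRestrict_surjective

/-- LTS, with LT (for the automorphism group of `W`) as a hypothesis. -/
theorem ng_LTS_of [Finite S] (M : Subgroup S) [M.Normal]
    (hcomm : ∀ a ∈ M, ∀ b ∈ M, a * b = b * a)
    (hsq : ∀ a ∈ M, a ^ 2 = 1) (W : Subgroup S) (hW : W ≤ M)
    (p : ℕ) (hp : p.Prime) (hp5 : 5 ≤ p) (T : Subgroup S) (hT : IsPGroup p ↥T)
    (hn : ∀ t ∈ T, ∀ w ∈ W, t * w * t⁻¹ ∈ W) (h2 : ∀ t ∈ T, ∀ m ∈ M, t * m * t⁻¹ * m⁻¹ ∈ W)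
    (hLT : ∀ T' : Subgroup (MulAut ↥W), IsPGroup p ↥T' → Nat.card T' ≤ 7) :
    (T ⊓ Subgroup.centralizer (M : Set S)).relIndex T ≤ 7 := by
  have h1 := ng_LTW_of W p T hT hn hLT
  have hle : T ⊓ Subgroup.centralizer (W : Set S) ≤ T ⊓ Subgroup.centralizer (M : Set S) := by
    rintro t ⟨htT, htW⟩
    refine ⟨htT, ?_⟩
    have htT' : t ∈ T := htT
    apply Cfsg.Agent.Helper10.NGLF.ng_LF M hcomm hsq W hW t ?_ ?_ (h2 t htT')
    · obtain ⟨k, hk⟩ := hT ⟨t, htT'⟩
      have hk' : t ^ p ^ k = 1 := by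
        have h3 := congrArg Subtype.val hk
        simpa using h3
      have hdvd : orderOf t ∣ p ^ k := orderOf_dvd_of_pow_eq_one hk'
      have hpodd : Odd p := hp.odd_of_ne_two (by omega)
      exact Odd.of_dvd_nat hpodd.pow hdvd
    · intro w hw
      have htW' : t ∈ Subgroup.centralizer (W : Set S) := htW
      rw [Subgroup.mem_centralizer_iff] at htW'
      have h3 := htW' w hw
      rw [← h3]
      group
  exact (Subgroup.relIndex_le_of_le_left hle (Subgroup.index_ne_zero_of_finite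
    (H := (T ⊓ Subgroup.centralizer (W : Set S)).subgroupOf T))).trans h1

end Cfsg.Agent.Helper10.NGLTWof
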