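import Mathlib
import Cfsg.Agent.Helper16.NGDefs
import Cfsg.Agent.Helper85.NGLT
import Cfsg.Agent.Helper10.NGLTWof

set_option autoImplicit false

/-! CALL S4404 (helper16), piece LTW (helper10): LT (helper85) transported to subgroups. -/

namespace Cfsg.Agent.Helper10.NGLTW
open Cfsg.Agent.Helper16.NG

variable {S : Type*} [Group S]

/-- LT for the automorphism group of an abelian subgroup of exponent two. -/
theorem ltw_sub [Finite S] (W : Subgroup S) (hWc : ∀ a ∈ W, ∀ b ∈ W, a * b = b * a)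
    (hWsq : ∀ a ∈ W, a ^ 2 = 1) (hW16 : Nat.card W ≤ 16) (p : ℕ) (hp : p.Prime) (hp5 : 5 ≤ p) :
    ∀ T' : Subgroup (MulAut ↥W), IsPGroup p ↥T' → Nat.card T' ≤ 7 := by
  intro T' hT'
  letI : CommGroup ↥W :=
    { (inferInstance : Group ↥W) with
      mul_comm := fun a b => Subtype.ext (hWc a a.2 b b.2) }
  exact Cfsg.Agent.Helper85.NGLT.ng_LT (W := ↥W)
    (fun w => Subtype.ext (by simpa using hWsq w w.2)) hW16 p hp hp5 T' hT'

/-- LTW (LT transported to subgroups of `S`) -/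
theorem ng_LTW [Finite S] (W : Subgroup S) (hWc : ∀ a ∈ W, ∀ b ∈ W, a * b = b * a)
    (hWsq : ∀ a ∈ W, a ^ 2 = 1) (hW16 : Nat.card W ≤ 16) (p : ℕ) (hp : p.Prime) (hp5 : 5 ≤ p)
    (T : Subgroup S) (hT : IsPGroup p ↥T) (hn : ∀ t ∈ T, ∀ w ∈ W, t * w * t⁻¹ ∈ W) :
    (T ⊓ Subgroup.centralizer (W : Set S)).relIndex T ≤ 7 :=
  Cfsg.Agent.Helper10.NGLTWof.ng_LTW_of W p T hT hn (ltw_sub W hWc hWsq hW16 p hp hp5)

end Cfsg.Agent.Helper10.NGLTW
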