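import Mathlib
import Cfsg.Agent.Helper16.NGDefs
import Cfsg.Agent.Helper85.NGLT
import Cfsg.Agent.Helper10.NGLTWof
import Cfsg.Agent.Helper10.NGLTW

set_option autoImplicit false

/-! CALL S4404 (helper16), piece LTS (helper10): from LTW + LF. -/

namespace Cfsg.Agent.Helper10.NGLTS
open Cfsg.Agent.Helper16.NG

variable {S : Type*} [Group S]

/-- LTS (from LTW + LF) -/
theorem ng_LTS [Finite S] (M : Subgroup S) [M.Normal] (hcomm : ∀ a ∈ M, ∀ b ∈ M, a * b = b * a)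
    (hsq : ∀ a ∈ M, a ^ 2 = 1) (W : Subgroup S) (hW : W ≤ M) (hW16 : Nat.card W ≤ 16)
    (p : ℕ) (hp : p.Prime) (hp5 : 5 ≤ p) (T : Subgroup S) (hT : IsPGroup p ↥T)
    (hn : ∀ t ∈ T, ∀ w ∈ W, t * w * t⁻¹ ∈ W) (h2 : ∀ t ∈ T, ∀ m ∈ M, t * m * t⁻¹ * m⁻¹ ∈ W) :
    (T ⊓ Subgroup.centralizer (M : Set S)).relIndex T ≤ 7 :=
  Cfsg.Agent.Helper10.NGLTWof.ng_LTS_of M hcomm hsq W hW p hp hp5 T hT hn h2
    (Cfsg.Agent.Helper10.NGLTW.ltw_sub W (fun a ha b hb => hcomm a (hW ha) b (hW hb))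
      (fun a ha => hsq a (hW ha)) hW16 p hp hp5)

end Cfsg.Agent.Helper10.NGLTS
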