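import Mathlib
import Cfsg.Agent.Helper9.OrdTools

/-!
# Piece RG of CALL S0977 (helper52): a normal subgroup of order 9 of `M` is impossible
-/

set_option autoImplicit false

namespace Cfsg.Agent.Helper10

variable {G : Type*} [Group G] [Finite G]

/-- core of piece RG, for a faithful action on 10 points -/
theorem o4320_normal9_core {X : Type*} [MulAction G X] [Finite X] (hX : Nat.card X = 10)
    (hfaith : ∀ g : G, (∀ x : X, g • x = x) → g = 1)
    (a b : X) (hab : a ≠ b)
    (htr : ∀ c : X, c ≠ a → ∃ g : G, g • a = a ∧ g • b = c)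
    (h48 : Nat.card ↥(MulAction.stabilizer G a ⊓ MulAction.stabilizer G b) = 48)
    (hst : ∀ T : Subgroup G,
      T ≤ MulAction.stabilizer G a ⊓ MulAction.stabilizer G b → Nat.card ↥T = 3 →
      (∀ g ∈ MulAction.stabilizer G a ⊓ MulAction.stabilizer G b, ∀ t ∈ T, g * t * g⁻¹ ∈ T) →
      False)
    (hpar : ∀ g : G, g * g = 1 → Nat.card (MulAction.fixedBy X g) ≠ 4)
    (R : Subgroup G) (hRa : R ≤ MulAction.stabilizer G a) (hR9 : Nat.card ↥R = 9)
    (hRn : ∀ g ∈ MulAction.stabilizer G a, ∀ r ∈ R, g * r * g⁻¹ ∈ R) : False := by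
  classical
  have hRb_dvd : Nat.card ↥(R ⊓ MulAction.stabilizer G b) ∣ 3 ^ 2 := by
    have h9 : (3 : ℕ) ^ 2 = 9 := by norm_num
    rw [h9, ← hR9]
    exact Subgroup.card_dvd_of_le inf_le_left
  rw [Nat.dvd_prime_pow Nat.prime_three] at hRb_dvd
  obtain ⟨j, hj, hjc⟩ := hRb_dvd
  have hRfix_a : ∀ r ∈ R, r • a = a := fun r hr => MulAction.mem_stabilizer_iff.mp (hRa hr)
  interval_cases j
  · -- trivial stabiliser: the regular case
    have hbot : R ⊓ MulAction.stabilizer G b = ⊥ := by
      apply Subgroup.card_eq_one.mp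
      simpa using hjc
    have hRb_bot : ∀ r ∈ R, r • b = b → r = 1 := by
      intro r hr hrb
      have hmem : r ∈ R ⊓ MulAction.stabilizer G b :=
        ⟨hr, MulAction.mem_stabilizer_iff.mpr hrb⟩
      rw [hbot] at hmem
      exact Subgroup.mem_bot.mp hmem
    have hfinj : ∀ r1 r2 : G, r1 ∈ R → r2 ∈ R → r1 • b = r2 • b → r1 = r2 := by
      intro r1 r2 h1 h2 h
      have h3 : (r2⁻¹ * r1) • b = b := by
        rw [mul_smul, h, inv_smul_smul]
      have h4 := hRb_bot _ (Subgroup.mul_mem _ (Subgroup.inv_mem _ h2) h1) h3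
      exact (inv_mul_eq_one.mp h4).symm
    have hne_a : ∀ r ∈ R, r • b ≠ a := by
      intro r hr h
      apply hab
      have : r • b = r • a := by rw [h, hRfix_a r hr]
      exact (smul_left_cancel _ this).symm
    -- surjectivity onto the points ≠ a
    have hsurj : ∀ c : X, c ≠ a → ∃ r ∈ R, r • b = c := by
      have himg : (fun r : R => (r : G) • b) '' Set.univ = {a}ᶜ := by
        refine Set.eq_of_subset_of_ncard_le ?_ ?_ (Set.toFinite _)
        · rintro _ ⟨r, -, rfl⟩
          simp only [Set.mem_compl_iff, Set.mem_singleton_iff]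
          exact hne_a r r.2
        · rw [Set.ncard_image_of_injective _
            (fun r1 r2 h => Subtype.ext (hfinj r1 r2 r1.2 r2.2 h)),
            Set.ncard_univ, hR9, Set.ncard_compl, hX, Set.ncard_singleton]
      intro c hc
      have : c ∈ (fun r : R => (r : G) • b) '' Set.univ := by rw [himg]; exact hc
      obtain ⟨r, -, hr⟩ := this
      exact ⟨r, r.2, hr⟩
    -- fixed points of elements of the two-point stabiliser
    have hfix_iff : ∀ k : G, k • a = a → k • b = b → ∀ r ∈ R,
        (k • r • b = r • b ↔ k * r = r * k) := by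
      intro k hka hkb r hr
      constructor
      · intro h
        have h1 : k * r * k⁻¹ ∈ R := hRn k (MulAction.mem_stabilizer_iff.mpr hka) r hr
        have h2 : (k * r * k⁻¹) • b = r • b := by
          rw [mul_smul, mul_smul]
          have : k⁻¹ • b = b := by rw [inv_smul_eq_iff, hkb]
          rw [this, h]
        have h3 := hfinj _ _ h1 hr h2
        calc k * r = k * r * k⁻¹ * k := by group
          _ = r * k := by rw [h3]
      · intro h
        rw [← mul_smul, h, mul_smul, hkb]
    -- involutions of the two-point stabiliser fix only a and b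
    have hinv : ∀ k : G, k • a = a → k • b = b → k ≠ 1 → k * k = 1 →
        ∀ c : X, c ≠ a → c ≠ b → k • c ≠ c := by
      intro k hka hkb hk1 hkk c hca hcb hc
      have hCdvd : Nat.card ↥((Subgroup.centralizer ({k} : Set G)).subgroupOf R) ∣ 3 ^ 2 := by
        have := Subgroup.card_subgroup_dvd_card ((Subgroup.centralizer ({k} : Set G)).subgroupOf R)
        rw [hR9] at this
        exact this
      rw [Nat.dvd_prime_pow Nat.prime_three] at hCdvd
      obtain ⟨i, hi, hic⟩ := hCdvd
      have hmemC : ∀ r : R, r ∈ (Subgroup.centralizer ({k} : Set G)).subgroupOf R ↔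
          k * (r : G) = (r : G) * k := by
        intro r
        rw [Subgroup.mem_subgroupOf, Subgroup.mem_centralizer_singleton_iff]
        exact eq_comm
      interval_cases i
      · -- C = ⊥
        obtain ⟨r, hr, hrc⟩ := hsurj c hca
        have h1 : k * r = r * k := (hfix_iff k hka hkb r hr).mp (by rw [hrc]; exact hc)
        have h2 : (⟨r, hr⟩ : R) ∈ (Subgroup.centralizer ({k} : Set G)).subgroupOf R :=
          (hmemC ⟨r, hr⟩).mpr h1
        have h3 : (Subgroup.centralizer ({k} : Set G)).subgroupOf R = ⊥ :=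
          Subgroup.card_eq_one.mp (by simpa using hic)
        rw [h3, Subgroup.mem_bot] at h2
        have h4 : r = 1 := congrArg Subtype.val h2
        apply hcb
        rw [← hrc, h4, one_smul]
      · -- card C = 3: four fixed points
        apply hpar k hkk
        have hset : MulAction.fixedBy X k = insert a ((fun r : R => (r : G) • b) ''
            (((Subgroup.centralizer ({k} : Set G)).subgroupOf R : Subgroup R) : Set R)) := by
          ext x
          rw [MulAction.mem_fixedBy, Set.mem_insert_iff]
          by_cases hxa : x = a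
          · simp [hxa, hka]
          · obtain ⟨r, hr, hrx⟩ := hsurj x hxa
            rw [← hrx, hfix_iff k hka hkb r hr]
            constructor
            · intro h
              right
              exact ⟨⟨r, hr⟩, (hmemC ⟨r, hr⟩).mpr h, rfl⟩
            · rintro (h | ⟨r', hr', h⟩)
              · exact absurd h (hne_a r hr)
              · have := hfinj _ _ r'.2 hr h
                rw [← this]
                exact (hmemC r').mp hr'
        rw [Nat.card_coe_set_eq, hset, Set.ncard_insert_of_notMem,
          Set.ncard_image_of_injective _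
            (fun r1 r2 h => Subtype.ext (hfinj r1 r2 r1.2 r2.2 h)),
          ← Nat.card_coe_set_eq]
        · have : Nat.card ↥((Subgroup.centralizer ({k} : Set G)).subgroupOf R) = 3 := by
            simpa using hic
          have h' : Nat.card ↥(((Subgroup.centralizer ({k} : Set G)).subgroupOf R : Subgroup R) : Set R)
              = 3 := this
          rw [h']
        · rintro ⟨r, -, h⟩
          exact hne_a r r.2 h
      · -- C = ⊤ : k is trivial
        apply hk1
        apply hfaith
        have h3 : (Subgroup.centralizer ({k} : Set G)).subgroupOf R = ⊤ := by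
          apply Subgroup.eq_top_of_card_eq
          rw [hic, hR9]
          norm_num
        intro x
        by_cases hxa : x = a
        · rw [hxa]; exact hka
        · obtain ⟨r, hr, hrx⟩ := hsurj x hxa
          rw [← hrx, hfix_iff k hka hkb r hr]
          have : (⟨r, hr⟩ : R) ∈ (Subgroup.centralizer ({k} : Set G)).subgroupOf R := by
            rw [h3]; exact Subgroup.mem_top _
          exact (hmemC ⟨r, hr⟩).mp this
    -- nontrivial 2-elements of the two-point stabiliser fix only a and b
    have hsemi : ∀ g : G, g • a = a → g • b = b → g ≠ 1 → g ^ 16 = 1 →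
        ∀ c : X, c ≠ a → c ≠ b → g • c ≠ c := by
      intro g hga hgb hg1 hg16 c hca hcb hc
      have hdvd : orderOf g ∣ 2 ^ 4 := orderOf_dvd_of_pow_eq_one hg16
      rw [Nat.dvd_prime_pow Nat.prime_two] at hdvd
      obtain ⟨i, hi, hio⟩ := hdvd
      have hi0 : i ≠ 0 := by
        rintro rfl
        rw [pow_zero, orderOf_eq_one_iff] at hio
        exact hg1 hio
      obtain ⟨i', rfl⟩ : ∃ i', i = i' + 1 := ⟨i - 1, by omega⟩
      have hpowfix : ∀ (y : X), g • y = y → ∀ n : ℕ, (g ^ n) • y = y := by
        intro y hy n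
        induction n with
        | zero => rw [pow_zero, one_smul]
        | succ n ih => rw [pow_succ, mul_smul, hy, ih]
      refine hinv (g ^ 2 ^ i') (hpowfix a hga _) (hpowfix b hgb _) ?_ ?_ c hca hcb (hpowfix c hc _)
      · apply pow_ne_one_of_lt_orderOf (by positivity)
        rw [hio, pow_succ]
        have : 0 < 2 ^ i' := by positivity
        omega
      · rw [← pow_add, ← two_mul, mul_comm, ← pow_succ, ← hio]
        exact pow_orderOf_eq_one g
    -- a Sylow 2-subgroup of the two-point stabiliser
    obtain ⟨K, hK⟩ : ∃ K : Subgroup G, K = MulAction.stabilizer G a ⊓ MulAction.stabilizer G b :=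
      ⟨_, rfl⟩
    rw [← hK] at h48
    obtain ⟨W⟩ : Nonempty (Sylow 2 ↥K) := inferInstance
    have hW : Nat.card (W : Subgroup ↥K) = 2 ^ 4 :=
      Helper9.OrdTools.sylow_card 4 3 (by rw [h48]; norm_num) (by decide) W
    -- a point other than a, b
    have hc : ∃ c : X, c ≠ a ∧ c ≠ b := by
      by_contra hcon
      have hsub : (Set.univ : Set X) ⊆ {a, b} := by
        intro x _
        by_cases hxa : x = a
        · simp [hxa]
        · by_cases hxb : x = b
          · simp [hxb]
          · exact absurd ⟨x, hxa, hxb⟩ hcon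
      have h1 := Set.ncard_le_ncard hsub (Set.toFinite _)
      rw [Set.ncard_univ, hX, Set.ncard_pair hab] at h1
      omega
    obtain ⟨c, hca, hcb⟩ := hc
    have hKmem : ∀ w : ↥K, (w : G) • a = a ∧ (w : G) • b = b := by
      intro w
      have := hK.le w.2
      exact ⟨MulAction.mem_stabilizer_iff.mp this.1, MulAction.mem_stabilizer_iff.mp this.2⟩
    have hWinj : Function.Injective (fun w : (W : Subgroup ↥K) => (((w : ↥K) : G)) • c) := by
      intro w1 w2 h
      simp only at h
      by_contra hne
      have h1 : (w2⁻¹ * w1) ≠ 1 := by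
        intro h'
        exact hne (inv_mul_eq_one.mp h').symm
      have h2 : (((w2⁻¹ * w1 : (W : Subgroup ↥K)) : ↥K) : G) ≠ 1 := by
        intro h'
        apply h1
        apply Subtype.ext
        apply Subtype.ext
        exact h'
      have h3 : (((w2⁻¹ * w1 : (W : Subgroup ↥K)) : ↥K) : G) ^ 16 = 1 := by
        have h4 : (w2⁻¹ * w1) ^ Nat.card (W : Subgroup ↥K) = 1 := pow_card_eq_one'
        rw [hW] at h4
        have h5 := congrArg (fun w : (W : Subgroup ↥K) => ((w : ↥K) : G)) h4
        simpa using h5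
      have h6 := hKmem ((w2⁻¹ * w1 : (W : Subgroup ↥K)) : ↥K)
      refine hsemi _ h6.1 h6.2 h2 h3 c hca hcb ?_
      have h7 : (((w2⁻¹ * w1 : (W : Subgroup ↥K)) : ↥K) : G) = ((w2 : ↥K) : G)⁻¹ * ((w1 : ↥K) : G) := by
        simp
      rw [h7, mul_smul, h, inv_smul_smul]
    have hWsub : (fun w : (W : Subgroup ↥K) => (((w : ↥K) : G)) • c) '' Set.univ ⊆ {a, b}ᶜ := by
      rintro _ ⟨w, -, rfl⟩
      simp only [Set.mem_compl_iff, Set.mem_insert_iff, Set.mem_singleton_iff, not_or]
      have h6 := hKmem (w : ↥K)
      constructor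
      · intro h
        apply hca
        have : ((w : ↥K) : G) • c = ((w : ↥K) : G) • a := by rw [h, h6.1]
        exact smul_left_cancel _ this
      · intro h
        apply hcb
        have : ((w : ↥K) : G) • c = ((w : ↥K) : G) • b := by rw [h, h6.2]
        exact smul_left_cancel _ this
    have h1 := Set.ncard_le_ncard hWsub (Set.toFinite _)
    rw [Set.ncard_image_of_injective _ hWinj, Set.ncard_univ, hW, Set.ncard_compl, hX,
      Set.ncard_pair hab] at h1
    omega
  · -- order 3
    refine hst (R ⊓ MulAction.stabilizer G b) ?_ (by simpa using hjc) ?_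
    · exact inf_le_inf_right _ hRa
    · intro g hg t ht
      refine ⟨hRn g hg.1 t ht.1, ?_⟩
      exact Subgroup.mul_mem _ (Subgroup.mul_mem _ hg.2 ht.2) (Subgroup.inv_mem _ hg.2)
  · -- order 9: `R` fixes `b`
    have hRb : R ≤ MulAction.stabilizer G b := by
      have : R ⊓ MulAction.stabilizer G b = R := by
        apply Subgroup.eq_of_le_of_card_ge inf_le_left
        rw [hjc, hR9]
        norm_num
      rw [← this]
      exact inf_le_right
    have hR1 : ∀ r ∈ R, r = 1 := by
      intro r hr
      apply hfaith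
      intro x
      by_cases hxa : x = a
      · rw [hxa]; exact hRfix_a r hr
      · obtain ⟨g, hga, hgb⟩ := htr x hxa
        have h1 : g⁻¹ * r * g⁻¹⁻¹ ∈ R :=
          hRn g⁻¹ (Subgroup.inv_mem _ (MulAction.mem_stabilizer_iff.mpr hga)) r hr
        have h2 : (g⁻¹ * r * g⁻¹⁻¹) • b = b := MulAction.mem_stabilizer_iff.mp (hRb h1)
        rw [← hgb]
        have h3 : r • g • b = g • (g⁻¹ * r * g⁻¹⁻¹) • b := by
          simp only [← mul_smul]
          congr 1
          group
        rw [h3, h2]
    have : Nat.card ↥R = 1 := by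
      rw [Subgroup.card_eq_one]
      exact (Subgroup.eq_bot_iff_forall R).mpr hR1
    omega

theorem o4320_normal9 [IsSimpleGroup G] (hG : Nat.card G = 4320)
    (M : Subgroup G) (hM : M.index = 10)
    (h2t : ∀ a b c d : G ⧸ M, a ≠ b → c ≠ d → ∃ g : G, g • a = c ∧ g • b = d)
    (h48 : ∀ a b : G ⧸ M, a ≠ b →
      Nat.card ↥(MulAction.stabilizer G a ⊓ MulAction.stabilizer G b) = 48)
    (hst : ∀ a b : G ⧸ M, a ≠ b → ∀ T : Subgroup G,
      T ≤ MulAction.stabilizer G a ⊓ MulAction.stabilizer G b → Nat.card ↥T = 3 →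
      (∀ g ∈ MulAction.stabilizer G a ⊓ MulAction.stabilizer G b, ∀ t ∈ T, g * t * g⁻¹ ∈ T) →
      False)
    (hpar : ∀ g : G, g * g = 1 → Nat.card (MulAction.fixedBy (G ⧸ M) g) ≠ 4)
    (R : Subgroup G) (hRM : R ≤ M) (hR9 : Nat.card ↥R = 9)
    (hRn : ∀ g ∈ M, ∀ r ∈ R, g * r * g⁻¹ ∈ R) : False := by
  have hMtop : M ≠ ⊤ := by
    rintro rfl
    rw [Subgroup.index_top] at hM
    omega
  have hinj := Helper9.OrdTools.toPermHom_injective M hMtop
  have hX : Nat.card (G ⧸ M) = 10 := by rw [← Subgroup.index_eq_card, hM]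
  have hfaith : ∀ g : G, (∀ x : G ⧸ M, g • x = x) → g = 1 := by
    intro g hg
    apply hinj
    ext x
    simp [hg x]
  have hstab : MulAction.stabilizer G ((1 : G) : G ⧸ M) = M := MulAction.stabilizer_quotient M
  have hnt : Nontrivial (G ⧸ M) := by
    rw [← Finite.one_lt_card_iff_nontrivial, hX]
    norm_num
  obtain ⟨b, hb⟩ := exists_ne ((1 : G) : G ⧸ M)
  refine o4320_normal9_core hX hfaith ((1 : G) : G ⧸ M) b hb.symm ?_ (h48 _ _ hb.symm)
    (hst _ _ hb.symm) hpar R (by rw [hstab]; exact hRM) hR9 (by rw [hstab]; exact hRn)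
  intro c hc
  exact h2t _ _ _ _ hb.symm (Ne.symm hc)

end Cfsg.Agent.Helper10
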