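import Mathlib
import Cfsg.Agent.Helper8.SylFix

set_option autoImplicit false
set_option linter.style.haveILetI false
set_option linter.unusedSectionVars false

/-!
# Groups of order 7920 with a normal subgroup have a connected prime graph: definitions (helper10)

Vocabulary and basic tools for S2490:

* `O7920.PJ G p r`: there is an element of order `p * r`;
* `O7920.PConn G`: the graph on `{2, 3, 5, 11}` with edges `PJ` is connected;
* `O7920.evenSub G`: the intersection of the kernels of all homomorphisms `G →* ℤˣ`;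
* Sylow `11`-facts for `|G| = 7920`, lifting element orders from quotients, and the sign of a
  permutation all of whose nontrivial cycles have length four.
-/

namespace Cfsg.Agent.Helper10.O7920

open Subgroup

/-- there is an element of order `p * r`. -/
def PJ (G : Type*) [Group G] (p r : ℕ) : Prop := ∃ g : G, orderOf g = p * r

/-- the graph on `{2, 3, 5, 11}` with edges `PJ` is connected: a set of vertices closed under
edges and containing a vertex contains all of them. -/
def PConn (G : Type*) [Group G] : Prop :=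
  ∀ S : ℕ → Prop,
    (∀ p r : ℕ, (p = 2 ∨ p = 3 ∨ p = 5 ∨ p = 11) → (r = 2 ∨ r = 3 ∨ r = 5 ∨ r = 11) →
      PJ G p r → S p → S r) →
    (S 2 ∨ S 3 ∨ S 5 ∨ S 11) → (S 2 ∧ S 3 ∧ S 5 ∧ S 11)

/-- the intersection of the kernels of all homomorphisms to `ℤˣ`. -/
def evenSub (G : Type*) [Group G] : Subgroup G := ⨅ φ : G →* ℤˣ, φ.ker

/-- the key lemma, as a statement. -/
def KeyStmt (G : Type*) [Group G] : Prop :=
  ∀ N : Subgroup G, N.Normal → ∀ p r : ℕ, (p = 2 ∨ p = 3 ∨ p = 5 ∨ p = 11) →
    (r = 2 ∨ r = 3 ∨ r = 5 ∨ r = 11) → p ∣ Nat.card N → ¬ r ∣ Nat.card N →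
    (r = 5 → p ≠ 11 ∧ (p = 2 → ¬ 16 ∣ Nat.card N)) → PJ G p r

/-- the action on the Sylow `11`-subgroups is faithful. -/
def Faithful11 (G : Type*) [Group G] : Prop :=
  ∀ g : G, (∀ Q : Sylow 11 G, g • Q = Q) → g = 1

/-- an even involution centralizing a Sylow `11`-subgroup `P` fixes no other one. -/
def C45aStmt (G : Type*) [Group G] : Prop :=
  ∀ w : G, orderOf w = 2 → w ∈ evenSub G → ∀ P : Sylow 11 G,
    w ∈ centralizer ((P : Subgroup G) : Set G) → ∀ Q : Sylow 11 G, w • Q = Q → Q = P

/-- an even involution normalizing a Sylow `11`-subgroup centralizes it. -/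
def C45bStmt (G : Type*) [Group G] : Prop :=
  ∀ w : G, orderOf w = 2 → w ∈ evenSub G → ∀ P : Sylow 11 G,
    w ∈ normalizer ((P : Subgroup G) : Set G) → w ∈ centralizer ((P : Subgroup G) : Set G)

/-- no even element of order four normalizes a Sylow `11`-subgroup. -/
def C45cStmt (G : Type*) [Group G] : Prop :=
  ∀ u : G, orderOf u = 4 → u ∈ evenSub G → ∀ P : Sylow 11 G,
    u ∉ normalizer ((P : Subgroup G) : Set G)

section basic

variable {G : Type*} [Group G]

theorem PJ.symm {p r : ℕ} (h : PJ G p r) : PJ G r p := by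
  obtain ⟨g, hg⟩ := h
  exact ⟨g, by rw [hg, mul_comm]⟩

/-- commuting elements of coprime orders `p`, `r` give an element of order `p * r`. -/
theorem pj_of_commute {p r : ℕ} (hpr : Nat.Coprime p r) {x y : G} (hx : orderOf x = p)
    (hy : orderOf y = r) (h : x * y = y * x) : PJ G p r := by
  refine ⟨x * y, ?_⟩
  have hc : Commute x y := h
  rw [hc.orderOf_mul_eq_mul_orderOf_of_coprime (by rw [hx, hy]; exact hpr), hx, hy]

/-- a spanning tree on `{2, 3, 5, 11} = {a, b, c, d}` gives connectedness. -/
theorem pconn_of_edges {a b c d : ℕ}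
    (hV : ∀ x : ℕ, (x = 2 ∨ x = 3 ∨ x = 5 ∨ x = 11) ↔ (x = a ∨ x = b ∨ x = c ∨ x = d))
    (h1 : PJ G a b) (h2 : PJ G a c ∨ PJ G b c) (h3 : PJ G a d ∨ PJ G b d ∨ PJ G c d) :
    PConn G := by
  intro S hcl h0
  have ha := (hV a).mpr (Or.inl rfl)
  have hb := (hV b).mpr (Or.inr (Or.inl rfl))
  have hc := (hV c).mpr (Or.inr (Or.inr (Or.inl rfl)))
  have hd := (hV d).mpr (Or.inr (Or.inr (Or.inr rfl)))
  have step : ∀ p r : ℕ, (p = 2 ∨ p = 3 ∨ p = 5 ∨ p = 11) → (r = 2 ∨ r = 3 ∨ r = 5 ∨ r = 11) →
      PJ G p r → (S p ↔ S r) := fun p r hp hr h => ⟨hcl p r hp hr h, hcl r p hr hp h.symm⟩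
  have hab : S a ↔ S b := step a b ha hb h1
  have hac : S a ↔ S c := by
    rcases h2 with h | h
    · exact step a c ha hc h
    · exact hab.trans (step b c hb hc h)
  have had : S a ↔ S d := by
    rcases h3 with h | h | h
    · exact step a d ha hd h
    · exact hab.trans (step b d hb hd h)
    · exact hac.trans (step c d hc hd h)
  have hall : ∀ x : ℕ, (x = 2 ∨ x = 3 ∨ x = 5 ∨ x = 11) → (S x ↔ S a) := by
    intro x hx
    rcases (hV x).mp hx with rfl | rfl | rfl | rfl
    · exact Iff.rfl
    · exact hab.symm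
    · exact hac.symm
    · exact had.symm
  have h2' := hall 2 (Or.inl rfl)
  have h3' := hall 3 (Or.inr (Or.inl rfl))
  have h5' := hall 5 (Or.inr (Or.inr (Or.inl rfl)))
  have h11' := hall 11 (Or.inr (Or.inr (Or.inr rfl)))
  have hSa : S a := by
    rcases h0 with h | h | h | h
    · exact h2'.mp h
    · exact h3'.mp h
    · exact h5'.mp h
    · exact h11'.mp h
  exact ⟨h2'.mpr hSa, h3'.mpr hSa, h5'.mpr hSa, h11'.mpr hSa⟩

theorem mem_evenSub {x : G} : x ∈ evenSub G ↔ ∀ φ : G →* ℤˣ, φ x = 1 := by
  simp [evenSub, Subgroup.mem_iInf, MonoidHom.mem_ker]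

instance evenSub_normal : (evenSub G).Normal :=
  Subgroup.normal_iInf_normal (fun φ => MonoidHom.normal_ker φ)

/-- elements of odd order are even. -/
theorem mem_evenSub_of_odd {x : G} (hx : Odd (orderOf x)) : x ∈ evenSub G := by
  rw [mem_evenSub]
  intro φ
  have h1 : (φ x) ^ orderOf x = 1 := by rw [← map_pow, pow_orderOf_eq_one, map_one]
  rcases Int.units_eq_one_or (φ x) with h | h
  · exact h
  · rw [h, hx.neg_one_pow] at h1
    exact absurd h1 (by decide)

/-- the sign of the permutation induced by an even element is `1`. -/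
theorem sign_eq_one_of_mem_evenSub {x : G} (hx : x ∈ evenSub G) {X : Type*} [MulAction G X]
    [Fintype X] [DecidableEq X] : Equiv.Perm.sign (MulAction.toPermHom G X x) = 1 :=
  mem_evenSub.mp hx (Equiv.Perm.sign.comp (MulAction.toPermHom G X))

/-- a nonidentity element of a group of order `r ^ b` has a power of order `r`. -/
theorem exists_pow_orderOf_eq_prime {r b : ℕ} [Fact r.Prime] (R : Subgroup G)
    (hR : Nat.card R = r ^ b) {x : G} (hx : x ∈ R) (hx1 : x ≠ 1) :
    ∃ k : ℕ, orderOf (x ^ k) = r := by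
  have hr : r.Prime := Fact.out
  have hfin : Finite R := Nat.finite_of_card_ne_zero (by rw [hR]; exact pow_ne_zero _ hr.ne_zero)
  have h1 : orderOf x ∣ r ^ b := by
    have := orderOf_dvd_natCard (⟨x, hx⟩ : R)
    rw [hR] at this
    rwa [← Subgroup.orderOf_mk x hx]
  have h2 : orderOf x ≠ 1 := fun h => hx1 (orderOf_eq_one_iff.mp h)
  have h0 : orderOf x ≠ 0 := fun h => by
    rw [h] at h1
    exact pow_ne_zero _ hr.ne_zero (Nat.eq_zero_of_zero_dvd h1)
  have h3 : r ∣ orderOf x := by
    obtain ⟨q, hq, hqx⟩ := Nat.exists_prime_and_dvd h2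
    have := (Nat.prime_dvd_prime_iff_eq hq hr).mp (hq.dvd_of_dvd_pow (hqx.trans h1))
    rwa [this] at hqx
  exact ⟨orderOf x / r, orderOf_pow_orderOf_div h0 h3⟩

end basic

section finite

variable {G : Type*} [Group G] [Finite G]

/-- an element of order `n` of a quotient lifts to an element of order `n`. -/
theorem exists_orderOf_of_quotient (N : Subgroup G) [N.Normal] {n : ℕ} (x : G ⧸ N)
    (hx : orderOf x = n) : ∃ g : G, orderOf g = n := by
  obtain ⟨g, rfl⟩ := QuotientGroup.mk_surjective x
  have h1 : n ∣ orderOf g := by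
    rw [← hx]
    exact orderOf_map_dvd (QuotientGroup.mk' N) g
  exact ⟨g ^ (orderOf g / n), orderOf_pow_orderOf_div (orderOf_pos g).ne' h1⟩

/-- for a Sylow subgroup `P` of prime order `p`: `|N(P)| = e |C(P)|` with `e ∣ p - 1`. -/
theorem card_normalizer_eq_mul {p : ℕ} [Fact p.Prime] (P : Sylow p G)
    (hP : Nat.card (P : Subgroup G) = p) :
    ∃ e, e ∣ p - 1 ∧ Nat.card (normalizer ((P : Subgroup G) : Set G)) =
        e * Nat.card (centralizer ((P : Subgroup G) : Set G)) := by
  have hp : p.Prime := Fact.out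
  haveI : Fact (Nat.card (P : Subgroup G)).Prime := ⟨hP.symm ▸ hp⟩
  haveI hcyc : IsCyclic (P : Subgroup G) := isCyclic_of_prime_card rfl
  have key := Subgroup.card_dvd_of_injective _
    (QuotientGroup.kerLift_injective (P : Subgroup G).normalizerMonoidHom)
  rw [Subgroup.normalizerMonoidHom_ker, ← Subgroup.index, ← Subgroup.relIndex,
    hcyc.card_mulAut, hP, Nat.totient_prime hp] at key
  have hCN : centralizer ((P : Subgroup G) : Set G) ≤ normalizer ((P : Subgroup G) : Set G) :=
    Subgroup.centralizer_le_normalizer _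
  have hmul : (centralizer ((P : Subgroup G) : Set G)).relIndex
      (normalizer ((P : Subgroup G) : Set G)) *
      Nat.card (centralizer ((P : Subgroup G) : Set G)) =
      Nat.card (normalizer ((P : Subgroup G) : Set G)) := by
    have h1 := ((centralizer ((P : Subgroup G) : Set G)).subgroupOf
      (normalizer ((P : Subgroup G) : Set G))).card_mul_index
    rw [Nat.card_congr (Subgroup.subgroupOfEquivOfLe hCN).toEquiv] at h1
    rw [Subgroup.relIndex, mul_comm]
    exact h1
  exact ⟨_, key, hmul.symm⟩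

/-- if `r` divides the order of the centralizer of a Sylow subgroup of prime order `p ≠ r`,
there is an element of order `p * r`. -/
theorem pj_of_dvd_centralizer {p r : ℕ} [Fact p.Prime] [Fact r.Prime] (hpr : p ≠ r)
    (P : Sylow p G) (hP : Nat.card (P : Subgroup G) = p)
    (h : r ∣ Nat.card (centralizer ((P : Subgroup G) : Set G))) : PJ G p r := by
  have hp : p.Prime := Fact.out
  have hr : r.Prime := Fact.out
  obtain ⟨y0, hy0⟩ := exists_prime_orderOf_dvd_card'
    (G := centralizer ((P : Subgroup G) : Set G)) r h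
  have hyo : orderOf (y0 : G) = r := by rw [Subgroup.orderOf_coe]; exact hy0
  obtain ⟨x0, hx0⟩ := exists_prime_orderOf_dvd_card' (G := (P : Subgroup G)) p (by rw [hP])
  have hxo : orderOf (x0 : G) = p := by rw [Subgroup.orderOf_coe]; exact hx0
  refine pj_of_commute ((Nat.coprime_primes hp hr).mpr hpr) hxo hyo ?_
  exact Subgroup.mem_centralizer_iff.mp y0.2 (x0 : G) x0.2

/-- the Sylow `11`-subgroups of a group of order `7920` have order `11`. -/
theorem sylow11_card (hG : Nat.card G = 7920) (P : Sylow 11 G) :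
    Nat.card (P : Subgroup G) = 11 := by
  haveI : Fact (Nat.Prime 11) := ⟨by norm_num⟩
  have := Cfsg.Agent.Helper9.OrdTools.sylow_card (p := 11) 1 720 (by rw [hG]; norm_num) (by norm_num) P
  simpa using this

/-- `|N(P)| * n_11 = 7920`. -/
theorem card_normalizer_mul_n11 (hG : Nat.card G = 7920) (P : Sylow 11 G) :
    Nat.card (normalizer ((P : Subgroup G) : Set G)) * Nat.card (Sylow 11 G) = 7920 := by
  haveI : Fact (Nat.Prime 11) := ⟨by norm_num⟩
  have h := Sylow.card_eq_index_normalizer P
  rw [h]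
  exact (Subgroup.card_mul_index _).trans hG

/-- the number of Sylow `11`-subgroups of a group of order `7920`. -/
theorem n11_cases (hG : Nat.card G = 7920) :
    Nat.card (Sylow 11 G) = 1 ∨ Nat.card (Sylow 11 G) = 12 ∨ Nat.card (Sylow 11 G) = 45 ∨
      Nat.card (Sylow 11 G) = 144 := by
  haveI : Fact (Nat.Prime 11) := ⟨by norm_num⟩
  obtain ⟨P⟩ : Nonempty (Sylow 11 G) := inferInstance
  have h1 : Nat.card (Sylow 11 G) ∣ 720 := by
    have h := Sylow.card_dvd_index P
    have h2 := (P : Subgroup G).card_mul_index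
    rw [sylow11_card hG P, hG] at h2
    have : (P : Subgroup G).index = 720 := by omega
    rwa [this] at h
  have h2 : Nat.card (Sylow 11 G) % 11 = 1 := by
    have := card_sylow_modEq_one 11 G
    exact this
  have key : ∀ d ∈ Nat.divisors 720, d % 11 = 1 → d = 1 ∨ d = 12 ∨ d = 45 ∨ d = 144 := by
    decide +kernel
  exact key _ (Nat.mem_divisors.mpr ⟨h1, by norm_num⟩) h2

/-- the sign of a permutation with `σ ^ 4 = 1` all of whose nontrivial cycles have length `4`. -/
theorem sign_of_order_four {α : Type*} [Fintype α] [DecidableEq α] (σ : Equiv.Perm α)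
    (h4 : σ ^ 4 = 1) (hfix : ∀ x, (σ ^ 2) x = x → σ x = x) (c : ℕ)
    (hc : Fintype.card (Function.fixedPoints σ) + 4 * c = Fintype.card α) (hodd : Odd c) :
    Equiv.Perm.sign σ = -1 := by
  have h2 : ∀ n ∈ σ.cycleType, n = 4 := by
    intro n hn
    have hdvd : n ∣ 4 := (Equiv.Perm.dvd_of_mem_cycleType hn).trans (orderOf_dvd_of_pow_eq_one h4)
    have hle := Equiv.Perm.two_le_of_mem_cycleType hn
    have hle4 := Nat.le_of_dvd (by norm_num) hdvd
    by_contra hne
    have hn2 : n = 2 := by
      interval_cases n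
      · rfl
      · norm_num at hdvd
      · exact absurd rfl hne
    subst hn2
    obtain ⟨τ, ρ, hρ, hdisj, hcyc, hτ⟩ := Equiv.Perm.mem_cycleType_iff.mp hn
    obtain ⟨x, hx⟩ : ∃ x, τ x ≠ x := by
      by_contra hcon
      push Not at hcon
      have : τ = 1 := Equiv.ext hcon
      rw [this] at hcyc
      exact hcyc.ne_one rfl
    have hτ2 : τ ^ 2 = 1 := by
      rw [← hτ, ← hcyc.orderOf]
      exact pow_orderOf_eq_one τ
    have hρx : ρ x = x := by
      rcases hdisj x with h | h
      · exact absurd h hx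
      · exact h
    have hρτx : ρ (τ x) = τ x := by
      rcases hdisj (τ x) with h | h
      · exact absurd (τ.injective h) hx
      · exact h
    have hσx : σ x = τ x := by
      rw [hρ, Equiv.Perm.mul_apply, hρx]
    have hσ2x : (σ ^ 2) x = x := by
      rw [sq, Equiv.Perm.mul_apply, hσx, hρ, Equiv.Perm.mul_apply, hρτx]
      have := congrArg (fun f : Equiv.Perm α => f x) hτ2
      simpa [sq] using this
    exact hx (hσx ▸ hfix x hσ2x)
  have hrep := Multiset.eq_replicate_card.mpr h2
  have hsum : σ.cycleType.sum = 4 * Multiset.card σ.cycleType := by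
    conv_lhs => rw [hrep]
    rw [Multiset.sum_replicate, smul_eq_mul, mul_comm]
  have hfp := Equiv.Perm.card_fixedPoints σ
  have hle := Equiv.Perm.sum_cycleType_le σ
  have hcard : Multiset.card σ.cycleType = c := by omega
  rw [Equiv.Perm.sign_of_cycleType, hsum, hcard]
  have e : 4 * c + c = c * 5 := by ring
  rw [e, pow_mul, hodd.neg_one_pow]
  norm_num

end finite

end Cfsg.Agent.Helper10.O7920
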