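import Mathlib
import Cfsg.Agent.Helper10.O7920Defs

set_option autoImplicit false
set_option linter.style.haveILetI false

/-!
# S2490, piece C45A (helper10)

In a group of order `7920` acting faithfully on its `45` Sylow `11`-subgroups: an even
involution centralizing a Sylow `11`-subgroup `P` fixes no other Sylow `11`-subgroup.
-/

namespace Cfsg.Agent.Helper10.O7920C45A

open Subgroup Cfsg.Agent.Helper10.O7920

theorem c45a {G : Type*} [Group G] [Finite G] (hG : Nat.card G = 7920)
    (h45 : Nat.card (Sylow 11 G) = 45) (hfaith : Faithful11 G) : C45aStmt G := by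
  classical
  intro w hw hwe P hwC Q hQ
  haveI : Fact (Nat.Prime 11) := ⟨by norm_num⟩
  haveI : Fact (Nat.Prime 2) := ⟨by norm_num⟩
  have h1 : Nat.card (MulAction.fixedBy (Sylow 11 G) w) ≡ 1 [MOD 11] :=
    Cfsg.Agent.Helper8.SylFix.card_fixedBy_modEq_one P w
      (fun x hx => Subgroup.mem_centralizer_iff.mp hwC x hx)
  have h2 : Nat.card (Sylow 11 G) ≡ Nat.card (MulAction.fixedBy (Sylow 11 G) w) [MOD 2] :=
    Cfsg.Agent.Helper8.SylFix.card_fixedBy_modEq (p := 11) (q := 2) (k := 1) w
      (by rw [hw, pow_one])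
  rw [h45] at h2
  have hle : Nat.card (MulAction.fixedBy (Sylow 11 G) w) ≤ Nat.card (Sylow 11 G) :=
    Nat.card_le_card_of_injective (fun x : MulAction.fixedBy (Sylow 11 G) w => (x : Sylow 11 G))
      Subtype.coe_injective
  rw [h45] at hle
  have hcases : Nat.card (MulAction.fixedBy (Sylow 11 G) w) = 1 ∨
      Nat.card (MulAction.fixedBy (Sylow 11 G) w) = 23 ∨
      Nat.card (MulAction.fixedBy (Sylow 11 G) w) = 45 := by
    unfold Nat.ModEq at h1 h2
    omega
  have hwP : w • P = P :=
    Sylow.smul_eq_iff_mem_normalizer.mpr (Subgroup.centralizer_le_normalizer _ hwC)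
  have hw2 : w ^ 2 = 1 := by rw [← hw]; exact pow_orderOf_eq_one w
  rcases hcases with h | h | h
  · have huniq := (Nat.card_eq_one_iff_unique.mp h).1
    have := huniq.elim (⟨Q, hQ⟩ : MulAction.fixedBy (Sylow 11 G) w) ⟨P, hwP⟩
    exact congrArg Subtype.val this
  · exfalso
    haveI : Fintype (Sylow 11 G) := Fintype.ofFinite _
    have hσ2 : (MulAction.toPermHom G (Sylow 11 G) w) ^ 2 = 1 := by
      rw [← map_pow, hw2, map_one]
    have hsign : Equiv.Perm.sign (MulAction.toPermHom G (Sylow 11 G) w) = 1 :=
      sign_eq_one_of_mem_evenSub hwe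
    have e : Fintype.card (Function.fixedPoints (MulAction.toPermHom G (Sylow 11 G) w)) = 23 := by
      rw [← h, ← Nat.card_eq_fintype_card]
      rfl
    have := Cfsg.Agent.Helper8.SylFix.sign_of_involution
      (MulAction.toPermHom G (Sylow 11 G) w) hσ2 11
      (by rw [e, ← Nat.card_eq_fintype_card, h45]) (by decide)
    rw [hsign] at this
    exact absurd this (by decide)
  · exfalso
    have hbij := Function.Injective.bijective_of_nat_card_le
      (f := fun x : MulAction.fixedBy (Sylow 11 G) w => (x : Sylow 11 G)) Subtype.coe_injective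
      (by rw [h, h45])
    have hw1 : w = 1 := by
      apply hfaith
      intro Q'
      obtain ⟨x, hx⟩ := hbij.2 Q'
      have := x.2
      rw [MulAction.mem_fixedBy] at this
      rw [← hx]
      exact this
    rw [hw1, orderOf_one] at hw
    exact absurd hw (by decide)

end Cfsg.Agent.Helper10.O7920C45A
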