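import Mathlib
import Cfsg.Agent.Helper10.O7920Defs

set_option autoImplicit false
set_option linter.style.haveILetI false

/-!
# S2490, piece C45B (helper10)

In a group of order `7920` with `45` Sylow `11`-subgroups: an even involution normalizing a
Sylow `11`-subgroup centralizes it (given that an even involution centralizing a Sylow
`11`-subgroup fixes no other one).
-/

namespace Cfsg.Agent.Helper10.O7920C45B

open Subgroup Cfsg.Agent.Helper10.O7920

theorem c45b {G : Type*} [Group G] [Finite G] (hG : Nat.card G = 7920)
    (h45 : Nat.card (Sylow 11 G) = 45) (ha : C45aStmt G) : C45bStmt G := by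
  classical
  intro w hw hwe P hwN
  haveI : Fact (Nat.Prime 11) := ⟨by norm_num⟩
  haveI : Fact (Nat.Prime 2) := ⟨by norm_num⟩
  have hP := sylow11_card hG P
  have hNc : Nat.card (normalizer ((P : Subgroup G) : Set G)) = 176 := by
    have := card_normalizer_mul_n11 hG P
    rw [h45] at this
    omega
  obtain ⟨e, he, hNe⟩ := card_normalizer_eq_mul P hP
  rw [hNc] at hNe
  have hidx : (centralizer ((P : Subgroup G) : Set G)).index = 45 ∨
      (centralizer ((P : Subgroup G) : Set G)).index = 90 := by
    have h1 := (centralizer ((P : Subgroup G) : Set G)).card_mul_index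
    rw [hG] at h1
    have he2 : e ∣ 2 := by
      have h176 : e ∣ 176 := ⟨_, hNe⟩
      have h10 : e ∣ 10 := he
      have := Nat.dvd_gcd h176 h10
      norm_num at this
      exact this
    have he' : e = 1 ∨ e = 2 := by
      have := Nat.le_of_dvd (by norm_num) he2
      interval_cases e
      · simp at he2
      · exact Or.inl rfl
      · exact Or.inr rfl
    rcases he' with rfl | rfl
    · left
      have : Nat.card (centralizer ((P : Subgroup G) : Set G)) = 176 := by omega
      rw [this] at h1
      omega
    · right
      have : Nat.card (centralizer ((P : Subgroup G) : Set G)) = 88 := by omega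
      rw [this] at h1
      omega
  haveI : Fintype (G ⧸ centralizer ((P : Subgroup G) : Set G)) := Fintype.ofFinite _
  have hcardX : Fintype.card (G ⧸ centralizer ((P : Subgroup G) : Set G)) =
      (centralizer ((P : Subgroup G) : Set G)).index := by
    rw [Subgroup.index_eq_card, Nat.card_eq_fintype_card]
  have hw2 : w ^ 2 = 1 := by rw [← hw]; exact pow_orderOf_eq_one w
  have hσ2 : (MulAction.toPermHom G (G ⧸ centralizer ((P : Subgroup G) : Set G)) w) ^ 2 = 1 := by
    rw [← map_pow, hw2, map_one]
  have hsign : Equiv.Perm.sign
      (MulAction.toPermHom G (G ⧸ centralizer ((P : Subgroup G) : Set G)) w) = 1 :=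
    sign_eq_one_of_mem_evenSub hwe
  -- `w` fixes a coset
  have hfixex : ∃ x : G ⧸ centralizer ((P : Subgroup G) : Set G), w • x = x := by
    by_contra hcon
    push Not at hcon
    have hempty : Fintype.card (Function.fixedPoints
        (MulAction.toPermHom G (G ⧸ centralizer ((P : Subgroup G) : Set G)) w)) = 0 := by
      rw [Fintype.card_eq_zero_iff]
      exact ⟨fun x => hcon x.1 x.2⟩
    rcases hidx with h | h
    · have hmod := Equiv.Perm.card_fixedPoints_modEq (p := 2) (n := 1)
        (f := (show Function.End (G ⧸ centralizer ((P : Subgroup G) : Set G)) from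
          fun x => w • x)) (by
          rw [pow_one, sq]
          funext x
          show w • w • x = x
          rw [← mul_smul, ← sq, hw2, one_smul])
      have hz : Fintype.card (Function.fixedPoints
          (show Function.End (G ⧸ centralizer ((P : Subgroup G) : Set G)) from
            fun x => w • x)) = 0 := by
        rw [Fintype.card_eq_zero_iff]
        exact ⟨fun x => hcon x.1 x.2⟩
      rw [hz, hcardX, h] at hmod
      exact absurd hmod (by decide)
    · have := Cfsg.Agent.Helper8.SylFix.sign_of_involution
        (MulAction.toPermHom G (G ⧸ centralizer ((P : Subgroup G) : Set G)) w) hσ2 45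
        (by rw [hempty, hcardX, h]) (by decide)
      rw [hsign] at this
      exact absurd this (by decide)
  obtain ⟨x, hx⟩ := hfixex
  obtain ⟨g, rfl⟩ := QuotientGroup.mk_surjective x
  have hgw : g⁻¹ * w * g ∈ centralizer ((P : Subgroup G) : Set G) := by
    have h1 : ((w * g : G) : G ⧸ centralizer ((P : Subgroup G) : Set G)) = (g : G) := hx
    have h2 := QuotientGroup.eq.mp h1
    have h3 := inv_mem h2
    have e : ((w * g)⁻¹ * g)⁻¹ = g⁻¹ * w * g := by group
    rwa [e] at h3
  have hmem : ∀ q : G, q ∈ ((g • P : Sylow 11 G) : Subgroup G) ↔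
      g⁻¹ * q * g ∈ (P : Subgroup G) := by
    intro q
    rw [Sylow.coe_subgroup_smul, Subgroup.mem_pointwise_smul_iff_inv_smul_mem]
    simp [MulAut.smul_def]
  have hwC : w ∈ centralizer (((g • P : Sylow 11 G) : Subgroup G) : Set G) := by
    rw [Subgroup.mem_centralizer_iff]
    intro q hq
    have hq' := (hmem q).mp hq
    have h1 := Subgroup.mem_centralizer_iff.mp hgw _ hq'
    have e1 : q * w = g * ((g⁻¹ * q * g) * (g⁻¹ * w * g)) * g⁻¹ := by group
    have e2 : w * q = g * ((g⁻¹ * w * g) * (g⁻¹ * q * g)) * g⁻¹ := by group
    rw [e1, e2, h1]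
  have hwP : w • P = P := Sylow.smul_eq_iff_mem_normalizer.mpr hwN
  have hPg : P = g • P := ha w hw hwe (g • P) hwC P hwP
  rw [← hPg] at hwC
  exact hwC

end Cfsg.Agent.Helper10.O7920C45B
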