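import Mathlib
import Cfsg.Agent.Helper10.O7920Defs

set_option autoImplicit false
set_option linter.style.haveILetI false

/-!
# S2490, piece CASE1 (helper10)

A group of order `7920` with a normal Sylow `11`-subgroup has a connected prime graph (given the
key lemma).
-/

namespace Cfsg.Agent.Helper10.O7920CASE1

open Subgroup Cfsg.Agent.Helper10.O7920

theorem case1 {G : Type*} [Group G] [Finite G] (hG : Nat.card G = 7920) (hkey : KeyStmt G)
    (h1 : Nat.card (Sylow 11 G) = 1) : PConn G := by
  haveI : Fact (Nat.Prime 11) := ⟨by norm_num⟩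
  haveI : Fact (Nat.Prime 2) := ⟨by norm_num⟩
  haveI : Fact (Nat.Prime 3) := ⟨by norm_num⟩
  haveI : Fact (Nat.Prime 5) := ⟨by norm_num⟩
  obtain ⟨P⟩ : Nonempty (Sylow 11 G) := inferInstance
  have hP := sylow11_card hG P
  haveI : Subsingleton (Sylow 11 G) := (Nat.card_eq_one_iff_unique.mp h1).1
  haveI hPn : (P : Subgroup G).Normal := Sylow.normal_of_subsingleton P
  have hCn : (centralizer ((P : Subgroup G) : Set G)).Normal := Subgroup.normal_centralizer
  have hN := card_normalizer_mul_n11 hG P
  rw [h1, mul_one] at hN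
  obtain ⟨e, he, hNe⟩ := card_normalizer_eq_mul P hP
  rw [hN] at hNe
  have he' : e = 1 ∨ e = 2 ∨ e = 5 ∨ e = 10 := by
    have h10 : e ∣ 10 := he
    have hle := Nat.le_of_dvd (by norm_num) h10
    have hpos : 0 < e := Nat.pos_of_dvd_of_pos h10 (by norm_num)
    interval_cases e <;> omega
  have h2 : 2 ∣ Nat.card (centralizer ((P : Subgroup G) : Set G)) := by
    rcases he' with rfl | rfl | rfl | rfl <;> omega
  have h3 : 3 ∣ Nat.card (centralizer ((P : Subgroup G) : Set G)) := by
    rcases he' with rfl | rfl | rfl | rfl <;> omega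
  have e1 : PJ G 11 2 := pj_of_dvd_centralizer (by norm_num) P hP h2
  have e2 : PJ G 11 3 := pj_of_dvd_centralizer (by norm_num) P hP h3
  by_cases h5 : 5 ∣ Nat.card (centralizer ((P : Subgroup G) : Set G))
  · exact pconn_of_edges (a := 11) (b := 2) (c := 3) (d := 5) (by intro x; omega) e1 (Or.inl e2)
      (Or.inl (pj_of_dvd_centralizer (by norm_num) P hP h5))
  · have e3 : PJ G 3 5 := hkey _ hCn 3 5 (by norm_num) (by norm_num) h3 h5
      (fun _ => ⟨by norm_num, fun h => absurd h (by norm_num)⟩)
    exact pconn_of_edges (a := 11) (b := 2) (c := 3) (d := 5) (by intro x; omega) e1 (Or.inl e2)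
      (Or.inr (Or.inr e3))

end Cfsg.Agent.Helper10.O7920CASE1
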