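import Mathlib
import Cfsg.Agent.Helper10.O7920Defs
import Cfsg.Agent.Helper28.O7920K1A
import Cfsg.Agent.Helper37.O7920K1B
import Cfsg.Agent.Helper58.O7920KARITH
import Cfsg.Agent.Helper55.O7920O495
import Cfsg.Agent.Helper28.O7920KER
import Cfsg.Agent.Helper58.O7920CASEA
import Cfsg.Agent.Helper10.O7920CASE1
import Cfsg.Agent.Helper55.O7920CASE12
import Cfsg.Agent.Helper37.O7920CASE144
import Cfsg.Agent.Helper78.O7920BT
import Cfsg.Agent.Helper10.O7920C45A
import Cfsg.Agent.Helper10.O7920C45B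
import Cfsg.Agent.Helper78.O7920C45C
import Cfsg.Agent.Helper80.O7920C45D

set_option autoImplicit false
set_option linter.style.haveILetI false
set_option linter.unusedSectionVars false

/-!
# A group of order 7920 with a proper nontrivial normal subgroup has a connected prime graph

Assembly for S2490 (helper10).  The pieces were proved by helper28 (K1A, KER), helper37 (K1B,
CASE144), helper58 (KARITH, CASEA), helper55 (O495, CASE12), helper78 (BT, C45C), helper80 (C45D) and
helper10 (C45A, C45B, CASE1).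
-/

namespace Cfsg.Agent.Helper10.O7920

open Subgroup
open Cfsg.Agent.Helper28.O7920K1A Cfsg.Agent.Helper37.O7920K1B Cfsg.Agent.Helper58.O7920KARITH
  Cfsg.Agent.Helper55.O7920O495 Cfsg.Agent.Helper28.O7920KER Cfsg.Agent.Helper58.O7920CASEA
  Cfsg.Agent.Helper10.O7920CASE1 Cfsg.Agent.Helper55.O7920CASE12 Cfsg.Agent.Helper37.O7920CASE144
  Cfsg.Agent.Helper78.O7920BT Cfsg.Agent.Helper10.O7920C45A Cfsg.Agent.Helper10.O7920C45B
  Cfsg.Agent.Helper78.O7920C45C Cfsg.Agent.Helper80.O7920C45D

variable {G : Type*} [Group G] [Finite G]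

/-- the key lemma: a normal subgroup `N` with `p ^ a ∥ |N|`, `r ∤ |N|`, `r ^ b ∣ |G|` and
`r ^ b ∤ p ^ a - 1` forces an element of order `p * r`. -/
theorem k1 (N : Subgroup G) [N.Normal] {p r a b m : ℕ} [Fact p.Prime] [Fact r.Prime]
    (hpr : p ≠ r) (hN : Nat.card N = p ^ a * m) (hm : ¬ p ∣ m) (hr : ¬ r ∣ Nat.card N)
    (hrb : r ^ b ∣ Nat.card G) (hnd : ¬ r ^ b ∣ p ^ a - 1) : PJ G p r := by
  have hp : p.Prime := Fact.out
  have hrp : r.Prime := Fact.out
  obtain ⟨S, R, hS, hR, hRS⟩ := frattini_pair N hN hm hr hrb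
  by_contra hcon
  apply hnd
  rw [← hR, ← hS]
  apply free_conj_dvd S R hRS
  intro x hx s hs hc
  by_contra h
  push Not at h
  obtain ⟨hx1, hs1⟩ := h
  obtain ⟨k, hk⟩ := exists_pow_orderOf_eq_prime R hR hx hx1
  obtain ⟨l, hl⟩ := exists_pow_orderOf_eq_prime S hS hs hs1
  refine hcon (pj_of_commute ((Nat.coprime_primes hp hrp).mpr hpr) hl hk ?_)
  have hc' : Commute x s := hc
  exact ((hc'.pow_pow k l).eq).symm

/-- the key lemma for order `7920`. -/
theorem key7920 (hG : Nat.card G = 7920) : KeyStmt G := by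
  intro N hN p r hp hr hpN hrN h5
  haveI := hN
  have hn : Nat.card N ∣ 7920 := hG ▸ Subgroup.card_subgroup_dvd_card N
  obtain ⟨a, b, m, -, hNam, hm, hrb, hnd, hpr⟩ :=
    key_arith (Nat.card N) p r hn hp hr hpN hrN h5
  have hpp : p.Prime := by rcases hp with rfl | rfl | rfl | rfl <;> norm_num
  have hrp : r.Prime := by rcases hr with rfl | rfl | rfl | rfl <;> norm_num
  haveI : Fact p.Prime := ⟨hpp⟩
  haveI : Fact r.Prime := ⟨hrp⟩
  exact k1 N hpr hNam hm hrN (hG ▸ hrb) hnd

/-- a group of order `7920` with a proper nontrivial normal subgroup has a connected prime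
graph. -/
theorem pconn_of_normal (hG : Nat.card G = 7920) (N : Subgroup G) [N.Normal] (hN1 : N ≠ ⊥)
    (hN2 : N ≠ ⊤) : PConn G := by
  haveI : Fact (Nat.Prime 11) := ⟨by norm_num⟩
  have hkey := key7920 hG
  have hA : ∀ (K : Subgroup G) [K.Normal], K ≠ ⊥ → ¬ 11 ∣ Nat.card K → PConn G :=
    fun K _ hK h11 => caseA hG hkey K hK h11 (fun h => o495 h)
  obtain ⟨P⟩ : Nonempty (Sylow 11 G) := inferInstance
  have hP := sylow11_card hG P
  have hmemker : ∀ y : G, (∀ Q : Sylow 11 G, y • Q = Q) →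
      y ∈ (MulAction.toPermHom G (Sylow 11 G)).ker := by
    intro y hy
    rw [MonoidHom.mem_ker]
    exact Equiv.ext hy
  rcases n11_cases hG with h | h | h | h
  · exact case1 hG hkey h
  · obtain ⟨y, hy1, hy⟩ := case12 hG h
    refine hA (MulAction.toPermHom G (Sylow 11 G)).ker ?_
      (sylow_ker_not_dvd (sylow11_card hG) (by rw [h]; norm_num))
    intro hbot
    apply hy1
    have := hmemker y hy
    rw [hbot] at this
    exact Subgroup.mem_bot.mp this
  · by_cases hker : (MulAction.toPermHom G (Sylow 11 G)).ker = ⊥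
    · have hfaith : Faithful11 G := by
        intro g hg
        have := hmemker g hg
        rw [hker] at this
        exact Subgroup.mem_bot.mp this
      have ha := c45a hG h hfaith
      have hb := c45b hG h ha
      have hc := c45c hG h ha hb
      have hd := c45d hG h hb hc P
      have hPe : (P : Subgroup G) ≤ evenSub G := by
        intro x hx
        apply mem_evenSub_of_odd
        have h1 : orderOf x ∣ 11 := by
          have := orderOf_dvd_natCard (⟨x, hx⟩ : (P : Subgroup G))
          rw [hP] at this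
          rwa [← Subgroup.orderOf_mk x hx]
        rcases (Nat.dvd_prime (by norm_num)).mp h1 with h2 | h2 <;> rw [h2] <;> decide
      obtain ⟨L, hLn, -, hLc, hL11⟩ := burnside_normal (evenSub G) P hPe hd
      haveI := hLn
      refine hA L ?_ hL11
      rintro rfl
      rw [Subgroup.card_bot, one_mul, hP] at hLc
      haveI : Fact (Nat.Prime 3) := ⟨by norm_num⟩
      obtain ⟨z, hz⟩ := exists_prime_orderOf_dvd_card' (G := G) 3 (by rw [hG]; norm_num)
      have hze : z ∈ evenSub G := mem_evenSub_of_odd (by rw [hz]; decide)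
      have h3 := orderOf_dvd_natCard (⟨z, hze⟩ : evenSub G)
      rw [Subgroup.orderOf_mk, hz, ← hLc] at h3
      norm_num at h3
    · exact hA _ hker (sylow_ker_not_dvd (sylow11_card hG) (by rw [h]; norm_num))
  · by_cases h11 : 11 ∣ Nat.card N
    · obtain ⟨hPN, hNC, hlt⟩ := case144 hG h N hN2 h11 P
      obtain ⟨L, hLn, -, hLc, hL11⟩ := burnside_normal N P hPN hNC
      haveI := hLn
      refine hA L ?_ hL11
      rintro rfl
      rw [Subgroup.card_bot, one_mul, hP] at hLc
      omega
    · exact hA N hN1 h11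

/-- a group of order `7920` with a disconnected prime graph is simple. -/
theorem simple_of_disconnected (hord : Nat.card G = 7920)
    (hdisc : (∃ A : Set ℕ, (∃ a ∈ A, a.Prime ∧ a ∣ Nat.card G) ∧
      (∃ b ∉ A, b.Prime ∧ b ∣ Nat.card G) ∧
      ∀ a ∈ A, ∀ b ∉ A, a.Prime → b.Prime → a ∣ Nat.card G → b ∣ Nat.card G →
        ¬ ∃ g : G, orderOf g = a * b)) :
    IsSimpleGroup G := by
  by_contra hns
  haveI : Nontrivial G := by
    apply (Finite.one_lt_card_iff_nontrivial).mp
    rw [hord]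
    norm_num
  have hex : ∃ N : Subgroup G, N.Normal ∧ N ≠ ⊥ ∧ N ≠ ⊤ := by
    by_contra hcon
    push Not at hcon
    refine hns { exists_pair_ne := exists_pair_ne G, eq_bot_or_eq_top_of_normal := ?_ }
    intro N hN
    by_cases h : N = ⊥
    · exact Or.inl h
    · exact Or.inr (hcon N hN h)
  obtain ⟨N, hNn, hN1, hN2⟩ := hex
  haveI := hNn
  have hconn := pconn_of_normal hord N hN1 hN2
  obtain ⟨A, ⟨a, haA, hap, had⟩, ⟨b, hbA, hbp, hbd⟩, hno⟩ := hdisc
  have hprimes : ∀ q : ℕ, q.Prime → q ∣ Nat.card G → (q = 2 ∨ q = 3 ∨ q = 5 ∨ q = 11) := by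
    intro q hq hqd
    rw [hord] at hqd
    have e : (7920 : ℕ) = 2 ^ 4 * 3 ^ 2 * 5 * 11 := by norm_num
    rw [e] at hqd
    rcases (Nat.Prime.dvd_mul hq).mp hqd with h | h
    · rcases (Nat.Prime.dvd_mul hq).mp h with h | h
      · rcases (Nat.Prime.dvd_mul hq).mp h with h | h
        · exact Or.inl ((Nat.prime_dvd_prime_iff_eq hq (by norm_num)).mp (hq.dvd_of_dvd_pow h))
        · exact Or.inr (Or.inl
            ((Nat.prime_dvd_prime_iff_eq hq (by norm_num)).mp (hq.dvd_of_dvd_pow h)))
      · exact Or.inr (Or.inr (Or.inl ((Nat.prime_dvd_prime_iff_eq hq (by norm_num)).mp h)))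
    · exact Or.inr (Or.inr (Or.inr ((Nat.prime_dvd_prime_iff_eq hq (by norm_num)).mp h)))
  have hV : ∀ q : ℕ, (q = 2 ∨ q = 3 ∨ q = 5 ∨ q = 11) → q.Prime ∧ q ∣ Nat.card G := by
    intro q hq
    rw [hord]
    rcases hq with rfl | rfl | rfl | rfl <;> norm_num
  have hall := hconn (fun q => q ∈ A) (by
      intro p r hp hr hpj hpA
      by_contra hrA
      exact hno p hpA r hrA (hV p hp).1 (hV r hr).1 (hV p hp).2 (hV r hr).2 hpj) (by
      rcases hprimes a hap had with rfl | rfl | rfl | rfl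
      · exact Or.inl haA
      · exact Or.inr (Or.inl haA)
      · exact Or.inr (Or.inr (Or.inl haA))
      · exact Or.inr (Or.inr (Or.inr haA)))
  rcases hprimes b hbp hbd with rfl | rfl | rfl | rfl
  · exact hbA hall.1
  · exact hbA hall.2.1
  · exact hbA hall.2.2.1
  · exact hbA hall.2.2.2

end Cfsg.Agent.Helper10.O7920
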