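import Mathlib
import Cfsg.Agent.Helper9.OrdTools
import Cfsg.Agent.Helper8.SylSub
import Cfsg.Agent.Helper71.SylFifteenC
import Cfsg.Agent.S0985

set_option autoImplicit false
set_option linter.style.haveILetI false

/-!
# CALL S0983, piece A4200 (helper10)

A simple group of order `4200` has a subgroup of order `300` (the centraliser of the intersection
of two Sylow `5`-subgroups).
-/

namespace Cfsg.Agent.Helper10

open Subgroup

variable {G : Type*} [Group G] [Finite G] [IsSimpleGroup G]

/-- piece A4200 -/
theorem o4200_a (h : Nat.card G = 4200) : ∃ H : Subgroup G, Nat.card H = 300 := by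
  haveI : Fact (Nat.Prime 5) := ⟨by norm_num⟩
  obtain ⟨P0⟩ : Nonempty (Sylow 5 G) := inferInstance
  have hS : ∀ P : Sylow 5 G, Nat.card (P : Subgroup G) = 25 := fun P => by
    have := Cfsg.Agent.Helper9.OrdTools.sylow_card (p := 5) 2 168 (by rw [h]; norm_num)
      (by norm_num) P
    simpa using this
  have hnum := Cfsg.Agent.Helper9.OrdTools.sylow_num P0 (by rw [hS]; norm_num)
    (by rw [hS, h]; norm_num)
  have hidx0 : (P0 : Subgroup G).index = 168 := by
    have := (P0 : Subgroup G).card_mul_index
    rw [hS, h] at this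
    omega
  have hn168 : Nat.card (Sylow 5 G) ∣ 168 := hidx0 ▸ hnum.1
  have key25 : ∀ d ∈ Nat.divisors 168, d % 25 = 1 → d = 1 := by decide
  have hnot : ¬ Nat.card (Sylow 5 G) ≡ 1 [MOD 5 ^ 2] := by
    intro hmod
    exact hnum.2.2.1 (key25 _ (Nat.mem_divisors.mpr ⟨hn168, by norm_num⟩) hmod)
  obtain ⟨P, R, hPR, hidxPR⟩ := Cfsg.Agent.S0985.result 5 2 hnot
  have hP := hS P
  have hR := hS R
  -- Sylow 5-subgroups are abelian
  have hab : ∀ S : Sylow 5 G, ∀ a ∈ (S : Subgroup G), ∀ b ∈ (S : Subgroup G), a * b = b * a := by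
    intro S a ha b hb
    have hc := IsPGroup.isMulCommutative_of_card_eq_prime_sq (p := 5) (G := (S : Subgroup G))
      (by rw [hS S]; norm_num)
    have := hc.is_comm.comm ⟨a, ha⟩ ⟨b, hb⟩
    exact congrArg Subtype.val this
  -- `D = P ⊓ R` has order 5
  have hDcard : Nat.card ((P : Subgroup G) ⊓ (R : Subgroup G) : Subgroup G) = 5 := by
    have h1 := ((R : Subgroup G).subgroupOf (P : Subgroup G)).card_mul_index
    have h2 : Nat.card ((R : Subgroup G).subgroupOf (P : Subgroup G)) =
        Nat.card ((P : Subgroup G) ⊓ (R : Subgroup G) : Subgroup G) := by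
      rw [← Subgroup.inf_subgroupOf_left]
      exact Nat.card_congr (Subgroup.subgroupOfEquivOfLe inf_le_left).toEquiv
    rw [h2, hP] at h1
    have hdvd : Nat.card ((P : Subgroup G) ⊓ (R : Subgroup G) : Subgroup G) ∣ 25 :=
      ⟨_, by rw [h1]⟩
    have hne : Nat.card ((P : Subgroup G) ⊓ (R : Subgroup G) : Subgroup G) ≠ 25 := by
      intro h25
      have hle : (P : Subgroup G) ≤ (P : Subgroup G) ⊓ (R : Subgroup G) :=
        (Subgroup.eq_of_le_of_card_ge inf_le_left (by rw [h25, hP])).ge
      have hPleR : (P : Subgroup G) ≤ (R : Subgroup G) := hle.trans inf_le_right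
      exact hPR (Sylow.ext (Subgroup.eq_of_le_of_card_ge hPleR (by rw [hP, hR])))
    have hle5 : ((R : Subgroup G).subgroupOf (P : Subgroup G)).index ≤ 5 := by simpa using hidxPR
    have hcases : ∀ d ∈ Nat.divisors 25, d = 1 ∨ d = 5 ∨ d = 25 := by decide
    rcases hcases _ (Nat.mem_divisors.mpr ⟨hdvd, by norm_num⟩) with h' | h' | h'
    · rw [h'] at h1
      omega
    · exact h'
    · exact absurd h' hne
  -- both Sylow subgroups centralise `D`
  have hle : ∀ S : Sylow 5 G, ((P : Subgroup G) ⊓ (R : Subgroup G) : Subgroup G) ≤ (S : Subgroup G) →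
      (S : Subgroup G) ≤ centralizer (((P : Subgroup G) ⊓ (R : Subgroup G) : Subgroup G) : Set G) := by
    intro S hDS s hs
    rw [Subgroup.mem_centralizer_iff]
    intro d hd
    exact hab S d (hDS hd) s hs
  have hPC := hle P inf_le_left
  have hRC := hle R inf_le_right
  -- the centraliser is proper
  have hCtop : centralizer (((P : Subgroup G) ⊓ (R : Subgroup G) : Subgroup G) : Set G) ≠ ⊤ := by
    intro htop
    have hnorm : ((P : Subgroup G) ⊓ (R : Subgroup G) : Subgroup G).Normal := by
      constructor
      intro d hd g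
      have hg : g ∈ centralizer (((P : Subgroup G) ⊓ (R : Subgroup G) : Subgroup G) : Set G) := by
        rw [htop]; exact Subgroup.mem_top g
      have := Subgroup.mem_centralizer_iff.mp hg d hd
      rw [← this, mul_inv_cancel_right]
      exact hd
    rcases hnorm.eq_bot_or_eq_top with hb | hb
    · rw [hb, Subgroup.card_bot] at hDcard
      omega
    · rw [hb, Subgroup.card_top, h] at hDcard
      omega
  have hfact := Cfsg.Agent.Helper9.OrdTools.card_dvd_factorial_index _ hCtop
  rw [h] at hfact
  have hmul := (centralizer (((P : Subgroup G) ⊓ (R : Subgroup G) : Subgroup G) : Set G)).card_mul_index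
  rw [h] at hmul
  have hi10 : 10 ≤ (centralizer (((P : Subgroup G) ⊓ (R : Subgroup G) : Subgroup G) : Set G)).index := by
    by_contra hlt
    push Not at hlt
    have hbad : ∀ i : ℕ, i < 10 → ¬ 4200 ∣ i.factorial := by decide
    exact hbad _ hlt hfact
  -- Sylow counting in `C`
  have hsyl := Cfsg.Agent.Helper8.SylSub.card_eq_inf_normalizer_mul P _ hPC
  have hmod := Cfsg.Agent.Helper8.SylSub.card_sylow_mod 5
    (centralizer (((P : Subgroup G) ⊓ (R : Subgroup G) : Subgroup G) : Set G))
  have hge2 : 2 ≤ Nat.card (Sylow 5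
      ↥(centralizer (((P : Subgroup G) ⊓ (R : Subgroup G) : Subgroup G) : Set G))) := by
    refine le_trans ?_ (Cfsg.Agent.Helper8.SylSub.card_le_card_sylow 5
      (centralizer (((P : Subgroup G) ⊓ (R : Subgroup G) : Subgroup G) : Set G)))
    have hnt : Nontrivial {S : Sylow 5 G // (S : Subgroup G) ≤
        centralizer (((P : Subgroup G) ⊓ (R : Subgroup G) : Subgroup G) : Set G)} :=
      ⟨⟨⟨P, hPC⟩, ⟨R, hRC⟩, fun e => hPR (congrArg Subtype.val e)⟩⟩
    exact Finite.one_lt_card
  have h25 : 25 ∣ Nat.card (centralizer (((P : Subgroup G) ⊓ (R : Subgroup G) : Subgroup G) : Set G) ⊓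
      normalizer ((P : Subgroup G) : Set G) : Subgroup G) := by
    have := Subgroup.card_dvd_of_le (le_inf hPC Subgroup.le_normalizer :
      (P : Subgroup G) ≤ centralizer (((P : Subgroup G) ⊓ (R : Subgroup G) : Subgroup G) : Set G) ⊓
      normalizer ((P : Subgroup G) : Set G))
    rwa [hP] at this
  obtain ⟨a', ha'⟩ := h25
  rw [ha'] at hsyl
  have hc : Nat.card (centralizer (((P : Subgroup G) ⊓ (R : Subgroup G) : Subgroup G) : Set G)) = 150 ∨
      Nat.card (centralizer (((P : Subgroup G) ⊓ (R : Subgroup G) : Subgroup G) : Set G)) = 300 := by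
    generalize Nat.card (Sylow 5
      ↥(centralizer (((P : Subgroup G) ⊓ (R : Subgroup G) : Subgroup G) : Set G))) = n at *
    generalize (centralizer (((P : Subgroup G) ⊓ (R : Subgroup G) : Subgroup G) : Set G)).index = i at *
    generalize Nat.card (centralizer (((P : Subgroup G) ⊓ (R : Subgroup G) : Subgroup G) : Set G)) = c at *
    -- c = 25 * a' * n, c * i = 4200, 10 ≤ i, n % 5 = 1, 2 ≤ n
    have hc420 : c ≤ 420 := by nlinarith
    have ha'pos : 0 < a' := by
      rcases Nat.eq_zero_or_pos a' with h0 | h0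
      · rw [h0] at hsyl
        simp at hsyl
        rw [hsyl] at hmul
        omega
      · exact h0
    have hn16 : n ≤ 16 := by nlinarith
    have hn6 : n = 6 ∨ n = 11 ∨ n = 16 := by omega
    rcases hn6 with rfl | rfl | rfl
    · have ha2 : a' ≤ 2 := by nlinarith
      interval_cases a'
      · left; omega
      · right; omega
    · exfalso
      have : a' = 1 := by nlinarith
      subst this
      rw [hsyl] at hmul
      omega
    · exfalso
      have : a' = 1 := by nlinarith
      subst this
      rw [hsyl] at hmul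
      omega
  rcases hc with hc | hc
  · exfalso
    -- order 150: a normal subgroup of index 2 containing all Sylow 5-subgroups
    obtain ⟨L, hLn, hL2⟩ := Cfsg.Agent.Helper71.exists_index_two_of_card
      (Γ := ↥(centralizer (((P : Subgroup G) ⊓ (R : Subgroup G) : Subgroup G) : Set G))) 75
      (by decide) (by rw [hc])
    have hLcard : Nat.card L = 75 := by
      have := L.card_mul_index
      rw [hL2, hc] at this
      omega
    have hmemL : ∀ S : Sylow 5 G, ∀ (hSC : (S : Subgroup G) ≤
        centralizer (((P : Subgroup G) ⊓ (R : Subgroup G) : Subgroup G) : Set G)),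
        (S : Subgroup G) ≤ L.map (centralizer
          (((P : Subgroup G) ⊓ (R : Subgroup G) : Subgroup G) : Set G)).subtype := by
      intro S hSC s hs
      have hs25 : s ^ 25 = 1 := by
        have h1 : orderOf s ∣ 25 := by
          have := orderOf_dvd_natCard (⟨s, hs⟩ : (S : Subgroup G))
          rw [hS S] at this
          rw [← Subgroup.orderOf_mk s hs]
          simpa using this
        exact orderOf_dvd_iff_pow_eq_one.mp h1
      have hsq := Subgroup.sq_mem_of_index_two hL2 (⟨s, hSC hs⟩ :
        ↥(centralizer (((P : Subgroup G) ⊓ (R : Subgroup G) : Subgroup G) : Set G)))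
      have h13 := L.pow_mem hsq 13
      have e : ((⟨s, hSC hs⟩ :
          ↥(centralizer (((P : Subgroup G) ⊓ (R : Subgroup G) : Subgroup G) : Set G))) ^ 2) ^ 13
          = ⟨s, hSC hs⟩ := by
        apply Subtype.ext
        simp only [Subgroup.coe_pow]
        rw [← pow_mul]
        have : s ^ (2 * 13) = s ^ 25 * s := by rw [← pow_succ]
        rw [this, hs25, one_mul]
      rw [e] at h13
      exact ⟨⟨s, hSC hs⟩, h13, rfl⟩
    have hL'card : Nat.card (L.map (centralizer
        (((P : Subgroup G) ⊓ (R : Subgroup G) : Subgroup G) : Set G)).subtype) = 75 := by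
      rw [Subgroup.card_map_of_injective (Subgroup.subtype_injective _), hLcard]
    have hge2' : 2 ≤ Nat.card (Sylow 5 ↥(L.map (centralizer
        (((P : Subgroup G) ⊓ (R : Subgroup G) : Subgroup G) : Set G)).subtype)) := by
      refine le_trans ?_ (Cfsg.Agent.Helper8.SylSub.card_le_card_sylow 5 _)
      have hnt : Nontrivial {S : Sylow 5 G // (S : Subgroup G) ≤ L.map (centralizer
          (((P : Subgroup G) ⊓ (R : Subgroup G) : Subgroup G) : Set G)).subtype} :=
        ⟨⟨⟨P, hmemL P hPC⟩, ⟨R, hmemL R hRC⟩, fun e => hPR (congrArg Subtype.val e)⟩⟩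
      exact Finite.one_lt_card
    have hmod' := Cfsg.Agent.Helper8.SylSub.card_sylow_mod 5 (L.map (centralizer
        (((P : Subgroup G) ⊓ (R : Subgroup G) : Subgroup G) : Set G)).subtype)
    obtain ⟨P'⟩ : Nonempty (Sylow 5 ↥(L.map (centralizer
        (((P : Subgroup G) ⊓ (R : Subgroup G) : Subgroup G) : Set G)).subtype)) := inferInstance
    have hdvd' := Sylow.card_dvd_index P'
    have hP'card : Nat.card (P' : Subgroup ↥(L.map (centralizer
        (((P : Subgroup G) ⊓ (R : Subgroup G) : Subgroup G) : Set G)).subtype)) = 25 := by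
      have := Cfsg.Agent.Helper9.OrdTools.sylow_card (p := 5) 2 3 (by rw [hL'card]; norm_num)
        (by norm_num) P'
      simpa using this
    have hidx' : (P' : Subgroup ↥(L.map (centralizer
        (((P : Subgroup G) ⊓ (R : Subgroup G) : Subgroup G) : Set G)).subtype)).index = 3 := by
      have := (P' : Subgroup ↥(L.map (centralizer
        (((P : Subgroup G) ⊓ (R : Subgroup G) : Subgroup G) : Set G)).subtype)).card_mul_index
      rw [hP'card, hL'card] at this
      omega
    rw [hidx'] at hdvd'
    have := Nat.le_of_dvd (by norm_num) hdvd'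
    omega
  · exact ⟨_, hc⟩

end Cfsg.Agent.Helper10
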