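import Mathlib
import Cfsg.Agent.Helper9.OrdTools
import Cfsg.Agent.Helper9.OrdTools2
import Cfsg.Agent.Helper9.OrdCount

set_option autoImplicit false
set_option linter.style.haveILetI false

/-!
# CALL S0983, piece C5400 (helper10)

In a simple group of order `5400` with a subgroup `D` of order `5` whose centraliser `H` has order
`300`: every Sylow `5`-subgroup fixes exactly three cosets of `H`.
-/

namespace Cfsg.Agent.Helper10

open Subgroup

variable {G : Type*} [Group G] [Finite G] [IsSimpleGroup G]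

omit [IsSimpleGroup G] in
/-- a group of order `25` has at most six subgroups of order `5`. -/
theorem o5400_card_sub_le (P : Subgroup G) (hP : Nat.card P = 25) :
    Nat.card {E : Subgroup G // E ≤ P ∧ Nat.card E = 5} ≤ 6 := by
  haveI : Fact (Nat.Prime 5) := ⟨by norm_num⟩
  have hgen : ∀ (E : Subgroup G), Nat.card E = 5 → ∀ g : G, g ∈ E → g ≠ 1 → zpowers g = E := by
    intro E hE g hg hg1
    have hle : zpowers g ≤ E := (Subgroup.zpowers_le).mpr hg
    apply Subgroup.eq_of_le_of_card_ge hle
    have h1 : Nat.card (zpowers g) ∣ 5 := hE ▸ Subgroup.card_dvd_of_le hle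
    rw [Nat.card_zpowers] at h1 ⊢
    rcases (Nat.dvd_prime (by norm_num : Nat.Prime 5)).mp h1 with h2 | h2
    · exact absurd (orderOf_eq_one_iff.mp h2) hg1
    · rw [hE, h2]
  have key := Cfsg.Agent.Helper9.OrdTools.card_ti_ge (G := ↥P)
    (ι := {E : Subgroup G // E ≤ P ∧ Nat.card E = 5}) (fun E => E.1.subgroupOf P) 5
    (fun E => by
      rw [Nat.card_congr (Subgroup.subgroupOfEquivOfLe E.2.1).toEquiv]
      exact E.2.2)
    (fun E F hEF g hgE hgF => by
      by_contra hg1
      have hg1' : (g : G) ≠ 1 := fun h => hg1 (Subtype.ext h)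
      have h1 := hgen E.1 E.2.2 (g : G) (Subgroup.mem_subgroupOf.mp hgE) hg1'
      have h2 := hgen F.1 F.2.2 (g : G) (Subgroup.mem_subgroupOf.mp hgF) hg1'
      exact hEF (Subtype.ext (h1.symm.trans h2)))
  have h2 := Cfsg.Agent.Helper9.OrdTools.card_mono (α := ↥P)
    (fun g => g ≠ 1 ∧ ∃ i : {E : Subgroup G // E ≤ P ∧ Nat.card E = 5}, g ∈ i.1.subgroupOf P)
    (fun g => g ≠ 1) (fun g hg => hg.1)
  have h3 := Cfsg.Agent.Helper9.OrdTools.card_ne_one_eq (G := ↥P)
  rw [hP] at h3
  have h4 := key.trans h2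
  rw [h3] at h4
  omega

/-- piece C5400 -/
theorem o5400_c (h : Nat.card G = 5400) (D : Subgroup G) (hD : Nat.card D = 5)
    (hC : Nat.card (centralizer (D : Set G)) = 300) (P : Sylow 5 G) :
    Nat.card (MulAction.fixedPoints (P : Subgroup G) (G ⧸ centralizer (D : Set G))) = 3 := by
  classical
  haveI : Fact (Nat.Prime 5) := ⟨by norm_num⟩
  have hP : Nat.card (P : Subgroup G) = 25 := by
    have := Cfsg.Agent.Helper9.OrdTools.sylow_card (p := 5) 2 216 (by rw [h]; norm_num)
      (by norm_num) P
    simpa using this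
  have hidx : (centralizer (D : Set G)).index = 18 := by
    have := (centralizer (D : Set G)).card_mul_index
    rw [hC, h] at this
    omega
  -- (F1) the normaliser of `D` is its centraliser
  have hDnn : ¬ D.Normal := by
    intro hn
    rcases hn.eq_bot_or_eq_top with hb | hb
    · rw [hb, Subgroup.card_bot] at hD
      omega
    · rw [hb, Subgroup.card_top, h] at hD
      omega
  have hNtop : normalizer (D : Set G) ≠ ⊤ := fun ht => hDnn (Subgroup.normalizer_eq_top_iff.mp ht)
  have hfact := Cfsg.Agent.Helper9.OrdTools.card_dvd_factorial_index _ hNtop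
  rw [h] at hfact
  have hCN : centralizer (D : Set G) ≤ normalizer (D : Set G) :=
    Subgroup.centralizer_le_normalizer _
  have hdvd18 : (normalizer (D : Set G)).index ∣ 18 := hidx ▸ Subgroup.index_dvd_of_le hCN
  have key : ∀ i ∈ Nat.divisors 18, 5400 ∣ i.factorial → i = 18 := by decide
  have hNidx : (normalizer (D : Set G)).index = 18 :=
    key _ (Nat.mem_divisors.mpr ⟨hdvd18, by norm_num⟩) hfact
  have hF1 : centralizer (D : Set G) = normalizer (D : Set G) := by
    apply Subgroup.eq_of_le_of_card_ge hCN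
    have := (normalizer (D : Set G)).card_mul_index
    rw [hNidx, h] at this
    rw [hC]
    omega
  -- the congruence
  have hmod := (P.2).card_modEq_card_fixedPoints (G ⧸ centralizer (D : Set G))
  have hX : Nat.card (G ⧸ centralizer (D : Set G)) = 18 := by
    rw [← Subgroup.index_eq_card]
    exact hidx
  rw [hX] at hmod
  -- the bound
  have hmemE : ∀ x : MulAction.fixedPoints (P : Subgroup G) (G ⧸ centralizer (D : Set G)),
      D.map (MulAut.conj (Quotient.out x.1)).toMonoidHom ≤ (P : Subgroup G) := by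
    intro x
    have hxout : ((Quotient.out x.1 : G) : G ⧸ centralizer (D : Set G)) = x.1 :=
      QuotientGroup.out_eq' x.1
    have hEp : IsPGroup 5 (D.map (MulAut.conj (Quotient.out x.1)).toMonoidHom) :=
      IsPGroup.of_card (n := 1) (by
        rw [Subgroup.card_map_of_injective (MulEquiv.injective _), hD, pow_one])
    apply Cfsg.Agent.Helper9.OrdTools.mem_sylow_of_mem_normalizer P hEp
    rintro e ⟨d, hd, rfl⟩
    apply Subgroup.centralizer_le_normalizer
    rw [Subgroup.mem_centralizer_iff]
    intro p hp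
    have hfix := x.2 ⟨p, hp⟩
    rw [← hxout] at hfix
    have h1 : ((p * Quotient.out x.1 : G) : G ⧸ centralizer (D : Set G)) =
        ((Quotient.out x.1 : G) : G ⧸ centralizer (D : Set G)) := hfix
    have h2 := QuotientGroup.eq.mp h1
    have h3 := Subgroup.mem_centralizer_iff.mp h2 d hd
    simp only [MulEquiv.coe_toMonoidHom, MulAut.conj_apply]
    generalize Quotient.out x.1 = g at h3 ⊢
    calc p * (g * d * g⁻¹) = p * g * (d * ((p * g)⁻¹ * g)) * ((p * g)⁻¹ * g)⁻¹ * g⁻¹ := by group
      _ = p * g * ((p * g)⁻¹ * g * d) * ((p * g)⁻¹ * g)⁻¹ * g⁻¹ := by rw [h3]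
      _ = g * d * g⁻¹ * p := by group
  have hinj : Function.Injective
      (fun x : MulAction.fixedPoints (P : Subgroup G) (G ⧸ centralizer (D : Set G)) =>
        (⟨D.map (MulAut.conj (Quotient.out x.1)).toMonoidHom, hmemE x, by
          rw [Subgroup.card_map_of_injective (MulEquiv.injective _), hD]⟩ :
          {E : Subgroup G // E ≤ (P : Subgroup G) ∧ Nat.card E = 5})) := by
    intro x x' hxx
    have hEq : D.map (MulAut.conj (Quotient.out x.1)).toMonoidHom =
        D.map (MulAut.conj (Quotient.out x'.1)).toMonoidHom := congrArg Subtype.val hxx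
    have hxout : ((Quotient.out x.1 : G) : G ⧸ centralizer (D : Set G)) = x.1 :=
      QuotientGroup.out_eq' x.1
    have hxout' : ((Quotient.out x'.1 : G) : G ⧸ centralizer (D : Set G)) = x'.1 :=
      QuotientGroup.out_eq' x'.1
    apply Subtype.ext
    rw [← hxout, ← hxout']
    apply QuotientGroup.eq.mpr
    refine hF1.ge ?_
    generalize Quotient.out x.1 = g at hEq ⊢
    generalize Quotient.out x'.1 = g' at hEq ⊢
    have hfw : ∀ a ∈ D, (g⁻¹ * g') * a * (g⁻¹ * g')⁻¹ ∈ D := by
      intro a ha
      have hmem : g' * a * g'⁻¹ ∈ D.map (MulAut.conj g').toMonoidHom := ⟨a, ha, rfl⟩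
      rw [← hEq] at hmem
      obtain ⟨d, hd, hde⟩ := hmem
      simp only [MulEquiv.coe_toMonoidHom, MulAut.conj_apply] at hde
      have : (g⁻¹ * g') * a * (g⁻¹ * g')⁻¹ = d := by
        have e : (g⁻¹ * g') * a * (g⁻¹ * g')⁻¹ = g⁻¹ * (g' * a * g'⁻¹) * g := by group
        rw [e, ← hde]
        group
      rw [this]
      exact hd
    have hbw : ∀ b ∈ D, (g⁻¹ * g')⁻¹ * b * (g⁻¹ * g') ∈ D := by
      intro b hb
      have hmem : g * b * g⁻¹ ∈ D.map (MulAut.conj g).toMonoidHom := ⟨b, hb, rfl⟩
      rw [hEq] at hmem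
      obtain ⟨d, hd, hde⟩ := hmem
      simp only [MulEquiv.coe_toMonoidHom, MulAut.conj_apply] at hde
      have : (g⁻¹ * g')⁻¹ * b * (g⁻¹ * g') = d := by
        have e : (g⁻¹ * g')⁻¹ * b * (g⁻¹ * g') = g'⁻¹ * (g * b * g⁻¹) * g' := by group
        rw [e, ← hde]
        group
      rw [this]
      exact hd
    rw [Subgroup.mem_normalizer_iff]
    intro a
    constructor
    · exact hfw a
    · intro ha
      have := hbw _ ha
      have e : (g⁻¹ * g')⁻¹ * ((g⁻¹ * g') * a * (g⁻¹ * g')⁻¹) * (g⁻¹ * g') = a := by group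
      rwa [e] at this
  have hle6 : Nat.card (MulAction.fixedPoints (P : Subgroup G) (G ⧸ centralizer (D : Set G))) ≤ 6 :=
    (Nat.card_le_card_of_injective _ hinj).trans (o5400_card_sub_le (P : Subgroup G) hP)
  unfold Nat.ModEq at hmod
  omega

end Cfsg.Agent.Helper10
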