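import Mathlib
import Cfsg.Agent.Helper95.OTSDefs

set_option autoImplicit false

/-! CALL S5972 (helper95), piece BOUND (helper10): a totally isotropic subspace of a nondegenerate
symmetric space has at most half the dimension. -/

namespace Cfsg.Agent.Helper10.OTS

open Module Polynomial
open Cfsg.Agent.Helper13.TIsp Cfsg.Agent.Helper42.SpGroup Cfsg.Agent.Helper42.SpModels
open Cfsg.Agent.Helper95.OTS

variable {F : Type*} [Field F] {V : Type*} [AddCommGroup V] [Module F V] [FiniteDimensional F V]
  (B : LinearMap.BilinForm F V)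

/-- the perp of `W` inside a nondegenerate `D` (symmetric version of `ti_orth`). -/
theorem bound_orth (hsym : ∀ u v, B u v = B v u) (D W : Submodule F V) (hD : NondegOn B D)
    (hW : W ≤ D) :
    ∃ P : Submodule F V, (∀ v, v ∈ P ↔ v ∈ D ∧ ∀ w ∈ W, B v w = 0) ∧
      finrank F P + finrank F W = finrank F D := by
  have hB' : ∀ x y : D, (B.restrict D) x y = B x y := fun x y => rfl
  have hker : W.comap D.subtype ⊓ LinearMap.ker (B.restrict D) = ⊥ := by
    rw [eq_bot_iff]
    rintro x ⟨-, hx⟩
    rw [Submodule.mem_bot]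
    have hx' : (B.restrict D) x = 0 := LinearMap.mem_ker.mp hx
    apply Subtype.ext
    apply hD x x.2
    intro w hw
    have h3 : (B.restrict D) x ⟨w, hw⟩ = 0 := by rw [hx']; rfl
    exact h3
  have hfin := LinearMap.BilinForm.finrank_add_finrank_orthogonal' (B := B.restrict D)
    (W.comap D.subtype)
  rw [hker, finrank_bot, add_zero] at hfin
  have hW'fin : finrank F (W.comap D.subtype) = finrank F W := by
    rw [← Submodule.finrank_map_subtype_eq D (W.comap D.subtype), Submodule.map_comap_subtype,
      inf_eq_right.mpr hW]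
  refine ⟨((B.restrict D).orthogonal (W.comap D.subtype)).map D.subtype, ?_, ?_⟩
  · intro v
    constructor
    · rintro ⟨x, hx, rfl⟩
      refine ⟨x.2, fun w hw => ?_⟩
      have h4 : (B.restrict D) ⟨w, hW hw⟩ x = 0 := hx ⟨w, hW hw⟩ hw
      rw [hB'] at h4
      rw [hsym]
      simpa using h4
    · rintro ⟨hvD, hv⟩
      refine ⟨⟨v, hvD⟩, ?_, rfl⟩
      intro n hn
      show (B.restrict D) n ⟨v, hvD⟩ = 0
      rw [hB', hsym]
      exact hv n hn
  · rw [Submodule.finrank_map_subtype_eq, ← hW'fin]
    omega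

/-- PIECE BOUND. -/
theorem sym_bound (hsym : ∀ u v, B u v = B v u) (C W : Submodule F V) (hC : NondegOn B C)
    (hW : W ≤ C) (hTI : TI B W) : 2 * finrank F W ≤ finrank F C := by
  obtain ⟨P, hP, hdim⟩ := bound_orth B hsym C W hC hW
  have hWP : W ≤ P := fun v hv => (hP v).mpr ⟨hW hv, fun w hw => hTI v hv w hw⟩
  have h := Submodule.finrank_mono hWP
  omega

end Cfsg.Agent.Helper10.OTS
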