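import Mathlib
import Cfsg.Agent.Helper95.OTSDefs

set_option autoImplicit false

/-! CALL S5972 (helper95), piece LAG (helper10): a nondegenerate symmetric space of dimension
`≥ 2a+1` over a finite field contains a totally isotropic `a`-space. -/

namespace Cfsg.Agent.Helper10.OTS

open Module Polynomial
open Cfsg.Agent.Helper13.TIsp Cfsg.Agent.Helper42.SpGroup Cfsg.Agent.Helper42.SpModels
open Cfsg.Agent.Helper95.OTS

variable {F : Type*} [Field F] {V : Type*} [AddCommGroup V] [Module F V] [FiniteDimensional F V]
  (B : LinearMap.BilinForm F V)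

/-- the perp of `W` inside a nondegenerate `D` (symmetric version of `ti_orth`). -/
theorem lag_orth (hsym : ∀ u v, B u v = B v u) (D W : Submodule F V) (hD : NondegOn B D)
    (hW : W ≤ D) :
    ∃ P : Submodule F V, (∀ v, v ∈ P ↔ v ∈ D ∧ ∀ w ∈ W, B v w = 0) ∧
      finrank F P + finrank F W = finrank F D := by
  have hB' : ∀ x y : D, (B.restrict D) x y = B x y := fun x y => rfl
  have hker : W.comap D.subtype ⊓ LinearMap.ker (B.restrict D) = ⊥ := by
    rw [eq_bot_iff]
    rintro x ⟨-, hx⟩
    rw [Submodule.mem_bot]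
    have hx' : (B.restrict D) x = 0 := LinearMap.mem_ker.mp hx
    apply Subtype.ext
    apply hD x x.2
    intro w hw
    have h3 : (B.restrict D) x ⟨w, hw⟩ = 0 := by rw [hx']; rfl
    exact h3
  have hfin := LinearMap.BilinForm.finrank_add_finrank_orthogonal' (B := B.restrict D)
    (W.comap D.subtype)
  rw [hker, finrank_bot, add_zero] at hfin
  have hW'fin : finrank F (W.comap D.subtype) = finrank F W := by
    rw [← Submodule.finrank_map_subtype_eq D (W.comap D.subtype), Submodule.map_comap_subtype,
      inf_eq_right.mpr hW]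
  refine ⟨((B.restrict D).orthogonal (W.comap D.subtype)).map D.subtype, ?_, ?_⟩
  · intro v
    constructor
    · rintro ⟨x, hx, rfl⟩
      refine ⟨x.2, fun w hw => ?_⟩
      have h4 : (B.restrict D) ⟨w, hW hw⟩ x = 0 := hx ⟨w, hW hw⟩ hw
      rw [hB'] at h4
      rw [hsym]
      simpa using h4
    · rintro ⟨hvD, hv⟩
      refine ⟨⟨v, hvD⟩, ?_, rfl⟩
      intro n hn
      show (B.restrict D) n ⟨v, hvD⟩ = 0
      rw [hB', hsym]
      exact hv n hn
  · rw [Submodule.finrank_map_subtype_eq, ← hW'fin]
    omega

/-- PIECE LAG. -/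
theorem sym_lag [Fintype F] (hsym : ∀ u v, B u v = B v u) (h2 : (2 : F) ≠ 0)
    (C : Submodule F V) (hC : NondegOn B C) :
    ∀ a, 2 * a + 1 ≤ finrank F C → ∃ A : Submodule F V, A ≤ C ∧ TI B A ∧ finrank F A = a := by
  classical
  intro a
  induction a generalizing C with
  | zero =>
    intro _
    exact ⟨⊥, bot_le, fun u hu v _ => by rw [Submodule.mem_bot] at hu; rw [hu]; simp, by simp⟩
  | succ a ih =>
    intro ha
    obtain ⟨v, hvC, hv0, hvv⟩ := Cfsg.Agent.Helper58.TI5955.ti_cw B 1 C {0}
      (by rw [Finset.card_singleton]; omega)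
    have hvv' : B v v = 0 := by simpa using hvv 0 (Finset.mem_singleton_self 0)
    obtain ⟨w, hwC, hvw⟩ : ∃ w ∈ C, B v w ≠ 0 := by
      by_contra hne
      push Not at hne
      exact hv0 (hC v hvC hne)
    have hwv : B w v ≠ 0 := by rw [hsym]; exact hvw
    obtain ⟨P, hP, hdim⟩ := lag_orth B hsym C (Submodule.span F {v, w}) hC (by
      rw [Submodule.span_le]
      intro x hx
      rcases hx with rfl | rfl
      · exact hvC
      · exact hwC)
    have hH : finrank F (Submodule.span F ({v, w} : Set V)) ≤ 2 := by
      have h1 := finrank_span_finset_le_card (R := F) ({v, w} : Finset V)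
      have h3 : (({v, w} : Finset V) : Set V) = {v, w} := by simp
      rw [h3] at h1
      exact h1.trans Finset.card_le_two
    have hPv : ∀ x ∈ P, B x v = 0 := fun x hx =>
      ((hP x).mp hx).2 v (Submodule.subset_span (by simp))
    have hPw : ∀ x ∈ P, B x w = 0 := fun x hx =>
      ((hP x).mp hx).2 w (Submodule.subset_span (by simp))
    have hPC : P ≤ C := fun x hx => ((hP x).mp hx).1
    have hPnd : NondegOn B P := by
      intro x hx hxP
      apply hC x (hPC hx)
      intro c hc
      obtain ⟨β, hβ⟩ : ∃ β, β = B c v / B w v := ⟨_, rfl⟩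
      obtain ⟨α, hα⟩ : ∃ α, α = (B c w - β * B w w) / B v w := ⟨_, rfl⟩
      have hp : c - α • v - β • w ∈ P := by
        rw [hP]
        refine ⟨C.sub_mem (C.sub_mem hc (C.smul_mem _ hvC)) (C.smul_mem _ hwC), ?_⟩
        intro y hy
        obtain ⟨s, t, rfl⟩ := Submodule.mem_span_pair.mp hy
        have e1 : B (c - α • v - β • w) v = 0 := by
          simp only [map_sub, map_smul, LinearMap.sub_apply, LinearMap.smul_apply, smul_eq_mul]
          rw [hvv', hβ]
          field_simp
          ring
        have e2 : B (c - α • v - β • w) w = 0 := by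
          simp only [map_sub, map_smul, LinearMap.sub_apply, LinearMap.smul_apply, smul_eq_mul]
          rw [hα]
          field_simp
          ring
        rw [map_add, map_smul, map_smul, e1, e2]
        simp
      have h1 := hxP _ hp
      have hdec : c = (c - α • v - β • w) + α • v + β • w := by abel
      rw [hdec, map_add, map_add, map_smul, map_smul, h1, hPv x hx, hPw x hx]
      simp
    obtain ⟨A', hA'P, hA'TI, hA'dim⟩ := ih P hPnd (by omega)
    refine ⟨A' ⊔ Submodule.span F {v}, ?_, ?_, ?_⟩
    · refine sup_le (hA'P.trans hPC) ?_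
      rw [Submodule.span_le]
      intro x hx
      rw [Set.mem_singleton_iff] at hx
      rw [hx]
      exact hvC
    · intro u hu u' hu'
      obtain ⟨a1, ha1, b1, hb1, rfl⟩ := Submodule.mem_sup.mp hu
      obtain ⟨a2, ha2, b2, hb2, rfl⟩ := Submodule.mem_sup.mp hu'
      obtain ⟨c1, rfl⟩ := Submodule.mem_span_singleton.mp hb1
      obtain ⟨c2, rfl⟩ := Submodule.mem_span_singleton.mp hb2
      simp only [map_add, map_smul, LinearMap.add_apply, LinearMap.smul_apply, smul_eq_mul]
      rw [hA'TI a1 ha1 a2 ha2, hPv a1 (hA'P ha1), hsym v a2, hPv a2 (hA'P ha2), hvv']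
      ring
    · have hinf : A' ⊓ Submodule.span F {v} = ⊥ := by
        rw [eq_bot_iff]
        rintro x ⟨hx1, hx2⟩
        obtain ⟨c, rfl⟩ := Submodule.mem_span_singleton.mp hx2
        rw [Submodule.mem_bot]
        by_contra hne
        have hc : c ≠ 0 := by
          rintro rfl
          simp at hne
        have hvA : v ∈ A' := by
          have h5 := A'.smul_mem c⁻¹ hx1
          rwa [smul_smul, inv_mul_cancel₀ hc, one_smul] at h5
        exact hvw (hPw v (hA'P hvA))
      have h := Submodule.finrank_sup_add_finrank_inf_eq A' (Submodule.span F {v})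
      rw [hinf, finrank_bot, finrank_span_singleton hv0] at h
      omega

end Cfsg.Agent.Helper10.OTS
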