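import Mathlib
import Cfsg.Agent.S5093
import Cfsg.Agent.Helper86.Hyperfocal
import Cfsg.Agent.Helper88.Fusion
import Cfsg.Agent.Helper85.PiDefs

/-!
# CALL S5113, piece HFAA (helper10)

The hyperfocal subgroup theorem for a finite group, in the generator form needed by the CALL.
-/

set_option autoImplicit false

namespace Cfsg.Agent.Helper10.PiHFAA

open Cfsg Cfsg.FusionSystem Cfsg.Agent.Helper85 Cfsg.Agent.Helper88

theorem aut_is_conj {G : Type*} [Group G] (P Y : Subgroup G) (b : MulAut Y)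
    (hb : b ∈ (groupFusionSystem P).autGroup Y) :
    ∃ g : G, ∀ x : Y, ((b x : Y) : G) = g * (x : G) * g⁻¹ := by
  unfold FusionSystem.autGroup at hb
  induction hb using Subgroup.closure_induction with
  | mem c hc =>
    obtain ⟨-, -, g, hg⟩ := hc
    exact ⟨g, fun x => hg x⟩
  | one => exact ⟨1, fun x => by simp⟩
  | mul c d _ _ ihc ihd =>
    obtain ⟨g, hg⟩ := ihc
    obtain ⟨h, hh⟩ := ihd
    refine ⟨g * h, fun x => ?_⟩
    show ((c (d x) : Y) : G) = _
    rw [hg, hh]
    group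
  | inv c _ ihc =>
    obtain ⟨g, hg⟩ := ihc
    refine ⟨g⁻¹, fun x => ?_⟩
    have h1 := hg (c⁻¹ x)
    rw [MulAut.apply_inv_self] at h1
    rw [h1]
    group

theorem pi_hfa_group {G : Type*} [Group G] [Finite G] {p : ℕ} [Fact p.Prime] (P : Sylow p G) :
    (P : Subgroup G) ⊓ pResidual p G ≤ Subgroup.closure {z : G | ∃ (Y : Subgroup G) (y g : G) (k : ℕ),
      Y ≤ (P : Subgroup G) ∧ y ∈ Y ∧ g ∈ Subgroup.normalizer (Y : Set G) ∧ k.Coprime p ∧
      (∀ y' ∈ Y, g ^ k * y' * (g ^ k)⁻¹ = y') ∧ z = y⁻¹ * (g * y * g⁻¹)} := by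
  rw [← Cfsg.Agent.S5093.result p P]
  apply Cfsg.Agent.Helper86.hyperfocal_le_of_forall_coprime
  intro Y hY a hcop x
  obtain ⟨g, hg⟩ := aut_is_conj (P : Subgroup G) Y (a : MulAut Y) a.2
  have hgN : g ∈ Subgroup.normalizer (Y : Set G) := by
    rw [Subgroup.mem_normalizer_iff]
    intro h
    constructor
    · intro hh
      have := hg ⟨h, hh⟩
      rw [← this]
      exact ((a : MulAut Y) ⟨h, hh⟩).2
    · intro hh
      obtain ⟨y, hy⟩ := (a : MulAut Y).surjective ⟨g * h * g⁻¹, hh⟩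
      have h1 := hg y
      rw [hy] at h1
      have h2 : (y : G) = h := by
        have h3 : g * h * g⁻¹ = g * (y : G) * g⁻¹ := h1
        exact (mul_left_cancel (mul_right_cancel h3)).symm
      rw [← h2]
      exact y.2
  have hpow : ∀ n : ℕ, ∀ y : Y, ((((a : MulAut Y) ^ n) y : Y) : G) = g ^ n * (y : G) * (g ^ n)⁻¹ := by
    intro n
    induction n with
    | zero => intro y; simp
    | succ n ih =>
      intro y
      rw [pow_succ, MulAut.mul_apply, ih, hg, pow_succ]
      group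
  refine Subgroup.subset_closure ⟨Y, x, g, orderOf a, hY, x.2, hgN, hcop, ?_, ?_⟩
  · intro y' hy'
    have h1 := hpow (orderOf a) ⟨y', hy'⟩
    have h2 : (a : MulAut Y) ^ orderOf a = 1 := by
      have h3 : ((a ^ orderOf a : (groupFusionSystem (P : Subgroup G)).autGroup Y) : MulAut Y) = 1 := by
        rw [pow_orderOf_eq_one]; rfl
      rwa [Subgroup.coe_pow] at h3
    rw [h2] at h1
    exact h1.symm
  · rw [hg]

end Cfsg.Agent.Helper10.PiHFAA
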