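import Mathlib
import Cfsg.Agent.Helper10.FFPair3
import Cfsg.Agent.Helper49.JComp

/-!
Helper10: in the failure-of-factorization setting for `p = 2` (`FFHyp 2 V H Q`), an element of
`H` normalizing a transvection subgroup `A` acts on the plane `W = ⁅V, ⟨A, A ^ x⟩⁆` (of order 4)
like an element of `A`.
-/

set_option autoImplicit false

namespace Cfsg.Agent.Helper10

open scoped commutatorElement Pointwise

theorem mem_normalizer_sup_of_mem {G : Type*} [Group G] (X Y : Subgroup G) {g : G}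
    (hX : g ∈ Subgroup.normalizer (X : Set G)) (hY : g ∈ Subgroup.normalizer (Y : Set G)) :
    g ∈ Subgroup.normalizer ((X ⊔ Y : Subgroup G) : Set G) := by
  rw [mem_normalizer_iff_conj_smul_eq] at hX hY ⊢
  have : MulAut.conj g • (X ⊔ Y) = MulAut.conj g • X ⊔ MulAut.conj g • Y :=
    Subgroup.map_sup _ _ _
  rw [this, hX, hY]

theorem card_two_enum {G : Type*} [Group G] {D : Subgroup G} (hD : Nat.card D = 2) {d : G}
    (hd : d ∈ D) (hd1 : d ≠ 1) : ∀ y ∈ D, y = 1 ∨ y = d := by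
  intro y hy
  by_contra hcon
  push Not at hcon
  obtain ⟨z, -, hz⟩ := (Nat.card_eq_two_iff' (1 : D)).mp hD
  have h1 : (⟨d, hd⟩ : D) = z := hz _ (fun h => hd1 (congrArg Subtype.val h))
  have h2 : (⟨y, hy⟩ : D) = z := hz _ (fun h => hcon.1 (congrArg Subtype.val h))
  exact hcon.2 (congrArg Subtype.val (h2.trans h1.symm))

/-- The plane of a transvection subgroup for `p = 2`. -/
theorem FFHyp.plane_two {G : Type*} [Group G] [Finite G] {V H Q : Subgroup G}
    [Fact (Nat.Prime 2)] (h : FFHyp 2 V H Q) {A : Subgroup G} (hA : IsTSub 2 V H A) :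
    ∃ W : Subgroup G, W ≤ V ∧ Nat.card W = 4 ∧ A ⊓ Subgroup.centralizer (W : Set G) = ⊥ ∧
      ∀ a ∈ H, a ∈ Subgroup.normalizer (A : Set G) →
        a ∈ Subgroup.normalizer (W : Set G) ∧
        ∃ t ∈ A, a * t ∈ Subgroup.centralizer (W : Set G) := by
  have hp : Nat.Prime 2 := Fact.out
  obtain ⟨x, hxQ, hxA⟩ := h.exists_not_mem_centralizer hA
  obtain ⟨-, hW4, hK, -, -, -⟩ := h.pair hA hxQ hxA
  have hsup := h.commutator_Q_sup hA hxQ hxA
  have hBH : A.map (MulAut.conj x).toMonoidHom ≤ H := (hA.conj h.hHV (h.hQH hxQ)).1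
  have hLH : A ⊔ A.map (MulAut.conj x).toMonoidHom ≤ H := sup_le hA.1 hBH
  have hWV : ⁅V, A ⊔ A.map (MulAut.conj x).toMonoidHom⁆ ≤ V :=
    commutator_le_of_le_normalizer V _ (hLH.trans h.hHV)
  obtain ⟨hc, hexp⟩ := (elemAb_iff 2 V).mp h.hV
  have hW4' : Nat.card ↥(⁅V, A ⊔ A.map (MulAut.conj x).toMonoidHom⁆) = 4 := by
    rw [hW4]; norm_num
  have hAW : A ⊓ Subgroup.centralizer
      ((⁅V, A ⊔ A.map (MulAut.conj x).toMonoidHom⁆ : Subgroup G) : Set G) = ⊥ := by
    rw [eq_bot_iff, ← hK]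
    exact inf_le_inf_right _ le_sup_left
  -- normalizing
  have hnorm : ∀ a ∈ H, a ∈ Subgroup.normalizer (A : Set G) →
      a ∈ Subgroup.normalizer
        ((⁅V, A ⊔ A.map (MulAut.conj x).toMonoidHom⁆ : Subgroup G) : Set G) := by
    intro a haH haA
    have h1 : a ∈ Subgroup.normalizer ((⁅Q, A⁆ : Subgroup G) : Set G) :=
      ffp_mem_normalizer_commutator Q A (h.hHQ haH) haA
    have h2 : a ∈ Subgroup.normalizer ((⁅Q, A⁆ ⊔ A : Subgroup G) : Set G) :=
      mem_normalizer_sup_of_mem _ _ h1 haA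
    rw [hsup] at h2
    exact ffp_mem_normalizer_commutator V _ (h.hHV haH) h2
  refine ⟨⁅V, A ⊔ A.map (MulAut.conj x).toMonoidHom⁆, hWV, hW4', hAW, ?_⟩
  intro a haH haA
  refine ⟨hnorm a haH haA, ?_⟩
  have hW2 : ∀ w ∈ ⁅V, A ⊔ A.map (MulAut.conj x).toMonoidHom⁆, w * w = 1 := by
    intro w hw
    have := hexp w (hWV hw)
    rwa [pow_two] at this
  have hAV : A ≤ Subgroup.normalizer (V : Set G) := hA.1.trans h.hHV
  have hDA := ffp_commutator_le_centralizer V A h.hV hAV hA.2.1 hA.2.2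
  have hDW : ⁅V, A⁆ ≤ ⁅V, A ⊔ A.map (MulAut.conj x).toMonoidHom⁆ :=
    Subgroup.commutator_mono le_rfl le_sup_left
  obtain ⟨d, hdD, hd1⟩ := ffp_exists_ne_one_of_card_prime hp hA.2.2
  obtain ⟨t, htA, ht1⟩ := ffp_exists_ne_one_of_card_prime hp hA.2.1
  have hDenum := card_two_enum hA.2.2 hdD hd1
  have hAenum := card_two_enum hA.2.1 htA ht1
  have htt : t * t = 1 := by
    rcases hAenum (t * t) (A.mul_mem htA htA) with h1 | h1
    · exact h1
    · exfalso; exact ht1 (mul_eq_left.mp h1)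
  have hdd : d * d = 1 := hW2 d (hDW hdD)
  -- `a` fixes `d`
  have haD : a ∈ Subgroup.normalizer ((⁅V, A⁆ : Subgroup G) : Set G) :=
    ffp_mem_normalizer_commutator V A (h.hHV haH) haA
  have had : a * d * a⁻¹ = d := by
    have h1 : a * d * a⁻¹ ∈ ⁅V, A⁆ := (Subgroup.mem_normalizer_iff.mp haD d).mp hdD
    rcases hDenum _ h1 with h2 | h2
    · exfalso; apply hd1
      have e : d = a⁻¹ * (a * d * a⁻¹) * a := by group
      rw [e, h2]; group
    · exact h2
  have htd : t * d * t⁻¹ = d := by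
    have h1 := Subgroup.mem_centralizer_iff.mp (hDA hdD) t htA
    rw [h1]; group
  have htH : t ∈ H := hA.1 htA
  have htN : t ∈ Subgroup.normalizer
      ((⁅V, A ⊔ A.map (MulAut.conj x).toMonoidHom⁆ : Subgroup G) : Set G) :=
    hnorm t htH (Subgroup.le_normalizer htA)
  -- `t` moves some `v`
  have hex : ∃ v ∈ ⁅V, A ⊔ A.map (MulAut.conj x).toMonoidHom⁆, t * v * t⁻¹ ≠ v := by
    by_contra hcon
    push Not at hcon
    apply ht1
    have h1 : t ∈ A ⊓ Subgroup.centralizer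
        ((⁅V, A ⊔ A.map (MulAut.conj x).toMonoidHom⁆ : Subgroup G) : Set G) := by
      refine Subgroup.mem_inf.mpr ⟨htA, ?_⟩
      rw [Subgroup.mem_centralizer_iff]
      intro w hw
      have h2 := hcon w hw
      calc w * t = t * w * t⁻¹ * t := by rw [h2]
        _ = t * w := by group
    rw [hAW] at h1
    exact Subgroup.mem_bot.mp h1
  obtain ⟨v, hvW, htv⟩ := hex
  obtain ⟨htv', hv1, hvd⟩ :=
    Helper49.four_conj hW4' hW2 htN (hDW hdD) hd1 htd hvW htv
  have henum := Helper49.four_enum hW4' hW2 (hDW hdD) hvW hd1 hv1 hvd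
  have hcent : ∀ g : G, g * d * g⁻¹ = d → g * v * g⁻¹ = v →
      g ∈ Subgroup.centralizer
        ((⁅V, A ⊔ A.map (MulAut.conj x).toMonoidHom⁆ : Subgroup G) : Set G) := by
    intro g hgd hgv
    rw [Subgroup.mem_centralizer_iff]
    intro w hw
    have key : g * w * g⁻¹ = w := by
      rcases henum w hw with h1 | h1 | h1 | h1
      · rw [h1]; group
      · rw [h1]; exact hgd
      · rw [h1]; exact hgv
      · rw [h1]
        calc g * (d * v) * g⁻¹ = (g * d * g⁻¹) * (g * v * g⁻¹) := by group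
          _ = d * v := by rw [hgd, hgv]
    calc w * g = g * w * g⁻¹ * g := by rw [key]
      _ = g * w := by group
  by_cases hav : a * v * a⁻¹ = v
  · refine ⟨1, A.one_mem, ?_⟩
    rw [mul_one]
    exact hcent a had hav
  · obtain ⟨hav', -, -⟩ :=
      Helper49.four_conj hW4' hW2 (hnorm a haH haA) (hDW hdD) hd1 had hvW hav
    refine ⟨t, htA, ?_⟩
    apply hcent
    · calc a * t * d * (a * t)⁻¹ = a * (t * d * t⁻¹) * a⁻¹ := by group
        _ = d := by rw [htd, had]
    · calc a * t * v * (a * t)⁻¹ = a * (t * v * t⁻¹) * a⁻¹ := by group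
        _ = a * (d * v) * a⁻¹ := by rw [htv']
        _ = (a * d * a⁻¹) * (a * v * a⁻¹) := by group
        _ = d * (d * v) := by rw [had, hav']
        _ = v := by rw [← mul_assoc, hdd, one_mul]

end Cfsg.Agent.Helper10
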